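import Cfsg.Agent.H40.CSSpec

/-! S4161, job `B`: basic facts on class sizes. -/

set_option autoImplicit false

open Cfsg Subgroup H40.CS

namespace H29.CSB

universe u

variable {G : Type u} [Group G] [Finite G]

theorem fact {H K : Subgroup G} (h : H.index.Coprime K.index) (k : G) :
    ∃ c ∈ H, ∃ d ∈ K, k = c * d := by
  have e : MulAction.stabilizer H ((1 : G) : G ⧸ K) = K.subgroupOf H := by
    ext c
    rw [MulAction.mem_stabilizer_iff, mem_subgroupOf]
    show (((c : G) * 1 : G) : G ⧸ K) = ((1 : G) : G ⧸ K) ↔ _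
    rw [QuotientGroup.eq, mul_one, mul_one, inv_mem_iff]
  have d : K.index ∣ K.relIndex H := by
    refine h.symm.dvd_of_dvd_mul_right ?_
    rw [← inf_relIndex_right, relIndex_mul_index inf_le_right]
    exact index_dvd_of_le inf_le_left
  have o : MulAction.orbit H ((1 : G) : G ⧸ K) = Set.univ := by
    refine Set.eq_of_subset_of_ncard_le (Set.subset_univ _) ?_
    rw [← MulAction.index_stabilizer, e, Set.ncard_univ]
    exact Nat.le_of_dvd (Nat.pos_of_ne_zero index_ne_zero_of_finite) d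
  obtain ⟨c, hc⟩ : ((k : G) : G ⧸ K) ∈ MulAction.orbit H ((1 : G) : G ⧸ K) := o ▸ trivial
  have hc' : (((c : G) * 1 : G) : G ⧸ K) = (k : G ⧸ K) := hc
  rw [QuotientGroup.eq, mul_one] at hc'
  exact ⟨c, c.2, _, hc', by group⟩

theorem f1 (g h : G) (hc : (cs g).Coprime (cs h)) (k : G) :
    ∃ c : G, Commute c g ∧ k * h * k⁻¹ = c * h * c⁻¹ := by
  obtain ⟨c, h1, d, h2, rfl⟩ := fact hc k
  refine ⟨c, mem_centralizer_singleton_iff.1 h1, ?_⟩
  rw [mul_assoc c, mem_centralizer_singleton_iff.1 h2]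
  group

theorem f2 (a b : G) (h : Commute a b) (hc : (orderOf a).Coprime (orderOf b)) :
    cs a ∣ cs (a * b) := by
  obtain ⟨n, h1, h2⟩ := Nat.chineseRemainder hc 1 0
  have e : (a * b) ^ n = a := by
    rw [h.mul_pow, pow_eq_pow_iff_modEq.2 h1, pow_eq_pow_iff_modEq.2 h2, pow_one, pow_zero, mul_one]
  refine index_dvd_of_le fun x hx => mem_centralizer_singleton_iff.2 ?_
  have := (show Commute x (a * b) from mem_centralizer_singleton_iff.1 hx).pow_right n
  rwa [e] at this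

theorem f3 (s : ℕ) [Fact s.Prime] (g : G) :
    ¬ s ∣ cs g ↔ ∃ T : Sylow s G, ∀ t ∈ T, Commute t g := by
  constructor
  · intro h
    obtain ⟨R⟩ : Nonempty (Sylow s (centralizer ({g} : Set G))) := inferInstance
    refine ⟨(R.2.map (centralizer ({g} : Set G)).subtype).toSylow ?_, ?_⟩
    · rw [index_map_subtype]
      exact fun e => ((Fact.out : s.Prime).dvd_mul.1 e).elim R.not_dvd_index h
    · rintro _ ⟨t, -, rfl⟩
      exact mem_centralizer_singleton_iff.1 t.2
  · rintro ⟨T, h⟩ e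
    exact T.not_dvd_index (e.trans (index_dvd_of_le fun t ht =>
      mem_centralizer_singleton_iff.2 (h t ht)))

omit [Finite G] in
theorem cs_conj (k d : G) : cs (k * d * k⁻¹) = cs d := by
  have : centralizer ({d} : Set G) = (centralizer {k * d * k⁻¹}).comap (MulAut.conj k).toMonoidHom := by
    ext x
    rw [mem_comap, mem_centralizer_singleton_iff, mem_centralizer_singleton_iff]
    show _ ↔ k * x * k⁻¹ * (k * d * k⁻¹) = k * d * k⁻¹ * (k * x * k⁻¹)
    rw [conj_mul, conj_mul, mul_left_inj, mul_right_inj]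
  rw [cs, cs, this, index_comap_of_surjective _ (MulAut.conj k).surjective]

theorem into {s : ℕ} [Fact s.Prime] (T : Sylow s G) {d : G} (h : IsPrim s d) :
    ∃ k : G, k * d * k⁻¹ ∈ T := by
  obtain ⟨n, hn⟩ := h
  obtain ⟨R, hR⟩ := (IsPGroup.of_card ((Nat.card_zpowers d).trans hn)).exists_le_sylow
  obtain ⟨k, rfl⟩ := MulAction.exists_smul_eq G R T
  exact ⟨k, smul_mem_pointwise_smul _ (MulAut.conj k) _ (hR (mem_zpowers d))⟩

theorem job : JobB.{u} := by
  intro G _ _
  refine ⟨f1, f2, f3, fun s hs b d h1 h2 h3 => ?_, fun s hs g h h1 h2 h3 => ?_⟩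
  · have : Fact s.Prime := ⟨hs⟩
    obtain ⟨T, hT⟩ := (f3 s b).1 h1
    obtain ⟨k, hk⟩ := into T h3
    obtain ⟨n, hn⟩ := h3
    have c : (orderOf (k * d * k⁻¹)).Coprime (orderOf b) := by
      rw [show orderOf (k * d * k⁻¹) = orderOf d from (MulAut.conj k).orderOf_eq d, hn]
      exact (hs.coprime_iff_not_dvd.2 h2).pow_left n
    refine ⟨k * d * k⁻¹ * b, ?_, cs_conj k d ▸ f2 _ _ (hT _ hk) c⟩
    rw [(hT _ hk).eq]
    exact f2 _ _ (hT _ hk).symm c.symm
  · have : Fact s.Prime := ⟨hs⟩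
    obtain ⟨T, hT⟩ := (f3 s h).1 h2
    obtain ⟨k, hk⟩ := into T h1
    obtain ⟨c, c1, c2⟩ := f1 h g h3.symm k
    have := (c1.inv_left.mul_left ((c2 ▸ hT _ hk).mul_left c1))
    rwa [show c⁻¹ * (c * g * c⁻¹ * c) = g by group] at this

end H29.CSB
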