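/- Tower DG, slot Cusp: non-real cuspidal characters of `GL_k` -/
import Cfsg.Agent.H53.DGSpec2
import Cfsg.Agent.H63.Cusp4

set_option autoImplicit false
set_option linter.unusedSectionVars false

noncomputable section

namespace H29.DG

open Module Polynomial LinearMap H53 Finset Cfsg H28 H63.Cusp H53.DG
open scoped ComplexConjugate

variable {F : Type} [Field F] [Fintype F] {K : Type*} [Field K] [Fintype K] [Algebra F K]

theorem D_conj (b : F[X] → ℂ) (n : ℕ) : ∀ {V : Type} [AddCommGroup V] [Module F V] [Finite V] (g : End F V),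
    finrank F V = n → conj (D b g) = D (fun P => conj (b P)) g := by
  classical
  induction n using Nat.strong_induction_on with | _ n ih =>
  rintro V _ _ _ g rfl
  rw [D_eq, D_eq, map_sub, map_sum]
  congr 1
  refine sum_congr rfl fun U _ => ?_
  split_ifs with hU
  · exact map_zero _
  · unfold d
    split_ifs with h
    · exact ih _ (Submodule.finrank_lt hU) _ rfl
    · exact map_zero _

theorem conj_chi (θ : Kˣ →* ℂˣ) (n : ℕ) (g : GL (Fin n) F) : conj (chi θ⁻¹ n g) = chi θ n g := by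
  rw [chi, chi, map_mul, D_conj _ _ _ rfl]
  congr 2
  · simp
  · funext P
    simp only [bl, map_sum, map_mul, map_natCast]
    refine sum_congr rfl fun c _ => ?_
    rw [← (isCharacter_of_hom θ⁻¹).isGeneralizedCharacter.apply_inv]
    simp

theorem D_smul {b : F[X] → ℂ} {t : ℂ} {c : F} (hb : ∀ k : ℕ, b ((X - C c) ^ k) = k * t) (n : ℕ) :
    ∀ {V : Type} [AddCommGroup V] [Module F V] [Finite V], finrank F V = n →
      D b (c • 1 : End F V) = dg (Nat.card F) n * t := by
  classical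
  induction n using Nat.strong_induction_on with | _ n ih =>
  rintro V _ _ _ rfl
  have e : (c • 1 : End F V).charpoly = (X - C c) ^ finrank F V := by
    rw [← charpoly_toMatrix _ (Module.finBasis F V), map_smul, toMatrix_one, Matrix.smul_one_eq_diagonal,
      Matrix.charpoly_diagonal]
    simp
  rw [D_eq, e, hb, ← sum_dg (F := F) _ rfl, sum_mul, ← sum_sub_distrib,
    sum_eq_single ⊤ (fun U _ hU => ?_) (by simp), if_pos rfl, sub_zero, finrank_top]
  rw [if_neg hU, d, dif_pos (show Iv (c • 1) U from fun _ h => U.smul_mem c h),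
    ← ih _ (Submodule.finrank_lt hU) rfl]
  exact sub_self _

theorem bl_C (θ : Kˣ →* ℂˣ) {c : F} {x : Kˣ} (hx : (x : K) = algebraMap F K c) (k : ℕ) :
    bl θ ((X - C c : F[X]) ^ k) = k * θ x := by
  classical
  rw [(ad_bl θ).pow (monic_X_sub_C c), bl, sum_eq_single x]
  · simp [hx, rootMultiplicity_X_sub_C_self]
  · intro y _ hy
    have : (y : K) ≠ algebraMap F K c := fun e => hy (Units.ext (e.trans hx.symm))
    simp [rootMultiplicity_X_sub_C, this]
  · simp

theorem chi_scalar (θ : Kˣ →* ℂˣ) {n : ℕ} {c : F} {x : Kˣ} (hx : (x : K) = algebraMap F K c)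
    {g : GL (Fin n) F} (hg : (g : Matrix (Fin n) (Fin n) F) = c • 1) : chi θ n g = θ x * chi (F := F) θ n 1 := by
  have e : rho F n g = c • 1 := LinearMap.ext fun v => by simp [rho, hg]
  rw [chi, chi, e, map_one, D_smul (bl_C θ hx) n (finrank_fin_fun F), D_one (bl_one θ) n (finrank_fin_fun F)]
  ring

theorem chi_rad [DecidableEq F] (θ : Kˣ →* ℂˣ) {n : ℕ} (U : Submodule F (Fin n → F)) (h0 : U ≠ ⊥)
    (h1 : U ≠ ⊤) : ∑ᶠ a : Rad U, chi (F := F) θ n a = 0 := by
  classical
  have h := kill (ad_bl θ) (U := U) (φ := fun g => if Nil U (g - 1) then 1 else 0) h0 h1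
    (fun g h => if_neg fun h' => h fun w hw => by rwa [show g w = w from sub_eq_zero.1 (h'.2 w hw)])
    fun g x _ hx => if_congr ⟨fun h => ⟨fun v => by
      simpa [add_sub_right_comm] using U.sub_mem (h.1 v) (hx.1 v),
      fun w hw => by simpa [hx.2 w hw] using h.2 w hw⟩, fun h => ⟨fun v => by
        simpa [add_sub_right_comm] using U.add_mem (h.1 v) (hx.1 v),
      fun w hw => by simpa [hx.2 w hw] using h.2 w hw⟩⟩ rfl rfl
  rw [← sum_rho _ fun g hg => by
    rw [if_neg fun h' => hg ?_, mul_zero]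
    rw [isUnit_iff_coeff, ← add_sub_cancel 1 g, charpoly_add (fun _ h => h) h', ← isUnit_iff_coeff]
    exact isUnit_one] at h
  rw [finsum_eq_sum_of_fintype, ← sum_subtype (univ.filter (· ∈ Rad U)) (by simp) (chi θ n), sum_filter]
  refine .trans ?_ ((mul_sum ..).symm.trans (mul_eq_zero_of_right ((-1 : ℂ) ^ (n - 1)) h))
  refine sum_congr rfl fun g _ => ?_
  rw [mul_ite, mul_ite, mul_one, mul_zero, mul_zero, chi]
  refine if_congr ?_ rfl rfl
  simp only [Nil, LinearMap.sub_apply, End.one_apply, sub_eq_zero]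
  rfl

theorem chi_irr [DecidableEq F] {θ : Kˣ →* ℂˣ} (hθ : Function.Injective θ) {n j a : ℕ} (hn : n ≠ 0)
    (h1 : Nat.card F ^ n - 1 ∣ Nat.card Kˣ) (h2 : Nat.card (GL (Fin n) F) ∣ Nat.card Kˣ * Nat.card K ^ j)
    (ha : a ≠ 0) (haq : a ≤ Nat.card F) : IsIrrCharacter (GL (Fin n) F) (chi (θ ^ a) n) := by
  have hq : 1 < Nat.card F := Finite.one_lt_card
  refine H28.Cfsg.IsGeneralizedCharacter.irr_of_norm_one ?_ ?_ ?_
  · have := H28.Cfsg.IsGeneralizedCharacter.intCast_smul (isGen_D (isGen_bl (θ ^ a)) _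
      (rho F n) rfl h2) ((-1) ^ (n - 1))
    push_cast at this
    exact this
  · rw [inner_chi hθ hn h1, Nat.cast_eq_one, Finset.card_eq_one]
    refine ⟨0, Finset.eq_singleton_iff_unique_mem.2 ⟨Finset.mem_filter.2 ⟨Finset.mem_range.2 (by omega), by
      rw [pow_zero, mul_one]⟩, fun i hi => ?_⟩⟩
    obtain ⟨hi, e⟩ := Finset.mem_filter.1 hi
    by_contra h
    have e1 := Nat.one_lt_pow h hq
    have e2 : Nat.card F ^ (i + 1) ≤ Nat.card F ^ n := Nat.pow_le_pow_right hq.le (Finset.mem_range.1 hi)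
    have e3 := (Nat.modEq_iff_dvd' (Nat.le_mul_of_pos_right a (by omega))).1 e
    rw [← Nat.mul_sub_one] at e3
    have e4 := Nat.le_of_dvd (Nat.mul_pos (by omega) (by omega)) e3
    have e5 := Nat.mul_le_mul_right (Nat.card F ^ i - 1) haq
    rw [Nat.mul_sub_one (Nat.card F), ← pow_succ'] at e5
    have : Nat.card F ≤ Nat.card F ^ (i + 1) := Nat.le_self_pow (by omega) _
    omega
  · rw [chi_one _ hn]
    have : 0 ≤ ∏ i ∈ Finset.Ico 1 n, ((Nat.card F : ℝ) ^ i - 1) := Finset.prod_nonneg fun i _ =>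
      sub_nonneg.2 (one_le_pow₀ (by exact_mod_cast hq.le))
    exact_mod_cast this

theorem chi_one' (θ : Kˣ →* ℂˣ) {n : ℕ} (hn : n ≠ 0) :
    chi (F := F) θ n 1 = (∏ i ∈ Ico 1 n, (Fintype.card F ^ i - 1) : ℕ) := by
  rw [chi_one θ hn, Nat.cast_prod, Nat.card_eq_fintype_card]
  exact prod_congr rfl fun i _ => by rw [Nat.cast_pred (pow_pos Fintype.card_pos i), Nat.cast_pow]

theorem chi_sq [DecidableEq F] {θ : Kˣ →* ℂˣ} (hθ : Function.Injective θ) {n a : ℕ} (hn : n ≠ 0)
    (h1 : Nat.card F ^ n - 1 ∣ Nat.card Kˣ) (ha : a ≠ 0)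
    (hl : a * (1 + Nat.card F ^ (n - 1)) < Nat.card F ^ n - 1) :
    ∑ g : GL (Fin n) F, chi (θ ^ a) n g * chi (θ ^ a) n g = 0 := by
  have hq : 1 < Nat.card F := Finite.one_lt_card
  have hM : 1 ≤ Nat.card Kˣ := Nat.card_pos
  have e : (θ ^ a)⁻¹ = θ ^ (a * (Nat.card Kˣ - 1)) := MonoidHom.ext fun x => by
    rw [MonoidHom.inv_apply, MonoidHom.pow_apply, MonoidHom.pow_apply, inv_eq_iff_mul_eq_one, ← pow_add,
      ← mul_one_add, Nat.add_sub_cancel' hM, pow_mul', ← map_pow, pow_card_eq_one', map_one,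
      one_pow]
  have h := inner_chi (F := F) hθ hn h1 a (a * (Nat.card Kˣ - 1))
  rw [← e, filter_eq_empty_iff.2 fun i hi e1 => ?_, classInner] at h
  · simpa [conj_chi] using h
  · have e2 := e1.add_right (a * Nat.card F ^ i)
    rw [← add_mul, ← mul_add_one, Nat.sub_add_cancel hM, ← mul_one_add] at e2
    have e3 := (Nat.modEq_zero_iff_dvd.1 (e2.trans (Nat.modEq_zero_iff_dvd.2
      ((h1.mul_left a).mul_right _))))
    have e4 := Nat.le_of_dvd (Nat.mul_pos (by omega) (by omega)) e3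
    have e5 : Nat.card F ^ i ≤ Nat.card F ^ (n - 1) :=
      Nat.pow_le_pow_right hq.le (by have := mem_range.1 hi; omega)
    have := Nat.mul_le_mul_left a (Nat.add_le_add_left e5 1)
    omega

theorem arith {q k a : ℕ} (hk : 1 ≤ k) (h : a + 1 < q ^ (k - 1) * (q - a)) (ha : a ≤ q) :
    a * (1 + q ^ (k - 1)) < q ^ k - 1 := by
  obtain ⟨k, rfl⟩ := Nat.exists_eq_add_of_le' hk
  obtain ⟨c, rfl⟩ := Nat.exists_eq_add_of_le ha
  simp only [Nat.add_sub_cancel, Nat.add_sub_cancel_left, pow_succ] at h ⊢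
  refine Nat.lt_sub_of_add_lt ?_
  nlinarith

theorem jobCusp : ACusp := fun F _ _ _ k hk h2 h3 => by
  obtain ⟨p, _⟩ := CharP.exists F
  have := Fact.mk (CharP.char_is_prime F p)
  have hq : 1 < Nat.card F := Finite.one_lt_card
  obtain ⟨l, j, hl, d1, d2⟩ := exists_exp (Nat.card F) k (N := Nat.card (GL (Fin k) F))
    Nat.card_pos.ne' (by omega) (by omega)
  have := NeZero.mk hl
  let K := FiniteField.Extension F p l
  have := Fintype.ofFinite K
  rw [← FiniteField.natCard_extension F p l, ← Nat.card_units] at d1 d2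
  obtain ⟨θ, hθ⟩ := exists_inj (K := K)
  rw [← Nat.card_eq_fintype_card] at h2 h3
  obtain ⟨a, a1, a2, a3, a4⟩ : ∃ a, 1 ≤ a ∧ a ≤ Nat.card F ∧ a + 1 < Nat.card F ^ (k - 1) * (Nat.card F - a) ∧
      (3 ≤ k ∨ (k = 2 ∧ 4 ≤ Nat.card F) → (-1 : Kˣ) ^ a = 1) := by
    have p2 : 3 ≤ k → Nat.card F * Nat.card F ≤ Nat.card F ^ (k - 1) := fun h =>
      (pow_two _).ge.trans (Nat.pow_le_pow_right hq.le (by omega))
    have p1 : 2 ≤ k → Nat.card F ≤ Nat.card F ^ (k - 1) := fun h => Nat.le_self_pow (by omega) _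
    have p0 : 1 ≤ Nat.card F ^ (k - 1) := Nat.one_le_pow _ _ (by omega)
    by_cases h : (3 ≤ k ∨ (k = 2 ∧ 4 ≤ Nat.card F)) ∧ Nat.card F ≠ 2
    · refine ⟨2, one_le_two, hq, ?_, fun _ => neg_one_sq⟩
      obtain ⟨c, hc⟩ : ∃ c, Nat.card F = c + 3 := ⟨Nat.card F - 3, by omega⟩
      rw [show Nat.card F - 2 = c + 1 by omega]
      rcases h.1 with h' | h'
      · have := p2 h'; nlinarith
      · have := p1 h'.1.ge
        have : 1 ≤ c := by omega
        nlinarith
    · refine ⟨1, le_rfl, hq.le, ?_, fun h' => ?_⟩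
      · obtain ⟨c, hc⟩ : ∃ c, Nat.card F = c + 2 := ⟨Nat.card F - 2, by omega⟩
        rw [show Nat.card F - 1 = c + 1 by omega]
        by_cases k3 : 3 ≤ k
        · have := p2 k3; nlinarith
        · by_cases k2 : 2 ≤ k
          · have := p1 k2
            have : 1 ≤ c := by omega
            nlinarith
          · have : 2 ≤ c := by omega
            nlinarith
      · have e := FiniteField.pow_card (-1 : F)
        rw [← Nat.card_eq_fintype_card, not_not.1 fun e => h ⟨h', e⟩, neg_one_sq] at e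
        exact Units.ext (by simpa using congrArg (algebraMap F K) e.symm)
  have hi := chi_irr (F := F) hθ (by omega) d1 d2 (by omega) a2
  have hs := chi_sq (F := F) hθ (by omega) d1 (by omega) (arith hk a3 a2)
  refine ⟨_, hi, chi_one' _ (by omega), ⟨chi_rad _, ?_⟩, hs, fun h => ?_⟩
  · rw [finsum_eq_sum_of_fintype]
    refine H28.Cfsg.IsIrrCharacter.sum_eq_zero hi fun e => ?_
    simp [e] at hs
  · rw [chi_scalar (c := -1) (x := -1) _ (by simp) (by simp), MonoidHom.pow_apply, ← map_pow,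
      a4 (by rwa [Nat.card_eq_fintype_card]), map_one, Units.val_one, one_mul]

end H29.DG
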