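/- Tower DG, slot Cusp2: a cuspidal character of `PGL_2` and its sum over the trace zero matrices -/
import Cfsg.Agent.H29.DGCusp

set_option autoImplicit false
set_option linter.unusedSectionVars false

noncomputable section

namespace H29.DG

open Module Polynomial LinearMap H53 Finset Cfsg H28 H63.Cusp H53.DG
open scoped Classical

variable {F : Type} [Field F] [Fintype F] {K : Type*} [Field K] [Fintype K] [Algebra F K]

theorem frob (x : K) : x ^ Nat.card F = FiniteField.frobeniusAlgHom F K x := by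
  rw [FiniteField.coe_frobeniusAlgHom, Nat.card_eq_fintype_card]

theorem map_two {x : K} {m : ℕ} (h : 2 = (minpoly F x).natDegree * m) :
    (minpoly F x ^ m).map (algebraMap F K) = (X - C x) * (X - C (x ^ Nat.card F)) := by
  rw [Polynomial.map_pow, map_minpoly]
  rcases (Nat.dvd_prime Nat.prime_two).1 (Dvd.intro _ h.symm) with e | e
  · have := (deg_dvd_iff (F := F) x 1).1 (by rw [e])
    rw [pow_one] at this
    rw [e, one_mul] at h
    subst h
    rw [e, this]; simp [pow_two]
  · have : m = 1 := by rw [e] at h; omega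
    simp [e, this, prod_range_succ]

/-- the indicator function of the polynomials `X ^ 2 + c`, `c ≠ 0` -/
def psi (P : F[X]) : ℂ := if P.coeff 1 = 0 ∧ P.coeff 0 ≠ 0 then 1 else 0

theorem sum_tr (θ : Kˣ →* ℂˣ) : ((Nat.card F : ℂ) ^ 2 - 1) *
    ∑ g : End F (Fin 2 → F), D (bl θ) g * psi g.charpoly =
    Nat.card (End F (Fin 2 → F))ˣ * ∑ x : Kˣ, if (x : K) ^ Nat.card F = -x then (θ x : ℂ) else 0 := by
  have : Finite (degreeLT F (2 + 1)) := .of_equiv _ (degreeLTEquiv F _).symm.toEquiv
  have hf : {P : F[X] | P.Monic ∧ P.natDegree = 2}.Finite :=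
    (Set.toFinite (degreeLT F (2 + 1) : Set F[X])).subset fun P hP => mem_degreeLT.2 (by
      rw [degree_eq_natDegree hP.1.ne_zero, hP.2]; exact_mod_cast Nat.lt_succ_self _)
  have h := cyc_sum (V := Fin 2 → F) (ad_bl θ) (vm_bl θ)
    psi (M := hf.toFinset) (by simp)
  rw [Nat.card_fun, Nat.card_fin, Nat.cast_pow] at h
  rw [h]
  simp only [vm, sum_mul]
  rw [sum_comm]
  refine congrArg _ (sum_congr rfl fun x _ => ?_)
  have hi := Algebra.IsIntegral.isIntegral (R := F) (x : K)
  have hx := deg_dvd_iff (F := F) (x : K) 2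
  by_cases h : (x : K) ^ Nat.card F ^ 2 = x
  · obtain ⟨m, hm⟩ := hx.2 h
    rw [sum_eq_single (minpoly F (x : K) ^ m), if_pos ⟨m, Nat.pos_of_mul_pos_left (hm ▸ two_pos), rfl⟩,
      psi, mul_ite, mul_one, mul_zero]
    · refine if_congr ?_ rfl rfl
      have e := congrArg (coeff · 1) (map_two hm)
      simp only [coeff_map] at e
      rw [and_iff_left, ← map_eq_zero_iff _ (algebraMap F K).injective, e]
      · rw [sub_mul, mul_sub, mul_sub, ← C_mul]
        simp only [coeff_sub, coeff_X_mul, coeff_C_mul, coeff_X_zero, coeff_C_zero, coeff_X_one, coeff_C_succ]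
        exact ⟨fun e => by linear_combination -e, fun e => by linear_combination -e⟩
      · rw [coeff_zero_eq_eval_zero, eval_pow, ← coeff_zero_eq_eval_zero]
        exact pow_ne_zero _ (minpoly.coeff_zero_ne_zero hi x.ne_zero)
    · intro P hP h
      rw [if_neg, zero_mul]
      rintro ⟨k, -, rfl⟩
      have := (hf.mem_toFinset.1 hP).2
      rw [hm, natDegree_pow, mul_comm, mul_right_inj' (minpoly.natDegree_pos hi).ne'] at this
      exact h (by rw [this])
    · exact fun h => (h (hf.mem_toFinset.2 ⟨(minpoly.monic hi).pow m, by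
        rw [natDegree_pow, hm, mul_comm]⟩)).elim
  · rw [if_neg fun e => h (by rw [pow_two, pow_mul, e, frob (F := F) (-(x : K)), map_neg, ← frob, e, neg_neg])]
    refine sum_eq_zero fun P hP => ?_
    rw [if_neg, zero_mul]
    rintro ⟨k, -, rfl⟩
    exact h (hx.1 ((hf.mem_toFinset.1 hP).2 ▸ natDegree_pow (minpoly F (x : K)) k ▸ dvd_mul_left ..))

theorem card_neg (h1 : Nat.card F ^ 2 - 1 ∣ Nat.card Kˣ) :
    (univ.filter fun x : Kˣ => x ^ (Nat.card F - 1) = -1).card = Nat.card F - 1 := by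
  have hq : 1 < Nat.card F := Finite.one_lt_card
  have c1 : ∀ N, N ∣ Nat.card Kˣ → Nat.card (powMonoidHom N : Kˣ →* Kˣ).ker = N := fun N hN =>
    (IsCyclic.card_powMonoidHom_ker Kˣ N).trans (Nat.gcd_eq_right hN)
  have c2 := c1 _ ((Nat.sub_one_dvd_pow_sub_one (Nat.card F) 2).trans h1)
  have e : ∀ (x : Kˣ) (N : ℕ), 1 ≤ N → x ^ N = x ^ (N - 1) * x := fun x N h => by
    rw [← pow_succ, Nat.sub_add_cancel h]
  obtain ⟨y, hy, hy'⟩ := SetLike.not_le_iff_exists.1 fun h : (powMonoidHom (Nat.card F ^ 2 - 1) : Kˣ →* Kˣ).ker ≤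
      (powMonoidHom (Nat.card F - 1)).ker => by
    have := Subgroup.card_le_of_le h
    rw [c1 _ h1, c2] at this
    have : Nat.card F * 2 ≤ Nat.card F ^ 2 := by rw [pow_two]; exact Nat.mul_le_mul_left _ hq
    omega
  rw [MonoidHom.mem_ker, powMonoidHom_apply] at hy hy'
  have y1 : (y : K) ^ Nat.card F - y ≠ 0 := fun h => hy' (mul_right_cancel (b := y) (by
    rw [← e y _ hq.le, one_mul]; exact Units.ext (sub_eq_zero.1 h)))
  have y2 : ((y : K) ^ Nat.card F) ^ Nat.card F = y := by
    rw [← pow_mul, ← pow_two, ← Units.val_pow_eq_pow_val, e y _ (Nat.one_le_pow _ _ (by omega)), hy, one_mul]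
  have y3 : Units.mk0 _ y1 ^ (Nat.card F - 1) = -1 := mul_right_cancel (b := Units.mk0 _ y1) (by
    rw [← e _ _ hq.le]
    refine Units.ext ?_
    simp only [Units.val_pow_eq_pow_val, Units.val_mk0, Units.val_mul, Units.val_neg, Units.val_one]
    rw [frob (_ - _), map_sub, ← frob, ← frob, y2]; ring)
  refine Eq.trans ?_ c2
  rw [Nat.card_eq_fintype_card (α := MonoidHom.ker _), Fintype.card_subtype]
  convert MonoidHom.card_fiber_eq_of_mem_range (powMonoidHom (Nat.card F - 1) : Kˣ →* Kˣ) ⟨_, y3⟩ ⟨1, map_one _⟩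
  exacts [rfl, Iff.rfl]

theorem jobCusp2 : ACusp2 := fun F _ _ _ => by
  obtain ⟨p, _⟩ := CharP.exists F
  have := Fact.mk (CharP.char_is_prime F p)
  have hq : 1 < Nat.card F := Finite.one_lt_card
  obtain ⟨l, j, hl, d1, d2⟩ := exists_exp (Nat.card F) 2 (N := Nat.card (GL (Fin 2) F))
    Nat.card_pos.ne' (by omega) (by omega)
  have := NeZero.mk hl
  let K := FiniteField.Extension F p l
  have := Fintype.ofFinite K
  rw [← FiniteField.natCard_extension F p l, ← Nat.card_units] at d1 d2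
  obtain ⟨θ, hθ⟩ := exists_inj (K := K)
  have hi := chi_irr (F := F) (a := Nat.card F - 1) hθ two_ne_zero d1 d2 (by omega) (by omega)
  refine ⟨_, hi, by simpa using chi_one' (F := F) _ two_ne_zero, ⟨chi_rad _, ?_⟩, fun c hc => ?_, ?_⟩
  · rw [finsum_eq_sum_of_fintype]
    refine H28.Cfsg.IsIrrCharacter.sum_eq_zero hi fun e => ?_
    have h0 : (Pi.single 0 1 : Fin 2 → F) ≠ 0 := by simp
    have := chi_rad (F := F) (θ ^ (Nat.card F - 1)) (Submodule.span F {Pi.single (0 : Fin 2) 1})
      (by simp) (fun e => by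
        have := finrank_span_singleton (K := F) h0
        rw [e, finrank_top, finrank_fin_fun] at this
        omega)
    rw [e, finsum_eq_sum_of_fintype] at this
    simp at this
  · have hu : IsUnit (c • 1 : Matrix (Fin 2) (Fin 2) F) :=
      IsUnit.of_mul_eq_one (c⁻¹ • 1) (by simp [smul_smul, hc])
    rw [← hu.unit_spec, xm_apply, chi_scalar (c := c) (x := Units.map (algebraMap F K) (Units.mk0 c hc)) _ rfl
      hu.unit_spec, MonoidHom.pow_apply, ← map_pow, ← map_pow, ← Nat.card_units, pow_card_eq_one', map_one,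
      map_one, Units.val_one, one_mul]
  · have h := sum_tr (F := F) (θ ^ (Nat.card F - 1))
    have e1 : ∑ x : Kˣ, (if (x : K) ^ Nat.card F = -x then ((θ ^ (Nat.card F - 1)) x : ℂ) else 0) =
        (Nat.card F - 1 : ℕ) * θ (-1) := by
      rw [← sum_filter, ← nsmul_eq_mul]
      conv_rhs => rw [← card_neg d1, ← sum_const]
      have e : ∀ x : Kˣ, (x : K) ^ Nat.card F = -x ↔ x ^ (Nat.card F - 1) = -1 := fun x => by
        rw [← mul_left_inj x, ← pow_succ, Nat.sub_add_cancel hq.le, ← Units.val_inj]; simp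
      refine sum_congr (filter_congr fun x _ => e x) fun x hx => ?_
      rw [MonoidHom.pow_apply, ← map_pow, (mem_filter.1 hx).2]
    have e2 : ∑ m : Matrix (Fin 2) (Fin 2) F with m.trace = 0, xm (chi (θ ^ (Nat.card F - 1)) 2) m =
        -∑ g : End F (Fin 2 → F), D (bl (θ ^ (Nat.card F - 1))) g * psi g.charpoly := by
      rw [sum_filter, ← sum_neg_distrib]
      refine Fintype.sum_equiv (Matrix.toLinAlgEquiv' (R := F)).toEquiv _ _ fun m => ?_
      have t : m.trace = 0 ↔ (Matrix.toLin' m).charpoly.coeff 1 = 0 := by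
        rw [Matrix.charpoly_toLin', Matrix.trace_eq_neg_charpoly_coeff, neg_eq_zero]; rfl
      change _ = -(D _ (Matrix.toLin' m) * psi (Matrix.toLin' m).charpoly)
      simp only [psi, ← t, ← isUnit_iff_coeff, Matrix.isUnit_toLin'_iff]
      by_cases hu : IsUnit m
      · obtain ⟨a, rfl⟩ := hu
        simp only [xm_apply, and_iff_left a.isUnit, chi]
        split_ifs
        · simp; rfl
        · simp
      · rw [xm, Function.extend_apply' _ _ _ hu]
        simp [hu]
    rw [e1, ← Nat.card_congr (Units.mapEquiv (Matrix.toLinAlgEquiv' (R := F)).toMulEquiv).toEquiv] at h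
    have e3 : Nat.card (Matrix (Fin 2) (Fin 2) F)ˣ = _ := Matrix.card_GL_field (𝔽 := F) 2
    have e4 : (θ (-1) : ℂ) ^ 2 = 1 := by rw [← Units.val_pow_eq_pow_val, ← map_pow, neg_one_sq, map_one]; rfl
    have q2 : Nat.card F ≤ Nat.card F ^ 2 := Nat.le_self_pow two_ne_zero _
    have q3 : ((Nat.card F : ℂ) ^ 2 - 1) ≠ 0 := sub_ne_zero.2 (by exact_mod_cast (hq.trans_le q2).ne')
    rw [e3, Fin.prod_univ_two, ← Nat.card_eq_fintype_card] at h
    simp only [Fin.val_zero, Fin.val_one, pow_zero, pow_one] at h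
    rw [Nat.cast_mul, Nat.cast_sub q2, Nat.cast_sub (hq.le.trans q2), Nat.cast_sub hq.le, Nat.cast_pow,
      Nat.cast_one, mul_assoc, mul_right_inj' q3] at h
    rw [e2, h, ← Nat.card_eq_fintype_card]
    linear_combination ((Nat.card F : ℂ) * (Nat.card F - 1) ^ 2) ^ 2 * e4

end H29.DG
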