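import Cfsg.Agent.H56.DgSpec

/-! Tower DG (S5732), slots `Ind` and `Ab`. -/

set_option autoImplicit false

namespace H29.DG

open Subgroup H56.DG

universe u

theorem jobInd : JobInd.{u} := by
  intro H V _ _ _ _ _ ι _ B hc hcm hd
  classical
  have : ∀ i, Fintype (B i) := fun i => Fintype.ofFinite _
  have key : ∀ w : ∀ i, cv V (B i : Set H), ∏ i, (w i).1 = 1 → w = 1 := fun w hw => by
    funext i
    have h1 : ∀ j, j ≠ i → ∏ b : B i, (b : H) • (w j).1 = 1 := fun j hj => by
      refine hd i j hj.symm _ (fun s hs => ?_) fun s hs => ?_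
      · rw [Finset.smul_prod']
        exact Fintype.prod_equiv (Equiv.mulLeft (⟨s, hs⟩ : B i)) _ _ fun b => (mul_smul _ _ _).symm
      · rw [Finset.smul_prod']
        refine Finset.prod_congr rfl fun b _ => ?_
        rw [← mul_smul, (hcm j i hj s hs b b.2).eq, mul_smul, (w j).2 s hs]
    have h2 : ∏ j, ∏ b : B i, (b : H) • (w j).1 = 1 := by
      rw [Finset.prod_comm]
      exact Finset.prod_eq_one fun b _ => by rw [← Finset.smul_prod', hw, smul_one]
    rw [Finset.prod_eq_single i (fun j _ hj => h1 j hj) (by simp),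
      Finset.prod_congr rfl fun (b : B i) _ => (w i).2 b b.2, Finset.prod_const, Finset.card_univ,
      ← Nat.card_eq_fintype_card] at h2
    exact Subtype.ext (orderOf_eq_one_iff.1 (Nat.eq_one_of_dvd_coprimes (hc i)
      (orderOf_dvd_of_pow_eq_one h2) (orderOf_dvd_natCard _)))
  rw [← Nat.card_pi]
  refine Nat.card_le_card_of_injective (fun w => ∏ i, (w i).1) fun w w' e => ?_
  refine mul_inv_eq_one.1 (key _ ?_)
  simp only [Pi.mul_apply, Pi.inv_apply, coe_mul, coe_inv, Finset.prod_mul_distrib,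
    Finset.prod_inv_distrib]
  exact mul_inv_eq_one.2 e

theorem num (a t : ℕ) (h : 2 ≤ t) : (2 + t * a) ^ 2 ≤ 4 * (a + 1) ^ t := by
  induction t, h using Nat.le_induction with
  | base => nlinarith
  | succ t h ih =>
    have h1 : 2 * a ≤ t * a := Nat.mul_le_mul_right a h
    have h2 : (2 + (t + 1) * a) ^ 2 ≤ (2 + t * a) ^ 2 * (a + 1) := by
      rw [add_mul t, one_mul]
      generalize t * a = x at h1
      nlinarith [Nat.zero_le (a * x * x), Nat.zero_le (a * a), Nat.mul_le_mul_left a h1]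
    rw [pow_succ (a + 1), ← mul_assoc]
    exact h2.trans (Nat.mul_le_mul_right _ ih)

theorem jobAb (ind : JobInd.{u}) : JobAb.{u} := by
  intro H V _ _ _ _ _ R E S I hE hR hab hc
  classical
  rw [or_iff_not_imp_left]
  intro h0
  push Not at h0
  obtain ⟨e, he, e1, e2⟩ := h0
  have stab : ∀ (C : Subgroup H) (v : V), v ∈ cv V (C : Set H) ↔ C ≤ MulAction.stabilizer H v :=
    fun C v => Iff.rfl
  obtain ⟨B, ⟨hB, hv⟩, hmax⟩ := Set.exists_max_image
    {B : Subgroup H | B ≤ E ∧ cv V (B : Set H) ≠ ⊥} (fun B => Nat.card B) (Set.toFinite _)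
    ⟨⊥, bot_le, fun q => e2 fun v _ => mem_bot.1 (q ▸ (stab ⊥ v).2 bot_le)⟩
  have B0 : B ≠ ⊥ := fun q => by
    have := hmax (zpowers e) ⟨zpowers_le.2 he, fun q => e2 fun v hv =>
      mem_bot.1 (q ▸ (stab _ v).2 (zpowers_le.2 hv))⟩
    simp only [q, card_bot] at this
    exact e1 (zpowers_eq_bot.1 (eq_bot_of_card_le _ this))
  let cj : H → Subgroup H := fun g => B.map (MulAut.conj g).toMonoidHom
  have cs : ∀ g, (cj g : Set H) = (fun s => g * s * g⁻¹) '' B := fun g => rfl
  have cE : ∀ g, cj g ≤ E := fun g => by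
    rintro _ ⟨s, hs, rfl⟩; exact hE.conj_mem s (hB hs) g
  have cc : ∀ g, Nat.card (cj g) = Nat.card B := fun g =>
    card_map_of_injective (MulAut.conj g).injective
  let ι := {C : Subgroup H // ∃ g, cj g = C}
  have : Fintype ι := Fintype.ofFinite _
  have h1 := ind H V ι Subtype.val (by
      rintro ⟨_, g, rfl⟩; exact hc.coprime_dvd_left (card_dvd_of_le (cE g))) (by
      rintro ⟨_, g, rfl⟩ ⟨_, g', rfl⟩ _ a ha b hb; exact hab a (cE g ha) b (cE g' hb)) (by
      rintro ⟨_, g, rfl⟩ ⟨_, g', rfl⟩ ne v v1 v2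
      by_contra v0
      have h2 := hmax (cj g ⊔ cj g') ⟨sup_le (cE g) (cE g'), fun q =>
        v0 (mem_bot.1 (q ▸ (stab _ v).2 (sup_le ((stab _ v).1 v1) ((stab _ v).1 v2))))⟩
      exact ne (Subtype.ext ((eq_of_le_of_card_ge le_sup_left (cc g ▸ h2)).trans
        (eq_of_le_of_card_ge le_sup_right (cc g' ▸ h2)).symm)))
  rw [Finset.prod_congr rfl (g := fun _ => Nat.card (cv V (B : Set H))) (by
    rintro ⟨_, g, rfl⟩ _; exact card_cv_conj g B), Finset.prod_const] at h1
  have h2 : 2 ≤ (Finset.univ : Finset ι).card := by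
    by_contra q
    have h3 : ∀ g, cj g = cj 1 := fun g => congrArg Subtype.val
      (Finset.card_le_one.1 (Nat.lt_succ_iff.1 (not_le.1 q)) (⟨_, g, rfl⟩ : ι) (Finset.mem_univ _)
        ⟨_, 1, rfl⟩ (Finset.mem_univ _))
    have : B.Normal := ⟨fun s hs g => by
      obtain ⟨s', h4, h5⟩ := (h3 g).le ⟨s, hs, rfl⟩
      have h6 : s' = g * s * g⁻¹ := by simpa using h5
      exact h6 ▸ h4⟩
    exact hv (cv_normal S I B B0)
  obtain ⟨⟨v, v1⟩, v0⟩ := ne_bot_iff_exists_ne_one.1 hv
  have v0 : v ≠ 1 := fun q => v0 (Subtype.ext q)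
  have h3 := cnt_cover S le_rfl v0 v1 (Finset.univ : Finset ι) (fun C => (C.1 : Set H))
    fun g => ⟨⟨_, g, rfl⟩, Finset.mem_univ _, cs g⟩
  have h4 : 2 ≤ (MulAction.stabilizer H v).relIndex R := by
    have h5 : (MulAction.stabilizer H v).relIndex R ≠ 0 := by
      simp [relIndex, index_ne_zero_of_finite]
    have h6 : (MulAction.stabilizer H v).relIndex R ≠ 1 := fun q => by
      have := S.normal
      exact v0 (mem_bot.1 (cv_normal S I R (fun q => B0 (le_bot_iff.1 (q ▸ hB.trans hR))) ▸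
        (stab R v).2 (relIndex_eq_one.1 q)))
    omega
  have h5 : 0 < Nat.card (cv V (B : Set H)) := Nat.card_pos
  have h6 := num (Nat.card (cv V (B : Set H)) - 1) _ h2
  rw [Nat.sub_add_cancel h5] at h6
  have h7 : 2 * (R.index + 1) ≤ 2 + (Finset.univ : Finset ι).card *
      (Nat.card (cv V (B : Set H)) - 1) := by
    have := (Nat.mul_le_mul_left R.index h4).trans h3
    omega
  have h8 := ((Nat.pow_le_pow_left h7 2).trans h6).trans (Nat.mul_le_mul_left 4 h1)
  rw [mul_pow] at h8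
  exact Nat.le_of_mul_le_mul_left h8 (by norm_num)

end H29.DG
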