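/- E7MAX (S5934), slot R5: Bruhat decomposition and the class of the highest root element. -/
import Cfsg.Agent.H36.E7MSpec
import Cfsg.Agent.H65.MatOK
import Cfsg.Agent.H65.All
import Cfsg.Agent.H64.RGDBruhat

set_option autoImplicit false

namespace H29.E7R
open Cfsg.Lie H63 H64

theorem two_cases (t : ZMod 2) : t = 0 ∨ t = 1 := by revert t; decide

section
variable {G : Type*} [Group G] {D : ChevalleyDatum} [RS D] {x : ℕ → ZMod 2 → G}

theorem eq_of_mem (h : StB D x) {r : Rt D} {a : G} (ha : a ∈ XR D x r) (h1 : a ≠ 1) :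
    a = x r 1 := by
  obtain ⟨t, rfl⟩ := h.toSt.mem_XR.1 ha
  rcases two_cases t with rfl | rfl
  · exact absurd (h.toSt.x_zero r) h1
  · rfl

theorem conj_ne {g a : G} (h : a ≠ 1) : g * a * g⁻¹ ≠ 1 := fun e =>
  h (by rwa [mul_inv_eq_one, mul_eq_left] at e)

theorem B_comm (h : StB D x) {θ : Rt D} (hp : Pos θ) (hm : ∀ u : Rt D, ht u ≤ ht θ) {b : G}
    (hb : b ∈ h.rgd.B) : Commute b (x θ 1) := by
  have h1 : x θ 1 ≠ 1 := fun e => one_ne_zero (h.eq_zero_of_x_eq_one θ e)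
  have : h.rgd.B ≤ Subgroup.centralizer {x θ 1} := by
    refine sup_le (gen_le fun s hs y hy => ?_) fun k hk => ?_
    · obtain ⟨t, rfl⟩ := h.toSt.mem_XR.1 hy
      have hs' : Pos s := hs
      refine Subgroup.mem_centralizer_singleton_iff.2
        (x_commute_of_not_add h.toSt (r := θ) (s := s) ?_ (fun u e => ?_) 1 t)
      · rintro rfl
        exact pos_negR.1 hs' hp
      · have h2 := hm u
        have h3 := pos_iff_ht.1 hs'
        simp only [ht, e, Pi.add_apply, Finset.sum_add_distrib] at h2 h3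
        omega
    · have := eq_of_mem h (h.rgd.h_conj k hk θ _ (x_mem_XR D x θ 1)) (conj_ne h1)
      exact Subgroup.mem_centralizer_singleton_iff.2 (mul_inv_eq_iff_eq_mul.1 this)
  exact Subgroup.mem_centralizer_singleton_iff.1 (this hb)

theorem conj_high (h : Ad D x) {θ : Rt D} (hp : Pos θ) (hm : ∀ u : Rt D, ht u ≤ ht θ) (g : G) :
    ∃ u, ∃ r : Rt D, Commute u (x θ 1) ∧ g * x θ 1 * g⁻¹ = u * x r 1 * u⁻¹ := by
  have h1 : x θ 1 ≠ 1 := fun e => one_ne_zero (h.toStB.eq_zero_of_x_eq_one θ e)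
  obtain ⟨w, b, hb, m, -, b', hb', hw, rfl⟩ :=
    h.toStB.rgd.exists_cell (h.Gp_eq ▸ Subgroup.mem_top g)
  refine ⟨b, w.1 θ, B_comm h.toStB hp hm hb, ?_⟩
  rw [← eq_of_mem h.toStB ((hw θ _).1 (x_mem_XR D x θ 1)) (conj_ne h1)]
  have := (B_comm h.toStB hp hm hb').eq
  calc b * m * b' * x θ 1 * (b * m * b')⁻¹ = b * m * (b' * x θ 1) * b'⁻¹ * m⁻¹ * b⁻¹ := by group
    _ = _ := by rw [this]; group

end

def θ : Rt chevE7 := ⟨125, by decide⟩

theorem pos_θ : Pos θ := by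
  simp only [Pos, rt_E7]; decide +kernel

theorem ht_le : ∀ u : Rt chevE7, ht u ≤ ht θ := by
  simp only [ht, rt_E7]; decide +kernel

open H36.E7M in
theorem jobR5 : JobR5 := fun g => by
  haveI := H65.commE7
  obtain ⟨u, r, h1, h2⟩ := conj_high (ad_xG (H65.matOK chevE7 F)) pos_θ ht_le g
  exact ⟨u, r, r.2, h1, h2⟩

end H29.E7R
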