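/- Tower E8G, slot L4: `L₄(2)` on a rational subspace of dimension ten. -/
import Cfsg.Agent.H40.E8GSpec
import Cfsg.Agent.H40.E8FGrp
import Cfsg.Agent.H57.Hyper2

set_option autoImplicit false

namespace H29.E8L

open H40.E8F H40.E8G H14.E8 Matrix Module
open scoped MatrixGroups

abbrev E3 : Type := Multiplicative (Fin 3 → ZMod 2)
abbrev L4 : Type := SL(4, ZMod 2)

section gen

variable {k V Γ : Type} [Field k] [AddCommGroup V] [Module k V] [FiniteDimensional k V] [Group Γ]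
  (ρ : Γ →* End k V) {M : Submodule k V}

omit [FiniteDimensional k V] in
theorem fix_conj {x x' g : Γ} (h : x * g = g * x') {v : V} (hv : ρ x' v = v) :
    ρ x (ρ g v) = ρ g v := by
  rw [← End.mul_apply, ← map_mul, h, map_mul, End.mul_apply, hv]

theorem rank_conj (inv : ∀ A, ∀ v ∈ M, ρ A v ∈ M) {x x' g : Γ} (h : x * g = g * x') :
    finrank k ↥(M ⊓ fx (ρ x')) ≤ finrank k ↥(M ⊓ fx (ρ x)) :=
  LinearMap.finrank_le_finrank_of_injective (f := (ρ g).restrict fun v hv =>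
    ⟨inv g v hv.1, mem_fx.2 (fix_conj ρ h (mem_fx.1 hv.2))⟩) fun a b e => Subtype.ext (by
      have : ρ g⁻¹ (ρ g a) = ρ g⁻¹ (ρ g b) := congrArg (fun v => ρ g⁻¹ v.1) e
      simpa only [← End.mul_apply, ← map_mul, inv_mul_cancel, map_one, End.one_apply] using this)

/-- The pointwise stabiliser. -/
def stab (S : Set V) : Subgroup Γ where
  carrier := {g | ∀ v ∈ S, ρ g v = v}
  mul_mem' {a b} ha hb v hv := by rw [map_mul, End.mul_apply, hb v hv, ha v hv]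
  one_mem' v _ := by simp
  inv_mem' {a} ha v hv := by
    conv_lhs => rw [← ha v hv, ← End.mul_apply, ← map_mul, inv_mul_cancel, map_one, End.one_apply]

theorem lemA (q3 : JobQ3) (h2 : (2 : k) ≠ 0) (hM : finrank k M = 10)
    (inv : ∀ A, ∀ v ∈ M, ρ A v ∈ M) (χ : E3 →* Γ) {y t b : Γ} (f f' : E3 → E3)
    (hy : ∀ a, χ a * y = y * χ (f a)) (ht : ∀ a, χ a * t = t * χ (f' a)) (hb : t * b = y * t)
    (tt : t * t = 1) (tr : ∀ a a', a ≠ 1 → a' ≠ 1 → ∃ i < 7, a' = f^[i] a)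
    (r7 : (∀ v ∈ M ⊓ Fx (ρ.comp χ) Set.univ, ρ y v ∈ M ⊓ Fx (ρ.comp χ) Set.univ) →
      ∃ m, finrank k ↥(M ⊓ Fx (ρ.comp χ) Set.univ) =
        finrank k ↥(M ⊓ Fx (ρ.comp χ) Set.univ ⊓ fx (ρ y)) + 6 * m) :
    M ⊓ Fx (ρ.comp χ) Set.univ ≠ ⊥ ∧ ((∀ a, χ a ∈ stab ρ M) ∨
      ∀ v ∈ M ⊓ Fx (ρ.comp χ) Set.univ, ρ y v = v ∧ ρ b v = v) := by
  have h1 : ∀ i a, finrank k ↥(M ⊓ fx (ρ (χ (f^[i] a)))) ≤ finrank k ↥(M ⊓ fx (ρ (χ a))) := fun i => by
    induction i with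
    | zero => exact fun a => le_rfl
    | succ i ih => exact fun a => (ih (f a)).trans (rank_conj ρ inv (hy a))
  have h3 := q3 k V M (ρ.comp χ) h2 hM (fun a => inv _) fun a a' ha ha' => by
    obtain ⟨i, -, e⟩ := tr a a' ha ha'
    obtain ⟨j, -, e'⟩ := tr a' a ha' ha
    exact le_antisymm (e' ▸ h1 j a') (e ▸ h1 i a)
  have h4 : ∀ {g : Γ} {f : E3 → E3}, (∀ a, χ a * g = g * χ (f a)) → ∀ v ∈ M ⊓ Fx (ρ.comp χ) Set.univ,
      ρ g v ∈ M ⊓ Fx (ρ.comp χ) Set.univ := fun h v hv =>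
    ⟨inv _ v hv.1, mem_Fx.2 fun a _ => fix_conj ρ (h a) (mem_Fx.1 hv.2 _ trivial)⟩
  refine ⟨fun e => by rw [e, finrank_bot] at h3; omega, h3.symm.imp (fun h a v hv => ?_) fun h => ?_⟩
  · rw [← Submodule.eq_of_le_of_finrank_eq inf_le_left (h.trans hM.symm)] at hv
    exact mem_Fx.1 hv.2 a trivial
  · obtain ⟨m, hm⟩ := r7 (h4 hy)
    have h5 : ∀ v ∈ M ⊓ Fx (ρ.comp χ) Set.univ, ρ y v = v := fun v hv => by
      exact mem_fx.1 ((Submodule.eq_of_le_of_finrank_eq (inf_le_left (b := fx (ρ y)))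
        (by omega)).ge hv).2
    refine fun v hv => ⟨h5 v hv, ?_⟩
    have h6 := congrArg (ρ t) (h5 _ (h4 ht v hv))
    simp only [← End.mul_apply, ← map_mul] at h6
    rwa [← hb, ← mul_assoc, tt, one_mul, map_one, End.one_apply] at h6

end gen

def r1 (a : E3) : L4 :=
  ⟨!![1, a.toAdd 0, a.toAdd 1, a.toAdd 2; 0, 1, 0, 0; 0, 0, 1, 0; 0, 0, 0, 1], by
    revert a; decide +kernel⟩
def r2 (a : E3) : L4 :=
  ⟨!![1, 0, 0, a.toAdd 0; 0, 1, 0, a.toAdd 1; 0, 0, 1, a.toAdd 2; 0, 0, 0, 1], by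
    revert a; decide +kernel⟩
/-- first row -/
def χ1 : E3 →* L4 := ⟨⟨r1, by decide +kernel⟩, by decide +kernel⟩
/-- last column -/
def χ2 : E3 →* L4 := ⟨⟨r2, by decide +kernel⟩, by decide +kernel⟩

def y1 : L4 := ⟨!![1, 0, 0, 0; 0, 0, 1, 1; 0, 1, 1, 1; 0, 1, 0, 1], by decide +kernel⟩
def t1 : L4 := ⟨!![1, 0, 0, 0; 0, 1, 0, 0; 0, 0, 1, 0; 0, 0, 1, 1], by decide +kernel⟩
def y2 : L4 := ⟨!![0, 1, 1, 0; 1, 1, 1, 0; 1, 0, 1, 0; 0, 0, 0, 1], by decide +kernel⟩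
def t2 : L4 := ⟨!![1, 0, 1, 0; 0, 1, 0, 0; 0, 0, 1, 0; 0, 0, 0, 1], by decide +kernel⟩
def mv (A : Matrix (Fin 3) (Fin 3) (ZMod 2)) (a : E3) : E3 := .ofAdd (A *ᵥ a.toAdd)
def ev (y t : L4) (w : List Bool) : L4 := (w.map fun i => cond i (t * y * t) y).prod
/-- the transvections -/
def tv (i j : Fin 4) : L4 := if h : i = j then 1 else SpecialLinearGroup.transvection h 1
/-- permutation matrices -/
def pm (a b c d : Fin 4) (h : (Matrix.of fun i j => if ![a, b, c, d] j = i then 1 else 0 :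
    Matrix (Fin 4) (Fin 4) (ZMod 2)).det = 1 := by decide +kernel) : L4 := ⟨_, h⟩

theorem top_of {K : Subgroup L4} (h : ∀ i j : Fin 4, (j : ℕ) = i + 1 → tv i j ∈ K ∧ tv j i ∈ K) :
    K = ⊤ := H57.sl_eq_top_of_adj fun i j hij e c => by
  have := h i j e
  rw [tv, tv, dif_neg hij, dif_neg hij.symm] at this
  rcases (by decide : ∀ c : ZMod 2, c = 0 ∨ c = 1) c with rfl | rfl
  · have h0 : ∀ {a b : Fin 4} (h : a ≠ b), SpecialLinearGroup.transvection h (0 : ZMod 2) = 1 :=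
      fun h => Subtype.ext (Matrix.transvection_zero _ _)
    simp only [h0, one_mem, and_self]
  · exact this

theorem ev_mem {K : Subgroup L4} {y t : L4} (h1 : y ∈ K) (h2 : t * y * t ∈ K) (w : List Bool) :
    ev y t w ∈ K := K.list_prod_mem fun x hx => by
  obtain ⟨i, -, rfl⟩ := List.mem_map.1 hx
  cases i <;> assumption

theorem top_normal {K : Subgroup L4} (hK : ∀ g, ∀ x ∈ K, g * x * g⁻¹ ∈ K) (h : tv 0 3 ∈ K) :
    K = ⊤ := by
  have h1 : ∀ i j : Fin 4, (j : ℕ) = i + 1 ∨ (i : ℕ) = j + 1 → tv i j ∈ K := fun i j e => by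
    obtain ⟨g, -, hg⟩ := (by decide +kernel : ∀ i j : Fin 4, (j : ℕ) = i + 1 ∨ (i : ℕ) = j + 1 →
      ∃ g ∈ [pm 0 2 3 1, pm 1 2 3 0, pm 1 0 3 2, pm 2 0 3 1, pm 2 0 1 3, pm 3 0 1 2],
        g * tv 0 3 = tv i j * g) i j e
    have := hK g _ h
    rwa [hg, mul_inv_cancel_right] at this
  exact top_of fun i j e => ⟨h1 i j (.inl e), h1 j i (.inr e)⟩

theorem in1 {K : Subgroup L4} (h1 : y1 ∈ K) (h2 : t1 * y1 * t1 ∈ K) (i j : Fin 4) (hi : i ≠ 0)
    (hj : j ≠ 0) (e : i < j ∨ (i : ℕ) = j + 1) : tv i j ∈ K := by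
  obtain ⟨w, -, hw⟩ := (by decide +kernel : ∀ i j : Fin 4, i ≠ 0 → j ≠ 0 → i < j ∨ (i : ℕ) = j + 1 →
    ∃ w ∈ [[false, true, false, false, false], [true, false, true, false, false, true, false],
      [false, true, true, false], [false, true, false, true, false, true, false],
      [false, true, false, false, true, false, true]], tv i j = ev y1 t1 w) i j hi hj e
  exact hw ▸ ev_mem h1 h2 w

theorem frSt_inf {M : Submodule K3 V8} (h : FrSt M) (χ : E3 →* G8) :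
    FrSt (M ⊓ Fx (ad.comp χ) Set.univ) := fun v hv => ⟨h v hv.1, mem_Fx.2 fun a _ => funext fun i => by
  have h1 : ad (χ a) v = v := mem_Fx.1 hv.2 a trivial
  change ad (χ a) _ i = frobenius K3 3 (v i)
  conv_rhs => rw [← h1]
  rw [ad_apply, ad_apply, map_sum]
  exact Finset.sum_congr rfl fun j _ => by rw [map_mul, (frob_iff _).2 ⟨_, rfl⟩]; rfl⟩

theorem jobL4 (q3 : JobQ3) (r7 : JobRat7) : JobL4 := by
  intro θ M hF hM inv
  have h2 : (2 : K3) ≠ 0 := fun e => by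
    have := (CharP.cast_eq_zero_iff K3 3 2).1 (by exact_mod_cast e)
    omega
  have A1 := lemA (ad.comp θ) q3 h2 hM inv χ1 (y := y1) (t := t1) (b := t1 * y1 * t1)
    (mv !![0, 1, 1; 1, 1, 0; 1, 1, 1]) (mv !![1, 0, 0; 0, 1, 1; 0, 0, 1]) (by decide +kernel)
    (by decide +kernel) (by decide +kernel) (by decide +kernel) (by decide +kernel)
    (r7 _ (θ y1) (by rw [← map_pow, show y1 ^ 7 = 1 by decide +kernel, map_one])
      (frSt_inf hF (θ.comp χ1)))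
  have A2 := lemA (ad.comp θ) q3 h2 hM inv χ2 (y := y2) (t := t2) (b := t2 * y2 * t2)
    (mv !![1, 1, 0; 0, 1, 1; 1, 1, 1]) (mv !![1, 0, 1; 0, 1, 0; 0, 0, 1]) (by decide +kernel)
    (by decide +kernel) (by decide +kernel) (by decide +kernel) (by decide +kernel)
    (r7 _ (θ y2) (by rw [← map_pow, show y2 ^ 7 = 1 by decide +kernel, map_one])
      (frSt_inf hF (θ.comp χ2)))
  have T : tv 0 3 ∈ stab (ad.comp θ) M → ∀ v ∈ M, ∀ A, ad (θ A) v = v := fun h v hv A =>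
    (top_normal (K := stab (ad.comp θ) M) (fun g x hx v hv => by
      rw [map_mul, map_mul, End.mul_apply, End.mul_apply, hx _ (by exact inv _ v hv), ← End.mul_apply,
        ← map_mul, mul_inv_cancel, map_one, End.one_apply]) h).ge (Subgroup.mem_top A) v hv
  have key : ∀ v ∈ M ⊓ Fx ((ad.comp θ).comp χ1) Set.univ, ∀ A, ad (θ A) v = v := fun v hv => by
    rcases A1.2 with h | h
    · exact T ((show χ1 (.ofAdd ![0, 0, 1]) = tv 0 3 by decide +kernel) ▸ h _) v hv.1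
    rcases A2.2 with h' | h'
    · exact T ((show χ2 (.ofAdd ![1, 0, 0]) = tv 0 3 by decide +kernel) ▸ h' _) v hv.1
    have m : ∀ {g}, g ∈ stab (ad.comp θ) {v} ↔ ad (θ g) v = v := by simp [stab]
    have k1 := in1 (m.2 (h v hv).1) (m.2 (h v hv).2)
    have k0 : tv 0 3 ∈ stab (ad.comp θ) {v} :=
      (show χ1 (.ofAdd ![0, 0, 1]) = tv 0 3 by decide +kernel) ▸ m.2 (mem_Fx.1 hv.2 _ trivial)
    have k2 := h' v ⟨hv.1, mem_Fx.2 fun a _ => m.1 (by
      obtain ⟨i, j, l, e⟩ := (by decide +kernel : ∀ a, ∃ i j l : Fin 2,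
        χ2 a = tv 0 3 ^ i.1 * tv 1 3 ^ j.1 * tv 2 3 ^ l.1) a
      exact e ▸ mul_mem (mul_mem (pow_mem k0 _) (pow_mem (k1 1 3 (by decide) (by decide) (by decide)) _))
        (pow_mem (k1 2 3 (by decide) (by decide) (by decide)) _))⟩
    have k3 := ev_mem (m.2 k2.1) (m.2 k2.2)
    refine fun A => m.1 ((top_of fun i j e => ?_).ge (Subgroup.mem_top A))
    by_cases hi : i = 0
    · obtain rfl : j = 1 := Fin.ext (by simpa [hi] using e)
      subst hi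
      exact ⟨(show ev y2 t2 [false, false, false, true, false] = tv 0 1 by decide +kernel) ▸ k3 _,
        (show ev y2 t2 [false, true, true, true, true] = tv 1 0 by decide +kernel) ▸ k3 _⟩
    · have hj : j ≠ 0 := fun h => by simp [h] at e
      exact ⟨k1 i j hi hj (.inl (by rw [Fin.lt_def]; omega)), k1 j i hj hi (.inr e)⟩
  obtain ⟨v, hv, v0⟩ := Submodule.exists_mem_ne_zero_of_ne_bot A1.1
  exact ⟨⟨v, hv.1, v0, key v hv⟩, fun v hv h => key v ⟨hv, mem_Fx.2 fun a _ => h _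
    fun i j e => by fin_cases i <;> fin_cases j <;> first | rfl | exact absurd e (by decide)⟩⟩

end H29.E8L
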