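/- Tower E8G, slot SpC: a fixed vector of `Sp₆(2)` from the fixed spaces of the radicals. -/
import Cfsg.Agent.H40.E8GSpec
import Cfsg.Agent.H54.SpMat

set_option autoImplicit false

namespace H29.E8C

open H40.E8F H40.E8G H54 Matrix Module

abbrev V6 : Type := Fin 3 ⊕ Fin 3 → ZMod 2

/-- the negative root elements -/
def st (i : Fin 9) : Sp6 := ⟨(sr i).1ᵀ, SymplecticGroup.transpose_mem (sr i).2⟩
def nn (i : Fin 9) : Sp6 := sr i * st i * sr i
def e0 : V6 := Pi.single (.inl 0) 1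
/-- distance from `e0` -/
def rk (v : V6) : ℕ := [0, 0, 2, 1, 4, 3, 3, 2, 10, 7, 9, 8, 9, 8, 8, 9, 8, 7, 6, 5, 7, 6, 7, 6, 9, 6,
  7, 8, 8, 7, 8, 7, 6, 5, 5, 4, 5, 4, 4, 3, 9, 6, 8, 7, 8, 7, 7, 8, 7, 6, 5, 4, 6, 5, 6, 5, 8, 5, 6,
  7, 7, 6, 7, 6].getD ((v (.inl 0)).val + 2 * (v (.inl 1)).val + 4 * (v (.inl 2)).val +
    8 * (v (.inr 0)).val + 16 * (v (.inr 1)).val + 32 * (v (.inr 2)).val) 0

theorem tree : ∀ v : V6, v = 0 ∨ v = e0 ∨
    ∃ i ∈ [6, 8, 2], rk ((sr i).1 *ᵥ v) < rk v ∨ rk ((st i).1 *ᵥ v) < rk v := by decide +kernel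

theorem gen {H : Subgroup Sp6} (h1 : ∀ i, sr i ∈ H) (h2 : ∀ i ∈ [6, 8, 2], st i ∈ H) : H = ⊤ := by
  refine eq_top_of_tv_mem H fun v c => ?_
  rcases (by decide : ∀ c : ZMod 2, c = 0 ∨ c = 1) c with rfl | rfl
  · rw [tv_zero]; exact one_mem _
  have key : ∀ g ∈ H, ∀ v, tv (g.1 *ᵥ v) 1 ∈ H → tv v 1 ∈ H := fun g hg v h => by
    rw [show tv (g.1 *ᵥ v) 1 = g * tv v 1 * g⁻¹ from (tv_conj g v 1).symm] at h
    simpa [mul_assoc] using mul_mem (mul_mem (inv_mem hg) h) hg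
  induction h : rk v using Nat.strong_induction_on generalizing v with
  | _ n ih =>
    subst h
    rcases tree v with rfl | rfl | ⟨i, hi, h | h⟩
    · rw [tv_zero_left]; exact one_mem _
    · exact (show sr 0 = tv e0 1 by decide +kernel) ▸ h1 0
    · exact key _ (h1 i) v (ih _ h _ rfl)
    · exact key _ (h2 i hi) v (ih _ h _ rfl)

theorem nn_sr : ∀ i ∈ [6, 8, 2], st i * nn i = nn i * sr i ∧
    ∀ j, j ≠ i → ∃ l, l ≠ i ∧ sr j * nn i = nn i * sr l := by decide +kernel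

variable {k V : Type} [Field k] [AddCommGroup V] [Module k V] [FiniteDimensional k V]

theorem two_le {A B W : Submodule k V} (hA : A ≤ W) (hB : B ≤ W) :
    finrank k A + finrank k B ≤ finrank k W + finrank k ↥(A ⊓ B) := by
  rw [← Submodule.finrank_sup_add_finrank_inf_eq]
  exact Nat.add_le_add_right (Submodule.finrank_mono (sup_le hA hB)) _

theorem step (ρ : Sp6 →* End k V) {i : Fin 9} (hi : i ∈ [6, 8, 2]) :
    2 * finrank k (Fx (fun j => ρ (sr j)) Set.univ) ≤ finrank k (Fx (fun j => ρ (sr j)) {j | j ≠ i}) +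
      finrank k ↥(Fx (fun j => ρ (sr j)) Set.univ ⊓ fx (ρ (st i))) := by
  obtain ⟨h1, h2⟩ := nn_sr i hi
  have c : ∀ {x x' : Sp6} {v : V}, x * nn i = nn i * x' → ρ x' v = v →
      ρ x (ρ (nn i) v) = ρ (nn i) v := fun h hv => by
    rw [← End.mul_apply, ← map_mul, h, map_mul, End.mul_apply, hv]
  have inj : Function.Injective (ρ (nn i)) := fun a b e => by
    simpa only [← End.mul_apply, ← map_mul, inv_mul_cancel, map_one, End.one_apply] using
      congrArg (ρ (nn i)⁻¹) e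
  have h3 := two_le (A := Fx (fun j => ρ (sr j)) Set.univ)
    (B := (Fx (fun j => ρ (sr j)) Set.univ).map (ρ (nn i))) (W := Fx (fun j => ρ (sr j)) {j | j ≠ i})
    (fun v hv => mem_Fx.2 fun j _ => mem_Fx.1 hv j trivial) (by
      rintro _ ⟨v, hv, rfl⟩
      refine mem_Fx.2 fun j hj => ?_
      obtain ⟨l, -, e⟩ := h2 j hj
      exact c e (mem_Fx.1 hv l trivial))
  rw [← (Submodule.equivMapOfInjective _ inj _).finrank_eq, ← two_mul] at h3
  refine h3.trans (Nat.add_le_add_left (Submodule.finrank_mono (inf_le_inf_left _ ?_)) _)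
  rintro _ ⟨v, hv, rfl⟩
  exact mem_fx.2 (c h1 (mem_Fx.1 hv i trivial))

theorem jobSpC : JobSpC := by
  intro k V _ _ _ _ ρ h
  have h6 := step ρ (i := 6) (by decide)
  have h8 := step ρ (i := 8) (by decide)
  have h2 := step ρ (i := 2) (by decide)
  unfold SpIneq at h
  set W := Fx (fun j => ρ (sr j)) Set.univ
  have a1 := two_le (A := W ⊓ fx (ρ (st 6))) (B := W ⊓ fx (ρ (st 8))) inf_le_left inf_le_left
  have a2 := two_le (A := W ⊓ fx (ρ (st 6)) ⊓ (W ⊓ fx (ρ (st 8)))) (B := W ⊓ fx (ρ (st 2)))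
    (inf_le_left.trans inf_le_left) inf_le_left
  obtain ⟨v, hv, v0⟩ := Submodule.exists_mem_ne_zero_of_ne_bot
    (p := W ⊓ fx (ρ (st 6)) ⊓ (W ⊓ fx (ρ (st 8))) ⊓ (W ⊓ fx (ρ (st 2)))) fun e => by
      rw [e, finrank_bot] at a2
      omega
  let H : Subgroup Sp6 :=
    { carrier := {g | ρ g v = v}
      mul_mem' := fun {a b} (ha : _ = _) (hb : _ = _) => by
        change ρ (a * b) v = v
        rw [map_mul, End.mul_apply, hb, ha]
      one_mem' := by simp
      inv_mem' := fun {a} (ha : _ = _) => by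
        change ρ a⁻¹ v = v
        conv_lhs => rw [← ha, ← End.mul_apply, ← map_mul, inv_mul_cancel, map_one, End.one_apply] }
  refine ⟨v, v0, fun g => (gen (H := H) (fun i => mem_Fx.1 hv.2.1 i trivial) fun i hi => ?_).ge
    (Subgroup.mem_top g)⟩
  simp only [List.mem_cons, List.not_mem_nil, or_false] at hi
  rcases hi with rfl | rfl | rfl
  exacts [mem_fx.1 hv.1.1.2, mem_fx.1 hv.1.2.2, mem_fx.1 hv.2.2]

end H29.E8C
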