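/- Tower E8F, slots V4 and M: fixed spaces of four-groups, the module inequality for `L₂(7)` -/
import Cfsg.Agent.H40.E8FSpec

set_option autoImplicit false

namespace H29.E8F

open H40.E8F H14.E8 Matrix Module
open scoped MatrixGroups

variable {k V : Type} [Field k] [AddCommGroup V] [Module k V]

theorem mfx {f : End k V} {v : V} : v ∈ fx f ↔ f v = v := by
  simp [fx]

theorem half [FiniteDimensional k V] (h2 : (2 : k) ≠ 0) (W : Submodule k V) (s : End k V)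
    (h : ∀ v ∈ W, s v ∈ W ∧ s (s v) = v) :
    finrank k ↥(W ⊓ fx s) + finrank k ↥(W ⊓ fx (-s)) = finrank k W := by
  have e1 : (W ⊓ fx s) ⊔ (W ⊓ fx (-s)) = W := by
    refine le_antisymm (sup_le inf_le_left inf_le_left) fun v hv => ?_
    rw [show v = (2 : k)⁻¹ • (v + s v) + (2 : k)⁻¹ • (v - s v) by
      rw [← smul_add, add_add_sub_cancel, ← two_smul k v, inv_smul_smul₀ h2]]
    refine Submodule.add_mem_sup (Submodule.smul_mem _ _ ⟨W.add_mem hv (h v hv).1, mfx.2 ?_⟩)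
      (Submodule.smul_mem _ _ ⟨W.sub_mem hv (h v hv).1, mfx.2 ?_⟩)
    · rw [map_add, (h v hv).2, add_comm]
    · rw [LinearMap.neg_apply, map_sub, (h v hv).2, neg_sub]
  have e2 : (W ⊓ fx s) ⊓ (W ⊓ fx (-s)) = ⊥ := eq_bot_iff.2 fun v hv => by
    have h1 := mfx.1 hv.2.2
    rw [LinearMap.neg_apply, mfx.1 hv.1.2, neg_eq_iff_add_eq_zero, ← two_smul k v] at h1
    exact (smul_eq_zero.1 h1).resolve_left h2
  rw [← Submodule.finrank_sup_add_finrank_inf_eq, e1, e2, finrank_bot, add_zero]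

theorem jobV4 : JobV4 := fun k V _ _ _ _ U a b h2 h h' => by
  have e1 := half h2 U a fun v hv => ⟨(h v hv).1, (h' v hv).1⟩
  have e2 := half h2 (U ⊓ fx b) a fun v hv =>
    ⟨⟨(h v hv.1).1, mfx.2 (by rw [← (h' v hv.1).2.2, mfx.1 hv.2])⟩, (h' v hv.1).1⟩
  have e3 := half h2 (U ⊓ fx (a * b)) a fun v hv => ⟨⟨(h v hv.1).1, mfx.2 (by
    rw [End.mul_apply, ← (h' v hv.1).2.2, ← End.mul_apply a b, mfx.1 hv.2])⟩, (h' v hv.1).1⟩
  have e4 := half h2 (U ⊓ fx (-a)) b fun v hv => ⟨⟨(h v hv.1).2, mfx.2 (by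
    rw [LinearMap.neg_apply, (h' v hv.1).2.2, ← map_neg, ← LinearMap.neg_apply, mfx.1 hv.2])⟩, (h' v hv.1).2.1⟩
  have hb : ∀ v ∈ U, a (b v) = v → b v = a v := fun v hv e => by
    rw [← (h' _ (h v hv).2).1, e]
  have f3 : U ⊓ fx (a * b) ⊓ fx a = U ⊓ fx a ⊓ fx b := le_antisymm
    (fun v hv => ⟨⟨hv.1.1, hv.2⟩, mfx.2 ((hb v hv.1.1 (mfx.1 hv.1.2)).trans (mfx.1 hv.2))⟩)
    fun v hv => ⟨⟨hv.1.1, mfx.2 (by rw [End.mul_apply, mfx.1 hv.2, mfx.1 hv.1.2])⟩, hv.1.2⟩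
  have f4 : U ⊓ fx (a * b) ⊓ fx (-a) = U ⊓ fx (-a) ⊓ fx (-b) := le_antisymm
    (fun v hv => ⟨⟨hv.1.1, hv.2⟩, mfx.2 (by
      rw [LinearMap.neg_apply, hb v hv.1.1 (mfx.1 hv.1.2)]; exact mfx.1 hv.2)⟩)
    fun v hv => ⟨⟨hv.1.1, mfx.2 (by
      rw [End.mul_apply, ← neg_neg (b v), ← LinearMap.neg_apply, mfx.1 hv.2, map_neg]
      exact mfx.1 hv.1.2)⟩, hv.1.2⟩
  rw [f3, f4] at e3
  rw [inf_right_comm U (fx b) (fx a), inf_right_comm U (fx b) (fx (-a))] at e2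
  omega

theorem fr_le [FiniteDimensional k V] {G : Type} [Group G] (ρ : G →* End k V) {g h h' : G}
    (e : ρ g * ρ h = ρ h' * ρ g) : finrank k (fx (ρ h)) ≤ finrank k (fx (ρ h')) := by
  have hi : Function.Injective (ρ g) := fun v w e => by
    have := congrArg (ρ g⁻¹) e
    rwa [← End.mul_apply, ← End.mul_apply, ← map_mul, inv_mul_cancel, map_one] at this
  rw [(Submodule.equivMapOfInjective _ hi _).finrank_eq]
  refine Submodule.finrank_mono ?_
  rintro _ ⟨v, hv, rfl⟩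
  exact mfx.2 (by rw [← End.mul_apply, ← e, End.mul_apply, mfx.1 hv])

theorem fr_eq [FiniteDimensional k V] {G : Type} [Group G] (ρ : G →* End k V) {g h h' : G}
    (e : ρ g * ρ h = ρ h' * ρ g) : finrank k (fx (ρ h)) = finrank k (fx (ρ h')) := by
  refine le_antisymm (fr_le ρ e) (fr_le ρ (g := g⁻¹) ?_)
  have h1 : ρ g * ρ g⁻¹ = 1 := by rw [← map_mul, mul_inv_cancel, map_one]
  have h2 : ρ g⁻¹ * ρ g = 1 := by rw [← map_mul, inv_mul_cancel, map_one]
  calc ρ g⁻¹ * ρ h' = ρ g⁻¹ * (ρ h' * ρ g) * ρ g⁻¹ := by rw [mul_assoc, mul_assoc, h1, mul_one]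
    _ = _ := by rw [← e, ← mul_assoc, h2, one_mul]

/-- upper unitriangular matrices -/
def up (c : ZMod 7) : S7 := ⟨!![1, c; 0, 1], by simp [det_fin_two]⟩
/-- lower unitriangular matrices -/
def lo (c : ZMod 7) : S7 := ⟨!![1, 0; c, 1], by simp [det_fin_two]⟩

theorem gen (H : Subgroup S7) (hx : gx ∈ H) (ha : ga ∈ H) (g : S7) : g ∈ H := by
  have : Fact (Nat.Prime 7) := ⟨by decide⟩
  have hu : ∀ c, up c ∈ H := fun c => (by decide +revert : up c = gx ^ c.val) ▸ pow_mem hx _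
  have hl : ∀ c, lo c ∈ H := fun c => (by decide +revert : lo c = ga * up (-c) * ga⁻¹) ▸
    mul_mem (mul_mem ha (hu _)) (inv_mem ha)
  have key : ∀ g : S7, g.1 1 0 ≠ 0 → g ∈ H := fun g h => by
    have hd := g.2
    rw [det_fin_two] at hd
    have e : g = up ((g.1 0 0 - 1) / g.1 1 0) * lo (g.1 1 0) * up ((g.1 1 1 - 1) / g.1 1 0) := by
      refine Subtype.ext ?_
      change _ = !![1, _; 0, 1] * !![1, 0; _, 1] * !![1, _; 0, 1]
      ext i j
      fin_cases i <;> fin_cases j <;> simp <;> field_simp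
      · ring
      · linear_combination -hd
      · ring
    rw [e]
    exact mul_mem (mul_mem (hu _) (hl _)) (hu _)
  by_cases h : g.1 1 0 = 0
  · refine (mul_mem_cancel_right ha).1 (key _ fun e => ?_)
    have hd := g.2
    change (g.1 * !![0, 6; 1, 0] : Matrix (Fin 2) (Fin 2) (ZMod 7)) 1 0 = 0 at e
    rw [det_fin_two, h] at hd
    simp [Matrix.mul_apply] at e
    simp [e] at hd
  · exact key g h

theorem jobM (la : JobLA) (v4 : JobV4) (b7 : JobB7) : JobM := fun k V _ _ _ _ _ ρ β h1 nd hβ hf => by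
  have h2 : (2 : k) ≠ 0 := fun e => by
    have := (CharP.cast_eq_zero_iff k 3 2).1 (by exact_mod_cast e)
    omega
  have R : ∀ {g h : S7}, g = h ∨ g = -h → ρ g = ρ h := fun {g h} e => by
    rcases e with e | e
    · rw [e]
    · rw [e, ← neg_one_mul, map_mul, h1, one_mul]
  have R1 : ∀ {g : S7}, g = 1 ∨ g = -1 → ρ g = 1 := fun e => (R e).trans (map_one ρ)
  have aa : ρ ga * ρ ga = 1 := by rw [← map_mul]; exact R1 (by decide)
  have bb : ρ gb * ρ gb = 1 := by rw [← map_mul]; exact R1 (by decide)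
  have ss : ρ gs * ρ gs = 1 := by rw [← map_mul]; exact R1 (by decide)
  have R2 : ∀ {g h g' h' : S7}, g * h = g' * h' ∨ g * h = -(g' * h') → ρ g * ρ h = ρ g' * ρ h' := fun e => by
    rw [← map_mul, ← map_mul]; exact R e
  have ab : ρ ga * ρ gb = ρ gb * ρ ga := R2 (by decide)
  have l := la k V β _ _ (ρ gt) _ nd (by simp [hβ]) aa bb ss (by rw [← map_mul, ← map_mul]; exact R1 (by decide))
    ab (R2 (by decide)) (by rw [← map_mul ρ ga]; exact R2 (by decide)) (R2 (by decide))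
    (by rw [← map_mul ρ gt gt]; exact R2 (by decide))
  have b := b7 k V ρ h1 fun v hx ha => hf v (gen ((MulAction.stabilizer (End k V)ˣ v).comap ρ.toHomUnits) hx ha)
  have A : ∀ {f g : End k V}, f = g → ∀ v, f v = g v := fun e v => by rw [e]
  have v1 := v4 k V ⊤ (ρ ga) (ρ gb) h2 (fun _ _ => ⟨trivial, trivial⟩) fun v _ => ⟨A aa v, A bb v, A ab v⟩
  have v2 := v4 k V ⊤ (ρ (ga * gb)) (ρ gs) h2 (fun _ _ => ⟨trivial, trivial⟩) fun v _ =>
    ⟨A (show ρ (ga * gb) * ρ (ga * gb) = 1 by rw [← map_mul]; exact R1 (by decide)) v, A ss v,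
      A (R2 (by decide)) v⟩
  have v3 := v4 k V (fx (ρ (ga * gb))) (ρ gs) (ρ ga) h2 (fun v hv => ⟨mfx.2 ((A (R2 (g' := gs) (h' := ga * gb)
      (by decide)) v).trans (congrArg _ (mfx.1 hv))), mfx.2 ((A (R2 (g' := ga) (h' := ga * gb)
      (by decide)) v).trans (congrArg _ (mfx.1 hv)))⟩) fun v hv => ⟨A ss v, A aa v,
    (A (R2 (g' := ga * gs) (h' := ga * gb) (by decide)) v).trans (by
      rw [End.mul_apply, mfx.1 hv, map_mul, End.mul_apply])⟩
  have f1 : fx (ρ (ga * gb)) ⊓ fx (ρ ga) = fx (ρ ga) ⊓ fx (ρ gb) := le_antisymm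
    (fun v hv => ⟨hv.2, mfx.2 ((A (show ρ gb = ρ (ga * gb) * ρ ga by rw [← map_mul]; exact R (by decide)) v).trans
      (by rw [End.mul_apply, mfx.1 hv.2, mfx.1 hv.1]))⟩)
    fun v hv => ⟨mfx.2 (by rw [map_mul, End.mul_apply, mfx.1 hv.2, mfx.1 hv.1]), hv.1⟩
  have f2 : fx (ρ (ga * gb)) ⊓ fx (ρ (gs * ga)) = fx (ρ (gs * ga)) := inf_eq_right.2 fun v hv =>
    mfx.2 ((A (show ρ (ga * gb) = ρ (gs * ga) * ρ (gs * ga) by rw [← map_mul ρ (gs * ga)]; exact R (by decide))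
      v).trans (by rw [End.mul_apply, mfx.1 hv, mfx.1 hv]))
  rw [← map_mul ρ gs, inf_right_comm, f1, f2] at v3
  rw [← map_mul, top_inf_eq, top_inf_eq, top_inf_eq, finrank_top] at v1 v2
  have c1 := fr_eq ρ (R2 (g := gt) (h := ga) (g' := gb) (h' := gt) (by decide))
  have c2 := fr_eq ρ (R2 (g := gt) (h := gb) (g' := ga * gb) (h' := gt) (by decide))
  have c3 := fr_eq ρ (R2 (g := gx ^ 3 * ga) (h := gs) (g' := ga) (h' := gx ^ 3 * ga) (by decide))
  have c4 := fr_eq ρ (R2 (g := ga) (h := gs) (g' := ga * gb * gs) (h' := ga) (by decide))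
  omega

end H29.E8F
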