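import Cfsg.Agent.H53.F2Spec

/-! CL3F, slot D5: a small subset of `𝔽₂^μ`, `μ ≥ 5`, with a stabiliser of order at most four. -/

set_option autoImplicit false
set_option linter.unusedSectionVars false

namespace H29.D5

open H53.F2

variable {N : Type} [AddCommGroup N] {μ : ℕ} {f : ℕ → N} {c : ℕ → N →+ ZMod 2} {l : N →+ ZMod 2}
  {o x x' y : N} {i j k a b d : ℕ}

/-- A basis with its coordinates. -/
structure Bs (μ : ℕ) (f : ℕ → N) (c : ℕ → N →+ ZMod 2) (l : N →+ ZMod 2) (o : N) : Prop where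
  five : 5 ≤ μ
  two : ∀ a : N, a + a = 0
  cf : ∀ a < μ, ∀ b, c a (f b) = if a = b then 1 else 0
  lf : ∀ b < μ, l (f b) = 1
  co : ∀ a < μ, c a o = 1
  gen : ∀ L : AddSubgroup N, (∀ i < μ, f i ∈ L) → L = ⊤

theorem exists_bs [Finite N] (h2 : ∀ a : N, a + a = 0) (h : 32 ≤ Nat.card N) :
    ∃ μ f c l o, Bs (N := N) μ f c l o := by
  classical
  letI := AddCommGroup.zmodModule (n := 2) (G := N) (fun a => by rw [two_nsmul, h2])
  have := Module.Finite.of_finite (R := ZMod 2) (M := N)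
  obtain ⟨μ, hμ, B⟩ : ∃ μ, 5 ≤ μ ∧ Nonempty (Module.Basis (Fin μ) (ZMod 2) N) := by
    rw [Module.natCard_eq_pow_finrank (K := ZMod 2), Nat.card_zmod] at h
    exact ⟨_, (Nat.pow_le_pow_iff_right (by norm_num : 1 < 2)).1 h, ⟨Module.finBasis (ZMod 2) N⟩⟩
  obtain ⟨B⟩ := B
  refine ⟨μ, fun i => if h : i < μ then B ⟨i, h⟩ else 0,
    fun i => if h : i < μ then (B.coord ⟨i, h⟩).toAddMonoidHom else 0,
    (B.sumCoords).toAddMonoidHom, ∑ i, B i, hμ, h2, fun a ha b => ?_, fun b hb => ?_,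
    fun a ha => ?_, fun L hL => eq_top_iff.2 fun x _ => ?_⟩
  · by_cases hb : b < μ
    · simp [ha, hb, Finsupp.single_apply, eq_comm]
    · simp [ha, hb, show a ≠ b by omega]
  · simp [hb]
  · simp [ha, Finsupp.single_apply]
  · rw [← B.sum_repr x]
    refine L.sum_mem fun i _ => ?_
    have := hL i i.2
    simp only [Fin.is_lt, dite_true] at this
    rcases (by decide : ∀ t : ZMod 2, t = 0 ∨ t = 1) (B.repr x i) with e | e <;> simp [e, this]

/-- the edges are the pairs `i`, `nx μ i` -/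
def nx (μ i : ℕ) : ℕ := if i + 1 < μ then i + 1 else 1

theorem nx_c (μ i : ℕ) : nx μ i = i + 1 ∧ i + 1 < μ ∨ nx μ i = 1 ∧ μ ≤ i + 1 := by
  unfold nx; split_ifs <;> omega

def U (μ : ℕ) (f : ℕ → N) : Set N := {x | ∃ i < μ, x = f i ∨ x = f i + f (nx μ i)}

def Adj (μ i j : ℕ) : Prop := j < μ ∧ (j = nx μ i ∨ i = nx μ j)

/-- `x` lies on a line through `y` -/
def Ln (μ : ℕ) (f : ℕ → N) (y x : N) : Prop := x ∈ U μ f ∧ x + y ∈ U μ f

theorem fU (h : i < μ) : f i ∈ U μ f := ⟨i, h, Or.inl rfl⟩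

theorem Adj.ln (h : Adj μ i j) (hi : i < μ) : Ln μ f (f i) (f j) := by
  obtain ⟨hj, rfl | rfl⟩ := h
  exacts [⟨fU hj, i, hi, Or.inr (add_comm _ _)⟩, ⟨fU hj, j, hj, Or.inr rfl⟩]

namespace Bs
variable (h : Bs μ f c l o)
include h

theorem nx_lt (i : ℕ) : nx μ i < μ := by have := nx_c μ i; have := h.five; omega

theorem mv (e : x + y = x') : x = x' + y := by rw [← e, add_assoc, h.two, add_zero]

theorem r1 (hi : i < μ) (e : f i = f j) : i = j := by
  by_contra n
  have := congrArg (c i) e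
  simp [h.cf i hi, n] at this

theorem r2 (hi : i < μ) (hj : j < μ) (hk : k < μ) : f i ≠ f j + f k := fun e => by
  have := congrArg l e
  rw [map_add, h.lf i hi, h.lf j hj, h.lf k hk] at this
  exact absurd this (by decide)

theorem r3 (hi : i < μ) (e : f i = f j + f k + f a) : i = j ∨ i = k ∨ i = a := by
  by_contra n
  push Not at n
  have := congrArg (c i) e
  simp [h.cf i hi, n] at this

theorem r5 (hi : i < μ) (e : f i = f j + f k + f a + f b + f d) :
    i = j ∨ i = k ∨ i = a ∨ i = b ∨ i = d := by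
  by_contra n
  push Not at n
  have := congrArg (c i) e
  simp [h.cf i hi, n] at this

theorem ne0 (hi : i < μ) : f i ≠ 0 := fun e => by simpa [e] using h.lf i hi

theorem e0 (hi : i < μ) : f i + f (nx μ i) ≠ 0 := fun e => by
  have := h.r1 hi ((h.mv e).trans (zero_add _))
  have := nx_c μ i; have := h.five; omega

theorem neg (x : N) : -x = x := neg_eq_of_add_eq_zero_left (h.two x)

theorem ln2 (hi : i < μ) (r : Ln μ f (f i + f (nx μ i)) x) : x = f i ∨ x = f (nx μ i) := by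
  obtain ⟨⟨j, hj, rfl | rfl⟩, k, hk, e | e⟩ := r
  · rcases h.r3 hj ((h.mv e).trans (add_assoc _ _ _).symm) with rfl | rfl | rfl
    · exact absurd (by simpa using e) (h.e0 hi)
    · exact Or.inl rfl
    · exact Or.inr rfl
  · have := congrArg l e
    simp only [map_add, h.lf _ hi, h.lf _ hj, h.lf _ hk, h.lf _ (h.nx_lt _)] at this
    exact absurd this (by decide)
  · have := congrArg l e
    simp only [map_add, h.lf _ hi, h.lf _ hj, h.lf _ hk, h.lf _ (h.nx_lt _)] at this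
    exact absurd this (by decide)
  · have n1 : i ≠ j := by rintro rfl; exact h.e0 hk (e.symm.trans (h.two _))
    have n2 : j ≠ k := by rintro rfl; exact h.e0 hi (by simpa using e)
    have n3 : i ≠ k := by rintro rfl; exact h.e0 hj (by simpa using e)
    have t := h.two
    have a1 := h.r5 hi (j := nx μ i) (k := j) (a := nx μ j) (b := k) (d := nx μ k)
      (by linear_combination (norm := abel) e - t (f j) - t (f (nx μ j)) - t (f (nx μ i)))
    have a2 := h.r5 hj (j := nx μ i) (k := i) (a := nx μ j) (b := k) (d := nx μ k)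
      (by linear_combination (norm := abel) e - t (f i) - t (f (nx μ j)) - t (f (nx μ i)))
    have a3 := h.r5 hk (j := nx μ i) (k := j) (a := nx μ j) (b := i) (d := nx μ k)
      (by linear_combination (norm := abel) -e - t (f (nx μ k)))
    have := nx_c μ i; have := nx_c μ j; have := nx_c μ k; have := h.five
    omega

theorem ln1 (hi : i < μ) (r : Ln μ f (f i) x) : ∃ j, Adj μ i j ∧ (x = f j ∨ x = f j + f i) := by
  have k : ∀ j < μ, f j + f i ∈ U μ f → Adj μ i j := by
    rintro j hj ⟨k, hk, e | e⟩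
    · exact absurd e.symm (h.r2 hk hj hi)
    · rcases h.r3 hj (h.mv e) with rfl | rfl | rfl
      · exact ⟨hj, Or.inr (h.r1 hi (add_left_cancel e))⟩
      · exact ⟨hj, Or.inl (congrArg _ (h.r1 hi (add_left_cancel (e.trans (add_comm _ _)))).symm)⟩
      · exact absurd (e.symm.trans (h.two _)) (h.e0 hk)
  obtain ⟨⟨j, hj, rfl | rfl⟩, r⟩ := r
  · exact ⟨j, k j hj r, Or.inl rfl⟩
  · obtain ⟨a, ha, e | e⟩ := r
    · exact ⟨a, k a ha ⟨j, hj, Or.inr (h.mv e).symm⟩, Or.inr (h.mv e)⟩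
    · have := congrArg l e
      simp only [map_add, h.lf _ hi, h.lf _ hj, h.lf _ ha, h.lf _ (h.nx_lt _)] at this
      exact absurd this (by decide)

theorem big (i j : ℕ) (e : ∀ a < μ, a ≠ i → a ≠ j → c a x = 1) : x ∉ U μ f := by
  rintro ⟨k, -, r⟩
  have q : ∀ a < μ, a ≠ i → a ≠ j → a = k ∨ a = nx μ k := fun a ha n n' => by
    by_contra m
    push Not at m
    have := e a ha n n'
    rcases r with rfl | rfl <;> simp [h.cf a ha, m] at this
  have := h.five
  have := q 0; have := q 1; have := q 2; have := q 3; have := q 4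
  omega

theorem sm : Sm (U μ f) := by
  have b0 : o ∉ U μ f := h.big 0 0 fun a ha _ _ => h.co a ha
  have b1 : ∀ i, o + f i ∉ U μ f := fun i => h.big i i fun a ha n _ => by simp [h.co a ha, h.cf a ha, n]
  have b2 : ∀ i j, o + f i + f j ∉ U μ f := fun i j => h.big i j fun a ha n n' => by
    simp [h.co a ha, h.cf a ha, n, n']
  refine ⟨?_, fun p L hL => h.gen L fun i hi => ?_, fun β hβ => ?_⟩
  · rintro ⟨i, hi, e | e⟩
    exacts [h.ne0 hi e.symm, h.e0 hi e.symm]
  · have hj := h.nx_lt i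
    by_cases e : o = p ∨ o + f i = p
    · refine (L.add_mem_cancel_left (hL _ (b1 (nx μ i)) ?_)).1 (hL _ (b2 _ _) ?_) <;>
        rcases e with rfl | rfl <;> intro e
      · exact h.ne0 hj (by simpa using e)
      · exact h.e0 hi (by rw [add_left_cancel e, h.two])
      · exact h.e0 hi (by simpa [add_assoc, add_comm (f i)] using e)
      · exact h.ne0 hj (by simpa using e)
    · push Not at e
      exact (L.add_mem_cancel_left (hL _ b0 e.1)).1 (hL _ (b1 i) e.2)
  · refine AddMonoidHom.ker_eq_top_iff.1 (h.gen _ fun i _ => ?_)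
    exact AddMonoidHom.ker_eq_top_iff.1 (h.gen _ fun j _ => hβ o _ _ b0 (b1 i) (b1 j) (b2 i j))

variable {Z : Type} [Group Z] [DistribMulAction Z N] (hZ : ∀ z : Z, ∀ u ∈ U μ f, z • u ∈ U μ f) (z : Z)
include hZ

omit h in
theorem ln_smul (r : Ln μ f y x) : Ln μ f (z • y) (z • x) := ⟨hZ _ _ r.1, smul_add z x y ▸ hZ _ _ r.2⟩

omit hZ in
theorem same (hi : i < μ) (ha : a < μ) (hb : b < μ) {w p : N} (e : z • f i = p) (e1 : z • f a = w ∨ z • f a = w + p)
    (e2 : z • f b = w ∨ z • f b = w + p) : a = b := by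
  have q : ∀ {a b}, a < μ → b < μ → z • f a = w → z • f b ≠ w + p := fun ha hb e1 e2 =>
    h.r2 hb ha hi (smul_left_cancel z (by rw [smul_add, e, e1, e2]))
  rcases e1 with e1 | e1 <;> rcases e2 with e2 | e2
  exacts [h.r1 ha (smul_left_cancel z (e1.trans e2.symm)), absurd e2 (q ha hb e1),
    absurd e1 (q hb ha e2), h.r1 ha (smul_left_cancel z (e1.trans e2.symm))]

theorem bas (h1 : 1 ≤ i) (hi : i < μ) : ∃ k, 1 ≤ k ∧ k < μ ∧ z • f i = f k := by
  have a1 : Adj μ i (nx μ i) := ⟨h.nx_lt i, Or.inl rfl⟩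
  have a2 : Adj μ i (i - 1) := ⟨by omega, Or.inr (by have := nx_c μ (i - 1); omega)⟩
  have n : nx μ i ≠ i - 1 := by have := nx_c μ i; have := h.five; omega
  have l1 := ln_smul hZ z (a1.ln hi)
  have l2 := ln_smul hZ z (a2.ln hi)
  obtain ⟨k, hk, e | e⟩ := hZ z _ (fU hi)
  · refine ⟨k, Nat.one_le_iff_ne_zero.2 ?_, hk, e⟩
    rintro rfl
    obtain ⟨j, aj, r⟩ := h.ln1 hk (e ▸ l1)
    obtain ⟨j', aj', r'⟩ := h.ln1 hk (e ▸ l2)
    obtain rfl : j = j' := by
      have := aj.2; have := aj'.2; have := nx_c μ j; have := nx_c μ j'; omega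
    exact n (h.same z hi a1.1 a2.1 e r r')
  · have t : f (nx μ k) = f k + (f k + f (nx μ k)) := by rw [← add_assoc, h.two, zero_add]
    exact absurd (h.same z hi a1.1 a2.1 e ((h.ln2 hk (e ▸ l1)).imp_right (·.trans t))
      ((h.ln2 hk (e ▸ l2)).imp_right (·.trans t))) n

theorem adj (hi : i < μ) (hk : k < μ) (ha : a < μ) (r : Adj μ i j) (e : z • f i = f k) (e' : z • f j = f a) :
    Adj μ k a := by
  obtain ⟨b, ab, r⟩ := h.ln1 hk (e ▸ ln_smul hZ z (r.ln hi))
  rcases r with r | r <;> rw [e'] at r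
  · exact h.r1 ha r ▸ ab
  · exact absurd r (h.r2 ha ab.1 hk)

theorem three : z • f 1 = f 1 ∧ (z • f 2 = f 2 ∨ z • f 2 = f (μ - 1)) ∧
    (z • f 0 = f 0 ∨ z • f 0 = f 0 + f 1) := by
  have := h.five
  have a0 : Adj μ 1 0 := ⟨by omega, by have := nx_c μ 0; omega⟩
  have a2 : Adj μ 1 2 := ⟨by omega, by have := nx_c μ 1; omega⟩
  have a3 : Adj μ 1 (μ - 1) := ⟨by omega, by have := nx_c μ (μ - 1); omega⟩
  obtain ⟨k, k1, hk, e⟩ := h.bas hZ z (i := 1) le_rfl (by omega)
  obtain ⟨k2, _, hk2, e2⟩ := h.bas hZ z (i := 2) (by omega) (by omega)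
  obtain ⟨k3, _, hk3, e3⟩ := h.bas hZ z (i := μ - 1) (by omega) (by omega)
  obtain ⟨j, aj, r⟩ := h.ln1 hk (e ▸ ln_smul hZ z (a0.ln (by omega)))
  have b2 := (h.adj hZ z (by omega) hk hk2 a2 e e2).2
  have b3 := (h.adj hZ z (by omega) hk hk3 a3 e e3).2
  have n1 : k2 ≠ k3 := by
    rintro rfl
    have := h.r1 a2.1 (smul_left_cancel z (e2.trans e3.symm)); omega
  have n2 : j ≠ k2 := by
    rintro rfl
    have := h.same z (by omega) a0.1 a2.1 e r (Or.inl e2); omega
  have n3 : j ≠ k3 := by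
    rintro rfl
    have := h.same z (by omega) a0.1 a3.1 e r (Or.inl e3); omega
  have := aj.1; have := aj.2
  have := nx_c μ k; have := nx_c μ j; have := nx_c μ k2; have := nx_c μ k3
  obtain rfl : k = 1 := by omega
  obtain rfl : j = 0 := by omega
  refine ⟨e, ?_, r⟩
  obtain rfl | rfl : k2 = 2 ∨ k2 = μ - 1 := by omega
  exacts [Or.inl e2, Or.inr e2]

theorem triv [FaithfulSMul Z N] (e0 : z • f 0 = f 0) (e2 : z • f 2 = f 2) : z = 1 := by
  have k : ∀ i, i + 2 < μ → z • f (i + 1) = f (i + 1) ∧ z • f (i + 2) = f (i + 2) := fun i => by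
    induction i with
    | zero => exact fun _ => ⟨(h.three hZ z).1, e2⟩
    | succ i ih =>
      intro hi
      obtain ⟨r1, r2⟩ := ih (by omega)
      obtain ⟨k, _, hk, e⟩ := h.bas hZ z (i := i + 3) (by omega) hi
      have a := (h.adj hZ z (by omega) (by omega) hk (i := i + 2) (j := i + 3)
        ⟨hi, by have := nx_c μ (i + 2); omega⟩ r2 e).2
      have n : k ≠ i + 1 := by
        rintro rfl
        have := h.r1 hi (smul_left_cancel z (e.trans r1.symm)); omega
      have := nx_c μ k; have := nx_c μ (i + 2)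
      obtain rfl : k = i + 3 := by omega
      exact ⟨r2, e⟩
  have := h.gen (AddMonoidHom.eqLocus (DistribSMul.toAddMonoidHom N z) (AddMonoidHom.id N)) fun i hi => by
    obtain _ | _ | i := i
    exacts [e0, (h.three hZ z).1, (k i hi).2]
  exact eq_of_smul_eq_smul fun x : N => by rw [one_smul]; exact this.ge (AddSubgroup.mem_top x)

end Bs

theorem jobD5 : JobD5 := by
  intro N _ _ h2 hN
  obtain ⟨μ, f, c, l, o, h⟩ := exists_bs h2 hN
  refine ⟨U μ f, ⟨_, fU (i := 0) (by have := h.five; omega)⟩, h.sm, fun Z _ _ _ _ hZ => ?_⟩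
  refine (Nat.card_le_card_of_injective (fun z : Z => (z • f 2 = f 2, z • f 0 = f 0))
    fun z z' e => ?_).trans (by simp)
  obtain ⟨e2, e0⟩ := Prod.ext_iff.1 e
  obtain ⟨-, a2, a0⟩ := h.three hZ z
  obtain ⟨-, b2, b0⟩ := h.three hZ z'
  have q : ∀ {x y : N}, (z • x = x) = (z' • x = x) → (z • x = x ∨ z • x = y) → (z' • x = x ∨ z' • x = y) →
      (z'⁻¹ * z) • x = x := fun {x y} e a b => by
    rw [mul_smul, inv_smul_eq_iff]
    by_cases r : z • x = x
    · rw [r, e.mp r]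
    · rw [a.resolve_left r, b.resolve_left (mt e.mpr r)]
  exact (inv_mul_eq_one.1 (h.triv hZ _ (q e0 a0 b0) (q e2 a2 b2))).symm

end H29.D5
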