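/- FB (S3404), slot CH. -/
import Cfsg.Agent.H11.FBSpec
import Cfsg.Agent.H31.NormThree
import Cfsg.Agent.H31.TI
import Cfsg.Agent.H28.CharKer

set_option autoImplicit false

open Subgroup Cfsg H28 H11.FB

namespace H29.FBCH

universe u

theorem ex_inj (H : Type u) [Group H] [Finite H] [IsCyclic H] : ∃ f : H →* ℂˣ, Function.Injective f := by
  have : NeZero (Nat.card H) := ⟨Nat.card_pos.ne'⟩
  have e : H ≃* rootsOfUnity (Nat.card H) ℂ := 
    mulEquivOfCyclicCardEq (HasEnoughRootsOfUnity.natCard_rootsOfUnity ℂ _).symm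
  exact ⟨(rootsOfUnity _ ℂ).subtype.comp e.toMonoidHom, (subtype_injective _).comp e.injective⟩

theorem jobCH : JobCH.{u} := by
  intro G _ _ H w s hc ho hb hw wH inv TI hs nc
  classical
  have := Fintype.ofFinite G
  obtain ⟨m, hm⟩ := ho
  have sq : ∀ x ∈ H, x ^ (m + 1) * x ^ (m + 1) = x := fun x hx => by
    have h : x ^ Nat.card H = 1 := congrArg Subtype.val (pow_card_eq_one' (x := (⟨x, hx⟩ : H)))
    rw [← pow_add, show m + 1 + (m + 1) = Nat.card H + 1 by omega, pow_succ, h, one_mul]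
  have one : ∀ x ∈ H, x * x = 1 → x = 1 := fun x hx h => by
    rw [← sq x hx, ← (Commute.refl x).mul_pow, h, one_pow]
  have wi : w⁻¹ = w := inv_eq_of_mul_eq_one_right hw
  obtain ⟨f, hf⟩ := ex_inj H
  have f1 : ∀ c : H, f c ≠ 1 ↔ (c : G) ≠ 1 := fun c => by
    rw [Ne, map_eq_one_iff f hf, Ne, ← OneMemClass.coe_eq_one]
  obtain ⟨⟨c, hc0⟩, c1⟩ := ne_bot_iff_exists_ne_one.1 hb
  obtain ⟨ψ, χ, hψ, hχ, -, -, -, hΘ, hd, hv⟩ := H31.exists_pair_of_inverting H f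
    ⟨⟨c, hc0⟩, fun e => c1 (Subtype.ext (one c hc0 (congrArg Subtype.val (hf (a₂ := 1)
      (a₁ := ⟨c, hc0⟩ * ⟨c, hc0⟩) (by rw [map_mul, map_one]; exact mul_eq_one_iff_eq_inv.2 e)))))⟩ wH
    (fun c => ⟨c⁻¹, inv c c.2, map_inv f c⟩)
    (fun c h g hg => wi.symm ▸ TI g c c.2 ((f1 c).1 h) hg)
  have off : ∀ g : G, (∀ k : G, k * g * k⁻¹ ∈ H → k * g * k⁻¹ = 1) → ψ g - χ g - 1 = 0 := fun g h => by
    rw [← hΘ]
    refine H31.indFun_eq_zero_of_not_conj H {x | x ∈ H ∧ x ≠ 1} (fun c hc => ?_) g fun k hk => hk.2 (h k hk.1)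
    have : f c = 1 := by_contra fun e => hc ⟨c.2, (f1 c).1 e⟩
    rw [this]; simp
  have cs : ∀ {a : G}, IsConj s a → a * a = 1 := fun h => by
    obtain ⟨k, rfl⟩ := isConj_iff.1 h
    rw [conj_mul, hs]; simp
  have h1 := off s fun k hk => one _ hk (cs (isConj_iff.2 ⟨k, rfl⟩))
  have h2 : ∀ a ∈ H31.cls s, ∀ b ∈ H31.cls s, ψ (a * b) - χ (a * b) - 1 = 0 := fun a ha b hb =>
    off _ fun k hk => by
      by_contra n
      have ha' : IsConj s (k * a * k⁻¹) := (H31.mem_cls.1 ha).trans (isConj_iff.2 ⟨k, rfl⟩)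
      have hb' : IsConj s (k * b * k⁻¹) := (H31.mem_cls.1 hb).trans (isConj_iff.2 ⟨k, rfl⟩)
      rw [← conj_mul] at hk n
      generalize k * a * k⁻¹ = a' at *
      generalize k * b * k⁻¹ = b' at *
      have e : a' * (a' * b') * a'⁻¹ = (a' * b')⁻¹ := by
        rw [← mul_assoc, cs ha', one_mul, mul_inv_rev, inv_eq_of_mul_eq_one_right (cs hb')]
      rcases TI a' _ hk n (e ▸ inv_mem hk) with h | h
      · rw [one _ h (cs ha'), one_mul] at hk n
        exact n (one _ hk (cs hb'))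
      · refine nc ((isConj_iff.2 ⟨(a' * w) ^ (m + 1), ?_⟩ : IsConj w a').trans ha'.symm)
        have h3 := inv _ (inv_mem (pow_mem h (m + 1)))
        have h4 := sq _ h
        generalize (a' * w) ^ (m + 1) = z at h3 h4
        calc z * w * z⁻¹ = z * (w * z⁻¹ * w⁻¹) * w := by group
          _ = a' := by rw [h3, inv_inv, h4, mul_assoc, hw, mul_one]
  have h3 : ∑ a ∈ H31.cls s, ∑ b ∈ H31.cls s, (ψ (a * b) - χ (a * b) - 1) = 0 :=
    Finset.sum_eq_zero fun a ha => Finset.sum_eq_zero fun b hb => h2 a ha b hb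
  simp only [Finset.sum_sub_distrib, H31.sum_cls_sum_cls hχ, H31.sum_cls_sum_cls hψ, Finset.sum_const,
    nsmul_eq_mul] at h3
  have p1 : ((H31.cls s).card : ℂ) ≠ 0 :=
    Nat.cast_ne_zero.2 (Finset.card_ne_zero_of_mem (H31.mem_cls.2 (IsConj.refl s)))
  have p2 := hχ.apply_one_ne_zero
  have p3 := hψ.apply_one_ne_zero
  have h4 : χ s = χ 1 := by
    have e : ψ s = χ s + 1 := by linear_combination h1
    rw [e] at h3
    field_simp at h3
    rw [hd] at h3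
    have : (χ s - χ 1) ^ 2 = 0 := mul_left_cancel₀ (pow_ne_zero 2 p1) (by linear_combination -h3)
    exact sub_eq_zero.1 (pow_eq_zero_iff two_ne_zero |>.1 this)
  have := hχ.charKer_normal
  have := hψ.charKer_normal
  refine ⟨charKer χ ⊓ charKer ψ, inferInstance, ⟨hχ.mem_charKer.2 h4, hψ.mem_charKer.2 (by
    linear_combination h1 + h4 - hd)⟩, fun x hx xH => by_contra fun n => ?_⟩
  have e := hv ⟨x, xH⟩ ((f1 _).2 n)
  rw [hχ.mem_charKer.1 hx.1, hψ.mem_charKer.1 hx.2, hd] at e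
  refine (f1 ⟨x, xH⟩).2 n (Units.ext ?_)
  have p4 : (f ⟨x, xH⟩ : ℂ) ≠ 0 := Units.ne_zero _
  generalize (f ⟨x, xH⟩ : ℂ) = t at e p4
  field_simp at e
  have : (t - 1) ^ 2 = 0 := by linear_combination -e
  exact sub_eq_zero.1 (pow_eq_zero_iff two_ne_zero |>.1 this)

end H29.FBCH
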