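/- IV (S3929), slot CDZ. -/
import Cfsg.Agent.H42.IVSpec
import Cfsg.Agent.H98.Core

set_option autoImplicit false

open Cfsg Subgroup H42.IV

namespace H29.IVC

universe u
variable {H : Type u} [Group H] [Finite H]

theorem odd_of_nil (o : O2 H) (N : Subgroup H) [N.Normal] [Group.IsNilpotent N] : Odd (Nat.card N) := by
  obtain ⟨S⟩ : Nonempty (Sylow 2 N) := inferInstance
  have := S.characteristic_of_normal inferInstance
  have h := o ((S : Subgroup N).map N.subtype) inferInstance (S.isPGroup'.map _)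
  rw [map_eq_bot_iff_of_injective _ (subtype_injective N)] at h
  exact Nat.not_even_iff_odd.1 fun e => S.ne_bot_of_dvd_card e.two_dvd h

omit [Finite H] in
theorem o2_normal (o : O2 H) (K : Subgroup H) [K.Normal] : O2 K := fun _ _ hN =>
  le_bot_iff.1 ((H2.le_pCore hN).trans (H98.pCoreOf_eq_bot_iff.1 (le_bot_iff.1
    ((H98.pCoreOf_le_pCoreOf_of_normal le_top le_normalizer_of_normal).trans
      (H98.pCoreOf_top.trans (o _ inferInstance (H98.isPGroup_pCore 2 H))).le))).le)

theorem o2_quot (o : O2 H) (Z : Subgroup H) [Z.Normal] (hZ : Z ≤ center H) : O2 (H ⧸ Z) := by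
  intro N _ hN
  have := hN.isNilpotent
  let f := (QuotientGroup.mk' Z).subgroupComap N
  have : Group.IsNilpotent (N.comap (QuotientGroup.mk' Z)) :=
    Subgroup.isNilpotent_of_ker_le_center f fun x hx =>
    mem_center_iff.2 fun g => Subtype.ext
      (mem_center_iff.1 (hZ ((QuotientGroup.eq_one_iff _).1 (congrArg Subtype.val hx))) g)
  have h := (odd_of_nil o (N.comap (QuotientGroup.mk' Z))).of_dvd_nat (card_dvd_of_surjective f
    (MonoidHom.subgroupComap_surjective_of_surjective _ N (QuotientGroup.mk'_surjective Z)))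
  obtain ⟨k, hk⟩ := hN.exists_card_eq
  rw [hk] at h
  rw [← card_eq_one, hk]
  exact (Nat.coprime_self _).1 ((Nat.coprime_two_left.2 h).pow_left k)

theorem card_img (Z A : Subgroup H) [Z.Normal] (hZ : Odd (Nat.card Z)) (hA : IsPGroup 2 A) :
    Nat.card (A.map (QuotientGroup.mk' Z)) = Nat.card A := by
  obtain ⟨k, hk⟩ := hA.exists_card_eq
  have i : A ⊓ Z = ⊥ := (disjoint_of_coprime_natCard (hk ▸ (Nat.coprime_two_left.2 hZ).pow_left k)).eq_bot
  have hf : Function.Injective ((QuotientGroup.mk' Z).domRestrict A) :=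
    (injective_iff_map_eq_one _).2 fun a ha =>
      Subtype.ext (mem_bot.1 (i.le ⟨a.2, (QuotientGroup.eq_one_iff _).1 ha⟩))
  rw [← MonoidHom.domRestrict_range]
  exact (Nat.card_congr (MonoidHom.ofInjective hf).toEquiv).symm

theorem jobCDZ : JobCDZ.{u} := by
  intro hCD hR H _ _
  induction' hn : Nat.card H using Nat.strong_induction_on with n ih generalizing H
  subst hn
  intro X Y o cX pX pY le
  by_cases h : ∀ M : Subgroup H, M.Normal → IsMulCommutative M → M = ⊥
  · exact (Nat.mul_le_mul_left _ (card_le_of_le le)).trans (hCD H h X)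
  push Not at h
  obtain ⟨M, nM, cM, n⟩ := h
  have oM : Odd (Nat.card M) := by
    let _ : CommGroup M := { mul_comm := cM.is_comm.comm }
    exact odd_of_nil o M
  have h1 := hR H M X nM cM oM cX pX
  have MK : M ≤ centralizer (M : Set H) := le_centralizer M
  have hZ : M.subgroupOf (centralizer (M : Set H)) ≤ center _ := fun x hx =>
    mem_center_iff.2 fun g => Subtype.ext (g.2 x hx).symm
  generalize hK : centralizer (M : Set H) = K at h1 MK hZ
  have : K.Normal := hK ▸ inferInstance
  have cZ : Nat.card (M.subgroupOf K) = Nat.card M := Nat.card_congr (subgroupOfEquivOfLe MK).toEquiv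
  have c1 := card_eq_card_quotient_mul_card_subgroup (M.subgroupOf K)
  have c2 := K.index_mul_card
  have c3 : 1 < Nat.card M := (one_lt_card_iff_ne_bot M).2 n
  have c4 : 0 < Nat.card (K ⧸ M.subgroupOf K) := Nat.card_pos
  have c5 := K.card_le_card_group
  have h2 := ih _ (by rw [cZ] at c1; nlinarith) (K ⧸ M.subgroupOf K) rfl
    ((X.subgroupOf K).map (QuotientGroup.mk' _)) ((Y.subgroupOf K).map (QuotientGroup.mk' _))
    (o2_quot (o2_normal o K) _ hZ) inferInstance (pX.comap_subtype.map _) (pY.comap_subtype.map _) (by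
      rintro _ ⟨y, hy, rfl⟩ _ ⟨x, hx, rfl⟩
      rw [← map_mul, ← map_mul]
      exact congrArg _ (Subtype.ext (le hy x hx)))
  rw [card_img _ (X.subgroupOf K) (cZ ▸ oM) pX.comap_subtype,
    card_img _ (Y.subgroupOf K) (cZ ▸ oM) pY.comap_subtype] at h2
  have e : ∀ A : Subgroup H, Nat.card (A.subgroupOf K) = Nat.card (A ⊓ K : Subgroup H) := fun A => by
    rw [← inf_subgroupOf_right]; exact Nat.card_congr (subgroupOfEquivOfLe inf_le_right).toEquiv
  have h3 : Nat.card Y ≤ K.index * Nat.card (Y ⊓ K : Subgroup H) := by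
    rw [← (K.subgroupOf Y).index_mul_card, ← inf_subgroupOf_left,
      Nat.card_congr (subgroupOfEquivOfLe (inf_le_left : Y ⊓ K ≤ Y)).toEquiv, inf_subgroupOf_left]
    exact Nat.mul_le_mul_right _ (Nat.le_of_dvd (Nat.pos_of_ne_zero index_ne_zero_of_finite)
      (relIndex_dvd_index_of_normal K Y))
  rw [e, e] at h2
  calc _ ≤ _ := Nat.mul_le_mul h1 h3
    _ = K.index * (Nat.card (X ⊓ K : Subgroup H) * Nat.card (Y ⊓ K : Subgroup H) * Nat.card M) := by ring
    _ ≤ K.index * (Nat.card (K ⧸ M.subgroupOf K) * Nat.card M) := by gcongr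
    _ = _ := by rw [← cZ, ← c1, c2]

end H29.IVC
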