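/- Involutory automorphisms inverting few elements of odd order: counting lemmas. -/
import Cfsg.Agent.Base

set_option autoImplicit false

namespace H29.IO3

open Subgroup

variable {G : Type*} [Group G] [Finite G]

/-- Schur: bounded centre index, few generators of bounded order. -/
theorem card_le_of_center {S : Set G} (hS : closure S = ⊤) {a k e : ℕ} (he : 0 < e)
    (hk : S.ncard ≤ k) (hs : ∀ s ∈ S, s ^ e = 1) (ha : (center G).index ≤ a) :
    Nat.card G ≤ a * (a * e) ^ (a * k) := by
  have hi : 0 < (center G).index := Nat.pos_of_ne_zero index_ne_zero_of_finite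
  have h1 : ∀ g : G, (MonoidHom.transferCenterPow G g) ^ e = 1 := fun g => by
    have hg : g ∈ closure S := hS ▸ mem_top g
    induction hg using closure_induction with
    | mem x hx => rw [← map_pow, hs x hx, map_one]
    | one => simp
    | mul x y _ _ hx hy =>
      rw [map_mul, Commute.mul_pow (Subtype.ext (mem_center_iff.1 (Subtype.coe_prop _) _)), hx, hy,
        one_mul]
    | inv x _ hx => rw [map_inv, inv_pow, hx, inv_one]
  have h2 : ∀ z : center G, z ^ ((center G).index * e) = 1 := fun z => by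
    have := congrArg Subtype.val (h1 z)
    apply Subtype.ext
    rw [pow_mul]
    exact this
  have h3 : Group.rank G ≤ k := by
    have := Group.rank_le (G := G) (S := S.toFinite.toFinset) (by simpa using hS)
    exact this.trans (by rwa [← Set.ncard_eq_toFinset_card S])
  have h4 : Group.rank (center G) ≤ a * k :=
    (rank_le_index_mul_rank (center G)).trans (Nat.mul_le_mul ha h3)
  have h5 : Nat.card (center G) ≤ ((center G).index * e) ^ Group.rank (center G) := by
    letI : CommGroup (center G) := { (inferInstance : Group (center G)) with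
      mul_comm := fun x y => Subtype.ext (mem_center_iff.1 y.2 x) }
    exact Nat.le_of_dvd (by positivity) (card_dvd_exponent_pow_rank' (center G) h2)
  rw [← (center G).index_mul_card]
  refine Nat.mul_le_mul ha (h5.trans ?_)
  exact (Nat.pow_le_pow_left (Nat.mul_le_mul_right _ ha) _).trans
    (Nat.pow_le_pow_right (Nat.mul_pos (hi.trans_le ha) he) h4)

theorem index_center_le {S : Set G} (hS : closure S = ⊤) {a k : ℕ} (ha : 0 < a) (hk : S.ncard ≤ k)
    (hs : ∀ s ∈ S, (centralizer {s}).index ≤ a) : (center G).index ≤ a ^ k := by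
  classical
  haveI := Fintype.ofFinite S
  have h1 : center G = ⨅ s : S, centralizer {s.1} := by
    rw [← centralizer_univ, ← coe_top, ← hS, centralizer_closure]
    ext g
    simp [mem_centralizer_iff, mem_iInf]
  rw [h1]
  refine (index_iInf_le _).trans ((Finset.prod_le_pow_card _ _ a fun s _ => hs s.1 s.2).trans ?_)
  refine Nat.pow_le_pow_right ha ?_
  rwa [Finset.card_univ, ← Nat.card_eq_fintype_card, Nat.card_coe_set_eq]

/-- the bound for the normal closure of an involution with at most `k` conjugates -/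
def nb (k : ℕ) : ℕ := k ^ k * (k ^ k * 2) ^ (k ^ k * k)

theorem card_normalClosure_le {z : G} (hz : z ^ 2 = 1) {k : ℕ}
    (hk : (centralizer {z}).index ≤ k) : Nat.card (normalClosure {z}) ≤ nb k := by
  have hk0 : 0 < k := (Nat.pos_of_ne_zero index_ne_zero_of_finite).trans_le hk
  let N := normalClosure ({z} : Set G)
  let S : Set N := N.subtype ⁻¹' Group.conjugatesOfSet {z}
  have hS : closure S = ⊤ := closure_preimage_eq_top _
  have hm : ∀ s ∈ S, ∃ g : G, g * z * g⁻¹ = s := fun s hs => by
    obtain ⟨_, rfl, h⟩ := Group.mem_conjugatesOfSet_iff.1 hs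
    exact isConj_iff.1 h
  have hc : S.ncard ≤ k := by
    refine le_trans ?_ hk
    rw [index, ← Set.ncard_univ]
    choose! f hf using hm
    refine Set.ncard_le_ncard_of_injOn (fun s => (f s : G ⧸ centralizer {z}))
      (fun _ _ => Set.mem_univ _) fun s hs t ht h => Subtype.ext ?_
    have h1 := mem_centralizer_singleton_iff.1 (QuotientGroup.eq.1 h)
    rw [← hf s hs, ← hf t ht]
    calc f s * z * (f s)⁻¹ = f s * (z * ((f s)⁻¹ * f t)) * (f t)⁻¹ := by group
      _ = _ := by rw [← h1]; group
  refine card_le_of_center hS two_pos hc (fun s hs => ?_) (index_center_le hS hk0 hc fun s hs => ?_)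
  · obtain ⟨g, hg⟩ := hm s hs
    apply Subtype.ext
    rw [coe_pow, ← hg, conj_pow, hz]
    simp
  · obtain ⟨g, hg⟩ := hm s hs
    have h1 : centralizer {s} = ((centralizer {z}).comap (MulAut.conj g⁻¹).toMonoidHom).subgroupOf N := by
      ext x
      simp only [mem_centralizer_singleton_iff, mem_subgroupOf, mem_comap, MulEquiv.coe_toMonoidHom,
        MulAut.conj_apply, inv_inv, Subtype.ext_iff, coe_mul, ← hg]
      constructor
      · intro h
        calc g⁻¹ * x * g * z = g⁻¹ * (x * (g * z * g⁻¹)) * g := by group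
          _ = _ := by rw [h]; group
      · intro h
        calc x * (g * z * g⁻¹) = g * (g⁻¹ * x * g * z) * g⁻¹ := by group
          _ = _ := by rw [h]; group
    rw [h1]
    refine le_trans (relIndex_le_of_le_right (le_top (a := N)) ?_) ?_
    · rw [relIndex_top_right]; exact index_ne_zero_of_finite
    · rwa [relIndex_top_right, index_comap_of_surjective _ (MulAut.conj g⁻¹).surjective]

/-- elements of odd order inverted by `α` -/
def J (α : G →* G) : Set G := {x | Odd (orderOf x) ∧ α x = x⁻¹}

/-- fixed points -/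
def Fx (α : G →* G) : Subgroup G := α.eqLocus (MonoidHom.id G)

variable {α : G →* G}

omit [Finite G] in
theorem mem_Fx {x : G} : x ∈ Fx α ↔ α x = x := Iff.rfl

theorem ncard_le_mul {A B : Set G} (h : ∀ g ∈ A, g * (α g)⁻¹ ∈ B) :
    A.ncard ≤ Nat.card (Fx α) * B.ncard := by
  classical
  rw [Set.ncard_eq_toFinset_card A, Set.ncard_eq_toFinset_card B]
  refine Finset.card_le_mul_card_image_of_maps_to (f := fun g => g * (α g)⁻¹) (by simpa using h) _
    fun b _ => ?_
  rcases (Finset.filter (fun g => g * (α g)⁻¹ = b) A.toFinite.toFinset).eq_empty_or_nonempty with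
    h0 | ⟨g, hg⟩
  · rw [h0]; simp
  · rw [← SetLike.coe_sort_coe, Nat.card_coe_set_eq, Set.ncard_eq_toFinset_card (Fx α : Set G)]
    refine Finset.card_le_card_of_injOn (fun x => g⁻¹ * x) (fun x hx => ?_)
      fun x _ y _ hxy => mul_left_cancel hxy
    have h1 := (Finset.mem_filter.1 hg).2
    have h2 := (Finset.mem_filter.1 (Finset.mem_coe.1 hx)).2
    simp only [Set.Finite.coe_toFinset, SetLike.mem_coe, mem_Fx, map_mul, map_inv]
    calc (α g)⁻¹ * α x = g⁻¹ * (g * (α g)⁻¹) * α x := by group
      _ = g⁻¹ * (x * (α x)⁻¹) * α x := by rw [h1, h2]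
      _ = _ := by group

/-- Brauer–Fowler -/
theorem exists_invol (hα : ∀ g, α (α g) = g) {m n : ℕ} (hm : (J α).ncard ≤ m)
    (hn : Nat.card (Fx α) ≤ n) :
    Nat.card G ≤ 2 * n * m ∨ ∃ z : G, z ≠ 1 ∧ z ^ 2 = 1 ∧ α z = z ∧
      (centralizer {z}).index ≤ 2 * n * n := by
  classical
  by_contra hcon
  push Not at hcon
  obtain ⟨h1, h2⟩ := hcon
  let Z : Finset G := ((Fx α : Set G).toFinite.toFinset).filter fun z => z ≠ 1 ∧ z ^ 2 = 1
  let M := Nat.card G / (2 * n * n)
  have hZ : Z.card ≤ n := by
    refine (Finset.card_filter_le _ _).trans ?_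
    rwa [← Set.ncard_eq_toFinset_card, ← Nat.card_coe_set_eq]
  have hn0 : 0 < n := Nat.card_pos.trans_le hn
  have hM : ∀ z ∈ Z, (centralizer {z} : Set G).ncard ≤ M := fun z hz => by
    obtain ⟨h3, h4, h5⟩ := Finset.mem_filter.1 hz
    have h6 := h2 z h4 h5 (mem_Fx.1 (by simpa using h3))
    rw [Nat.le_div_iff_mul_le (by positivity), ← (centralizer {z}).index_mul_card, mul_comm]
    exact Nat.mul_le_mul h6.le (Nat.card_coe_set_eq _).ge
  have hB : (J α ∪ ⋃ z ∈ Z, (centralizer {z} : Set G)).ncard ≤ m + n * M := by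
    refine (Set.ncard_union_le _ _).trans (Nat.add_le_add hm ?_)
    refine (Finset.set_ncard_biUnion_le Z _).trans ?_
    exact (Finset.sum_le_card_nsmul _ _ M hM).trans (Nat.mul_le_mul_right _ hZ)
  have h3 := ncard_le_mul (α := α) (A := Set.univ)
    (B := J α ∪ ⋃ z ∈ Z, (centralizer {z} : Set G)) fun g _ => by
    set t := g * (α g)⁻¹ with ht
    have h4 : α t = t⁻¹ := by simp [ht, hα]
    rcases Nat.even_or_odd (orderOf t) with ⟨k, hk⟩ | hk
    · have h5 : (t ^ k) ^ 2 = 1 := by rw [← pow_mul, mul_two, ← hk, pow_orderOf_eq_one]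
      have h0 := orderOf_pos t
      refine .inr (Set.mem_biUnion (x := t ^ k) (Finset.mem_filter.2 ⟨?_, ?_, h5⟩) ?_)
      · simp only [Set.Finite.mem_toFinset, SetLike.mem_coe, mem_Fx, map_pow, h4, inv_pow]
        exact inv_eq_of_mul_eq_one_left (by rwa [← pow_two])
      · exact pow_ne_one_of_lt_orderOf (by omega) (by omega)
      · exact mem_centralizer_singleton_iff.2 (Commute.self_pow t k)
    · exact .inl ⟨hk, h4⟩
  rw [Set.ncard_univ] at h3
  have h4 := h3.trans (Nat.mul_le_mul hn hB)
  have h5 : M * (2 * n * n) ≤ Nat.card G := Nat.div_mul_le_self _ _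
  nlinarith

end H29.IO3
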