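/- Involutory automorphisms inverting few elements of odd order: the bound. -/
import Cfsg.Agent.H29.InvOddA

set_option autoImplicit false

namespace H29.IO3

open Subgroup

variable {G : Type*} [Group G] [Finite G] {α : G →* G}

/-- the induced map on a quotient -/
def qm (α : G →* G) (N : Subgroup G) [N.Normal] (h : N ≤ N.comap α) : G ⧸ N →* G ⧸ N :=
  QuotientGroup.map N N α h

section quot
variable {N : Subgroup G} [N.Normal] (h : N ≤ N.comap α)

omit [Finite G] in
theorem qm_mk (g : G) : qm α N h (g : G ⧸ N) = (α g : G ⧸ N) := rfl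

omit [Finite G] in
theorem qm_invol (hα : ∀ g, α (α g) = g) (x : G ⧸ N) : qm α N h (qm α N h x) = x := by
  obtain ⟨g, rfl⟩ := QuotientGroup.mk_surjective x
  rw [qm_mk, qm_mk, hα]

theorem J_image (hα : ∀ g, α (α g) = g) : J (qm α N h) = QuotientGroup.mk' N '' J α := by
  ext x
  constructor
  · rintro ⟨⟨r, hr⟩, h2⟩
    obtain ⟨y, hy⟩ := QuotientGroup.mk'_surjective N (x ^ (r + 1))
    set t := y * (α y)⁻¹ with ht
    have h3 : α t = t⁻¹ := by simp [ht, hα]
    have h4 : QuotientGroup.mk' N t = x := by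
      have e1 : QuotientGroup.mk' N (α y) = qm α N h (QuotientGroup.mk' N y) := rfl
      rw [ht, map_mul, map_inv, e1, hy, map_pow, h2, inv_pow, inv_inv, ← pow_add,
        show r + 1 + (r + 1) = orderOf x + 1 by omega, pow_succ, pow_orderOf_eq_one, one_mul]
    obtain ⟨a, b, hb, hab⟩ := Nat.exists_eq_two_pow_mul_odd (orderOf_pos t).ne'
    have h5 : (2 ^ a).Coprime (orderOf x) :=
      Nat.Coprime.pow_left _ (Nat.coprime_two_left.2 ⟨r, hr⟩)
    obtain ⟨j, hj⟩ := exists_pow_eq_self_of_coprime h5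
    refine ⟨(t ^ 2 ^ a) ^ j, ⟨Odd.of_dvd_nat hb (orderOf_dvd_of_pow_eq_one ?_), ?_⟩, ?_⟩
    · rw [← pow_mul, mul_comm j, pow_mul, ← pow_mul t, ← hab, pow_orderOf_eq_one, one_pow]
    · rw [map_pow, map_pow, h3, inv_pow, inv_pow]
    · rw [map_pow, map_pow, h4, hj]
  · rintro ⟨g, ⟨h1, h2⟩, rfl⟩
    refine ⟨Odd.of_dvd_nat h1 (orderOf_map_dvd _ g), ?_⟩
    rw [QuotientGroup.mk'_apply, qm_mk, h2, QuotientGroup.mk_inv]

theorem J_gen (hα : ∀ g, α (α g) = g) (hG : closure (J α) = ⊤) : closure (J (qm α N h)) = ⊤ := by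
  rw [J_image h hα, ← MonoidHom.map_closure, hG,
    map_top_of_surjective _ (QuotientGroup.mk'_surjective N)]

theorem J_card (hα : ∀ g, α (α g) = g) : (J (qm α N h)).ncard ≤ (J α).ncard := by
  rw [J_image h hα]
  exact Set.ncard_image_le

theorem Fx_card (hα : ∀ g, α (α g) = g) : Nat.card N * Nat.card (Fx (qm α N h)) ≤
    Nat.card (Fx α) * ((N : Set G) ∩ {x | α x = x⁻¹}).ncard := by
  rw [← SetLike.coe_sort_coe (Fx (qm α N h)), ← QuotientGroup.card_preimage_mk,
    Nat.card_coe_set_eq]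
  refine ncard_le_mul fun g hg => ⟨?_, by simp [hα]⟩
  have h1 : (α g : G ⧸ N) = (g : G ⧸ N) := hg
  rw [SetLike.mem_coe, ← QuotientGroup.eq_one_iff, QuotientGroup.mk_mul, QuotientGroup.mk_inv, h1,
    mul_inv_cancel]

theorem Fx_card_le (hα : ∀ g, α (α g) = g) : Nat.card (Fx (qm α N h)) ≤ Nat.card (Fx α) := by
  have h1 := (Fx_card h hα).trans (Nat.mul_le_mul_left _
    (Set.ncard_le_ncard Set.inter_subset_left))
  rw [← Nat.card_coe_set_eq, mul_comm] at h1
  exact Nat.le_of_mul_le_mul_right h1 Nat.card_pos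

theorem Fx_card_lt (hα : ∀ g, α (α g) = g) {x : G} (hx : x ∈ N) (hx' : α x ≠ x⁻¹) :
    Nat.card (Fx (qm α N h)) < Nat.card (Fx α) := by
  have h0 : ((N : Set G) ∩ {x | α x = x⁻¹}).ncard < (N : Set G).ncard :=
    Set.ncard_lt_ncard ⟨Set.inter_subset_left, fun h2 => hx' (h2 hx).2⟩
  have h1 := (Fx_card h hα).trans_lt (Nat.mul_lt_mul_of_pos_left h0 Nat.card_pos)
  rw [← Nat.card_coe_set_eq, mul_comm] at h1
  exact Nat.lt_of_mul_lt_mul_right h1

end quot

omit [Finite G] in
theorem center_le (hα : ∀ g, α (α g) = g) : center G ≤ (center G).comap α := fun z hz =>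
  mem_comap.2 <| mem_center_iff.2 fun g => by
    rw [← hα g, ← map_mul, ← map_mul, mem_center_iff.1 hz]

omit [Finite G] in
theorem mem_center_of_J (hG : closure (J α) = ⊤) {w : G} (h : ∀ x ∈ J α, x * w = w * x) :
    w ∈ center G := by
  rw [← centralizer_univ, ← coe_top, ← hG, centralizer_closure]
  exact h

omit [Finite G] in
theorem commute_of_sq {x w : G} (hx : Odd (orderOf x)) (h : Commute (x ^ 2) w) : Commute x w := by
  obtain ⟨r, hr⟩ := hx
  have : x = (x ^ 2) ^ (r + 1) := by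
    rw [← pow_mul, show 2 * (r + 1) = orderOf x + 1 by omega, pow_succ, pow_orderOf_eq_one, one_mul]
  rw [this]
  exact h.pow_left _

omit [Finite G] in
/-- `G / Z(G)` has no central involution -/
theorem not_central (hG : closure (J α) = ⊤) {z : G ⧸ center G} (h2 : z ^ 2 = 1)
    (hz : z ∈ center (G ⧸ center G)) : z = 1 := by
  obtain ⟨w, rfl⟩ := QuotientGroup.mk_surjective z
  rw [← QuotientGroup.mk_pow, QuotientGroup.eq_one_iff] at h2
  refine (QuotientGroup.eq_one_iff w).2 (mem_center_of_J hG fun x hx => commute_of_sq hx.1 ?_)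
  have h3 : (x * w)⁻¹ * (w * x) ∈ center G := QuotientGroup.eq.1 (mem_center_iff.1 hz x)
  set c := (x * w)⁻¹ * (w * x) with hc
  have h4 : w * x = x * w * c := by rw [hc]; group
  have h5 : ∀ g, g * c = c * g := mem_center_iff.1 h3
  have h6 : c * c = 1 := by
    have e1 : x * w ^ 2 = w ^ 2 * x := mem_center_iff.1 h2 x
    have e2 : w ^ 2 * x = x * w ^ 2 * (c * c) := by
      calc w ^ 2 * x = w * (w * x) := by rw [pow_two, mul_assoc]
        _ = (w * x) * (w * c) := by rw [mul_assoc w x, ← mul_assoc x w c, ← h4]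
        _ = x * w * (c * w) * c := by rw [h4]; simp only [mul_assoc]
        _ = _ := by rw [← h5 w, pow_two]; group
    rw [← e1] at e2
    exact (mul_eq_left.1 e2.symm)
  change x ^ 2 * w = w * x ^ 2
  calc x ^ 2 * w = x * x * w * (c * c) := by rw [h6, pow_two, mul_one]
    _ = x * (x * w * c) * c := by group
    _ = x * w * (x * c) := by rw [← h4]; group
    _ = (x * w * c) * x := by rw [h5 x]; group
    _ = _ := by rw [← h4, pow_two, mul_assoc]

theorem pow_factorial_eq_one {m : ℕ} (hm : (J α).ncard ≤ m) : ∀ x ∈ J α, x ^ m.factorial = 1 := by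
  intro x hx
  refine orderOf_dvd_iff_pow_eq_one.1 (Nat.dvd_factorial (orderOf_pos x) (le_trans ?_ hm))
  rw [← Nat.card_zpowers, ← SetLike.coe_sort_coe, Nat.card_coe_set_eq]
  refine Set.ncard_le_ncard fun y hy => ?_
  obtain ⟨k, rfl⟩ := mem_zpowers_iff.1 hy
  exact ⟨Odd.of_dvd_nat hx.1 (orderOf_dvd_of_mem_zpowers hy), by rw [map_zpow, hx.2, inv_zpow]⟩

theorem Fx_center_le (hα : ∀ g, α (α g) = g) (hG : closure (J α) = ⊤) :
    Nat.card (Fx (qm α (center G) (center_le hα))) ≤ (J α).ncard ^ (J α).ncard := by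
  have hm : ∀ (w : Fx (qm α (center G) (center_le hα))) (x : J α),
      w.1.out * x * w.1.out⁻¹ ∈ J α := fun w x => by
    set v := w.1.out
    have h1 : (α v : G ⧸ center G) = (v : G ⧸ center G) := by
      rw [← qm_mk (center_le hα), QuotientGroup.out_eq']
      exact w.2
    have h2 := mem_center_iff.1 (QuotientGroup.eq.1 h1) (x : G)⁻¹
    refine ⟨(MulEquiv.orderOf_eq (MulAut.conj v) (x : G)).symm ▸ x.2.1, ?_⟩
    rw [map_mul, map_mul, map_inv, x.2.2]
    calc α v * (x : G)⁻¹ * (α v)⁻¹ = α v * ((x : G)⁻¹ * ((α v)⁻¹ * v)) * v⁻¹ := by group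
      _ = _ := by rw [h2]; group
  rw [← Nat.card_coe_set_eq, ← Nat.card_fun]
  refine Nat.card_le_card_of_injective (fun w x => (⟨_, hm w x⟩ : J α)) fun w w' hw => ?_
  apply Subtype.ext
  rw [← QuotientGroup.out_eq' w.1, ← QuotientGroup.out_eq' w'.1, QuotientGroup.eq]
  refine mem_center_of_J hG fun x hx => ?_
  have h1 : w.1.out * x * w.1.out⁻¹ = w'.1.out * x * w'.1.out⁻¹ :=
    congrArg Subtype.val (congrFun hw ⟨x, hx⟩)
  calc x * (w.1.out⁻¹ * w'.1.out) = w.1.out⁻¹ * (w.1.out * x * w.1.out⁻¹) * w'.1.out := by group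
    _ = _ := by rw [h1]; group

universe u

theorem bound (m n : ℕ) : ∃ b, ∀ (G : Type u) [Group G] [Finite G] (α : G →* G),
    (∀ g, α (α g) = g) → closure (J α) = ⊤ → (J α).ncard ≤ m → Nat.card (Fx α) ≤ n →
      Nat.card G ≤ b := by
  induction n with
  | zero => exact ⟨0, fun G _ _ α _ _ _ h => absurd h Nat.card_pos.not_ge⟩
  | succ n ih =>
    obtain ⟨b, hb⟩ := ih
    let a := 2 * (n + 1) * m + b * nb (2 * (n + 1) * (n + 1))
    refine ⟨a * (a * m.factorial) ^ (a * m), fun G _ _ α hα hG hm hn => ?_⟩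
    refine card_le_of_center hG m.factorial_pos hm (pow_factorial_eq_one hm) ?_
    have h := center_le hα
    have hβ := qm_invol h hα
    have hG' := J_gen h hα hG
    have hm' := (J_card h hα).trans hm
    have hn' := (Fx_card_le h hα).trans hn
    generalize qm α (center G) h = β at hβ hG' hm' hn'
    rcases exists_invol hβ hm' hn' with h1 | ⟨z, h1, h2, h3, h4⟩
    · exact h1.trans (Nat.le_add_right _ _)
    · have hN : normalClosure {z} ≤ (normalClosure {z}).comap β :=
        normalClosure_le_normal (by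
          rintro _ rfl
          rw [SetLike.mem_coe, mem_comap, h3]
          exact subset_normalClosure rfl)
      obtain ⟨x, hx, hx'⟩ : ∃ x ∈ normalClosure {z}, β x ≠ x⁻¹ := by
        by_contra hcon
        push Not at hcon
        refine h1 (not_central hG h2 (mem_center_of_J hG' fun x hx => commute_of_sq hx.1 ?_))
        have e1 := hcon (x * z * x⁻¹)
          (normalClosure_normal.conj_mem z (subset_normalClosure (Set.mem_singleton z)) x)
        have e2 : z⁻¹ = z := inv_eq_of_mul_eq_one_left (by rwa [← pow_two])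
        rw [map_mul, map_mul, map_inv, hx.2, h3, conj_inv, e2] at e1
        change x ^ 2 * z = z * x ^ 2
        calc x ^ 2 * z = x * (x * z * x⁻¹) * x := by rw [pow_two]; group
          _ = _ := by rw [← e1, pow_two]; group
      have h5 := hb _ _ (qm_invol hN hβ) (J_gen hN hβ hG') ((J_card hN hβ).trans hm')
        (Nat.le_of_lt_succ ((Fx_card_lt hN hβ hx hx').trans_le hn'))
      refine le_trans ?_ (Nat.le_add_left _ _)
      rw [index, card_eq_card_quotient_mul_card_subgroup (normalClosure {z})]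
      exact Nat.mul_le_mul h5 (card_normalClosure_le h2 h4)

theorem main (m : ℕ) : ∃ b, ∀ (G : Type u) [Group G] [Finite G] (α : G →* G),
    (∀ g, α (α g) = g) → closure (J α) = ⊤ → (J α).ncard = m → Nat.card G ≤ b := by
  obtain ⟨a, ha⟩ := bound.{u} m (m ^ m)
  refine ⟨a * (a * m.factorial) ^ (a * m), fun G _ _ α hα hG hm => ?_⟩
  refine card_le_of_center hG m.factorial_pos hm.le (pow_factorial_eq_one hm.le) ?_
  have h := center_le hα
  exact ha _ _ (qm_invol h hα) (J_gen h hα hG) ((J_card h hα).trans hm.le)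
    (hm ▸ Fx_center_le hα hG)

end H29.IO3
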