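import Cfsg.Agent.H36.NGSpec
import Cfsg.Agent.H30.ItoX
import Cfsg.Agent.H2.PrRedA

/-! Self-centralizing Sylow subgroup of prime order: the first list of facts (`H36.NG.JobM1`). -/

set_option autoImplicit false
set_option linter.unusedSectionVars false

namespace H29.NGM

open _root_.Cfsg H28 H39 H45 H87 H2.PR H36.NG Finset

universe u

variable {G : Type u} [Group G] [Fintype G] {p e h t : ℕ} [hp : Fact p.Prime] {P : Sylow p G}
  {x y g : G} {X Y : Finset (IrrCharacter G)} {δ : IrrCharacter G → ℤ} {ε : ℤ} {Ψ : G → ℂ}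

theorem center_eq_bot (hs : IsSimpleGroup G) (hG : commutator G = ⊤) :
    Subgroup.center G = ⊥ := by
  refine (hs.eq_bot_or_eq_top_of_normal _ inferInstance).resolve_right fun h1 => ?_
  have h2 : commutator G = ⊥ := by
    rw [commutator, Subgroup.commutator_eq_bot_iff_le_centralizer]
    intro a _ b _
    exact Subgroup.mem_center_iff.1 (h1 ▸ Subgroup.mem_top a) b
  exact bot_ne_top (h2.symm.trans hG)

theorem mem_of_nor {z : G} (hz : orderOf z = p) (hn : z ∈ Nor (P : Subgroup G)) :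
    z ∈ (P : Subgroup G) := by
  rw [← smul_sylow_eq_iff_of_orderOf hz, ← MulAction.mem_stabilizer_iff,
    P.stabilizer_eq_normalizer]
  exact hn

section
variable (L : Lo p e h (P : Subgroup G) x y) (hZ : Subgroup.center G = ⊥)
include L hZ

theorem sing (hg : p ∣ orderOf g) : ∃ z ∈ (P : Subgroup G), z ≠ 1 ∧ IsConj g z := by
  obtain ⟨z, hz, z1, w, hw, c⟩ := L.cpl.exists_conj hg
  rw [hZ, Subgroup.mem_bot] at hw
  exact ⟨z, hz, z1, by rwa [hw, mul_one] at c⟩

theorem cen_le : Cen (P : Subgroup G) ≤ (P : Subgroup G) := fun c hc => by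
  obtain ⟨z, hz, w, hw, rfl⟩ := L.cpl.ex c hc
  rw [hZ, Subgroup.mem_bot] at hw
  rwa [hw, mul_one]

theorem ord : orderOf x = e := by
  refine Nat.dvd_antisymm (orderOf_dvd_of_pow_eq_one ?_) (L.pow_mem_cen_iff.1 ?_)
  · have := L.xe
    rwa [hZ, Subgroup.mem_bot] at this
  · rw [pow_orderOf_eq_one]; exact one_mem _

theorem cz {z : G} (hz : orderOf z = p) (hc : g * z = z * g) : g ∈ Subgroup.zpowers z := by
  obtain ⟨w, hw, w1, c⟩ := sing L hZ (g := z) (hz ▸ dvd_rfl)
  obtain ⟨a, rfl⟩ := isConj_iff.1 c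
  have h1 : a * g * a⁻¹ ∈ Subgroup.zpowers (a * z * a⁻¹) := by
    rw [zpowers_eq_of_mem_prime L.card hw w1]
    refine cen_le L hZ ?_
    rw [Cen, ← centralizer_singleton_eq_prime L.card hw w1, Subgroup.mem_centralizer_singleton_iff]
    calc a * g * a⁻¹ * (a * z * a⁻¹) = a * (g * z) * a⁻¹ := by group
      _ = _ := by rw [hc]; group
  obtain ⟨k, hk⟩ := h1
  refine ⟨k, ?_⟩
  simp only [conj_zpow] at hk
  simpa using hk

theorem ind_sing {f : Nor (P : Subgroup G) → ℂ}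
    (hf : ∀ z : Nor (P : Subgroup G), (z : G) ∈ (P : Subgroup G) → f z = 1)
    (hg : p ∣ orderOf g) : indFun (Nor (P : Subgroup G)) f g = 1 := by
  obtain ⟨z, hz, z1, c⟩ := sing L hZ hg
  have ho : orderOf g = p :=
    (orderOf_eq_of_isConj c).trans (orderOf_eq_of_mem_prime L.card hz z1)
  have h1 : indFun (Nor (P : Subgroup G)) f g = pi (Nor (P : Subgroup G)) g := by
    simp only [indFun]
    congr 1
    refine Finset.sum_congr rfl fun a _ => ?_
    by_cases ha : a⁻¹ * g * a ∈ Nor (P : Subgroup G)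
    · have h2 : a⁻¹ * g * a ∈ (P : Subgroup G) := mem_of_nor
        ((orderOf_eq_of_isConj (isConj_iff.2 ⟨a⁻¹, by rw [inv_inv]⟩)).symm.trans ho) ha
      have h3 := fun θ : Nor (P : Subgroup G) → ℂ =>
        Subtype.val_injective.extend_apply θ (0 : G → ℂ) ⟨_, ha⟩
      unfold extendByZero
      exact (h3 f).trans ((hf _ h2).trans (h3 fun _ => 1).symm)
    · unfold extendByZero
      rw [Function.extend_apply' _ _ _ fun ⟨b, hb⟩ => ha (hb ▸ b.2),
        Function.extend_apply' _ _ _ fun ⟨b, hb⟩ => ha (hb ▸ b.2)]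
  have h2 : Nor (P : Subgroup G) = MulAction.stabilizer G P := P.stabilizer_eq_normalizer.symm
  rw [h1, pi_sing L.card (h2 ▸ cen_le_stab P) h2.le hg, h2, Subgroup.relIndex_self, Nat.cast_one]

theorem out (B : Br p e t X Y δ ε) {ψ : IrrCharacter G} (hX : ψ ∉ X) (hψ : ψ ∉ Y)
    (hg : p ∣ orderOf g) : (ψ : G → ℂ) g = 0 := by
  cases nonempty_fintype (P : Subgroup G)
  obtain ⟨m, hm⟩ := exists_sum_eq ψ.2.isCharacter (P : Subgroup G)
  rw [← sum_eq_sum_range L.card L.mem L.ne, H30.Ito.sum_y L hZ ψ.2.isClassFunction, br_sS B, sI,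
    if_neg hX, if_neg hψ, ← coe_dg, Int.cast_zero, mul_zero, add_zero,
    P.card_eq_multiplicity] at hm
  exact H29.eq_zero_of_pow_factorization_dvd hp.out ψ.2 ⟨m, by exact_mod_cast hm⟩ hg

variable {lam : Nor (P : Subgroup G) →* ℂˣ} {ω : ℂ}

omit L hZ in
theorem isChar (i : ℕ) : IsCharacter (Nor (P : Subgroup G)) fun z => (lam z : ℂ) ^ i := by
  simpa using isCharacter_of_hom (lam ^ i)

omit hZ in
theorem mlt_one (hω : IsPrimitiveRoot ω e) (hv : (lam ⟨x, L.x_mem⟩ : ℂ) = ω) {i : ℕ} (hi : i < e) :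
    mlt (LL lam i) (one G) = if i = 0 then 1 else 0 := by
  cases nonempty_fintype (Nor (P : Subgroup G))
  refine mlt_eq ?_
  rw [LL, H33.classInner_indFun_left _ _ (one G).2.isClassFunction]
  split_ifs with h0
  · subst h0
    simpa using classInner_one_one (G := Nor (P : Subgroup G))
  · have h1 := (isIrrCharacter_of_hom (lam ^ i)).classInner_of_ne isIrrCharacter_one fun h2 => by
      have h3 := congrFun h2 ⟨x, L.x_mem⟩
      simp only [MonoidHom.pow_apply, Units.val_pow_eq_pow_val, hv] at h3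
      exact hω.pow_ne_one_of_pos_of_lt h0 hi h3
    simpa using h1

end

theorem count (B : Br p e t X Y δ ε) (hΨ : IsCharacter G Ψ) {c : ℤ}
    (hc : ∀ g, p ∣ orderOf g → Ψ g = c) {θ : IrrCharacter G} (hθ : θ ∈ Y) :
    ∑ χ ∈ X, δ χ * mlt Ψ χ - ε * mlt Ψ θ = c := by
  have h1 := B.count hΨ (c := c * t) (by rw [B.inner_sg_of_const hc]; push_cast; rfl)
  rw [Finset.sum_congr (s₁ := Y) rfl fun θ' h' => by rw [H30.Ito.mlt_eq B hΨ hc h' hθ],
    Finset.sum_const, B.cardY, nsmul_eq_mul] at h1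
  refine mul_left_cancel₀ (show (t : ℤ) ≠ 0 by exact_mod_cast B.t_pos.ne') ?_
  linear_combination h1

theorem deg (B : Br p e t X Y δ ε) (hΨ : IsCharacter G Ψ) {c : ℤ}
    (hc : ∀ g, p ∣ orderOf g → Ψ g = c) {θ : IrrCharacter G} (hθ : θ ∈ Y) :
    ∑ χ ∈ X, mlt Ψ χ * dg χ + mlt Ψ θ * (t * dg θ) ≤ charDegree Ψ := by
  classical
  have h1 := sum_mlt_le hΨ (X ∪ Y)
  rw [Finset.sum_union B.disj, Finset.sum_congr (s₁ := Y) rfl fun θ' h' => by
    rw [H30.Ito.mlt_eq B hΨ hc h' hθ, B.dg_eq h' hθ], Finset.sum_const, B.cardY, smul_eq_mul] at h1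
  rwa [mul_left_comm]

theorem jobM1 : JobM1.{u} := by
  intro G _ _ p U K n e t hp P X Y δ ε C hC
  have hZ := center_eq_bot C.simple C.perf
  have B := C.br
  have cpl : Cpl P (Subgroup.center G) := ⟨C.card, hZ ▸ bot_le, fun v hv => by
    rw [hZ, Subgroup.mem_bot] at hv
    rw [hv]; exact B.not_dvd_one, fun c hc => ⟨c, hC hc, 1, one_mem _, (mul_one c).symm⟩⟩
  have h2 : 2 ≤ e := by
    have := two_le_relIndex C.perf B.dvd P
    rw [P.stabilizer_eq_normalizer] at this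
    exact C.he ▸ this
  obtain ⟨y, hy, y1⟩ := exists_ne_one_mem_prime C.card
  obtain ⟨h, x, L⟩ := exists_lo cpl C.he h2 hy y1
  have hω := Complex.isPrimitiveRoot_exp e (by omega)
  obtain ⟨lam, l1, l2⟩ := H30.Ito.exists_beta L hZ (ω := (hω.isUnit (by omega)).unit)
    (Units.ext (by simpa using hω.pow_eq_one))
  have hv : (lam ⟨x, L.x_mem⟩ : ℂ) = _ := (congrArg Units.val l2).trans (IsUnit.unit_spec _)
  have hi : (Nor (P : Subgroup G)).index = n * p + 1 := by
    rw [← C.syl, P.card_eq_index_normalizer]; rfl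
  refine ⟨h, x, y, lam, _, ⟨L, hZ, l1, hω, fun _ => hv⟩, ?_, ord L hZ, fun g => sing L hZ,
    fun z g => cz L hZ, fun i => (isChar i).indFun, fun i => ?_,
    fun i g => ind_sing L hZ fun z hz => by rw [l1 z hz, Units.val_one, one_pow],
    fun i => mlt_one L hω hv, fun ψ h1 h3 g => out L hZ B h1 h3,
    fun Ψ hΨ c hc θ h1 θ' h3 => H30.Ito.mlt_eq B hΨ hc h1 h3,
    fun Ψ hΨ c hc θ h1 => count B hΨ hc h1, fun Ψ hΨ c hc θ h1 => deg B hΨ hc h1⟩
  · rw [← (Nor (P : Subgroup G)).card_mul_index, L.card_nor, hi, hZ, Subgroup.card_bot]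
    ring
  · rw [charDegree, LL, H33.indFun_apply_one, hi, map_one, Units.val_one, one_pow, mul_one,
      Complex.natCast_re, Nat.floor_natCast]

end H29.NGM
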