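import Cfsg.Agent.H87.PKer
import Cfsg.Agent.H38.Ito
import Cfsg.Agent.H1.InvSylow
import Cfsg.Agent.H1.Coprime2
import Cfsg.Agent.H98.Sylow
import Cfsg.Agent.H98.Coprime
import Cfsg.Agent.H4.Product
import Cfsg.Agent.H5.FrobCompl

/-! Groups whose irreducible characters of `p'`-degree have `q'`-degree: tools. -/

set_option autoImplicit false

namespace H29.NW
open _root_.Cfsg H28 H98 Subgroup

/-- Every irreducible character of degree prime to `p` has degree prime to `q`. -/
def Hyp (p q : ℕ) (G : Type*) [Group G] : Prop :=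
  ∀ χ : G → ℂ, IsIrrCharacter G χ → ¬ p ∣ charDegree χ → ¬ q ∣ charDegree χ

variable {G : Type*} [Group G] [Finite G] {p q : ℕ}

omit [Finite G] in
theorem Hyp.quot (h : Hyp p q G) (N : Subgroup G) [N.Normal] : Hyp p q (G ⧸ N) := by
  intro η hη hd
  have e : charDegree (fun g : G => η g) = charDegree η := charDegree_congr rfl
  exact e ▸ h _ hη.inflate (e ▸ hd)

theorem exists_over_not_dvd (hp : p.Prime) {S : Subgroup G} [Fintype S] (hS : ¬ p ∣ S.index)
    {ψ : S → ℂ} (hψ : IsIrrCharacter S ψ) (hd : ¬ p ∣ charDegree ψ) :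
    ∃ χ : G → ℂ, IsIrrCharacter G χ ∧ ¬ p ∣ charDegree χ ∧
      classInner (fun x : S => χ x) ψ ≠ 0 := by
  have := Fintype.ofFinite G
  obtain ⟨χ, hχ, h1, h2⟩ := H87.exists_constituent_not_dvd (p := p) hψ.isCharacter.indFun (by
    rw [hψ.isCharacter.charDegree_indFun, hp.dvd_mul]
    tauto)
  rw [H33.classInner_indFun_left _ _ hχ.isClassFunction, Ne, classInner_eq_zero_comm] at h1
  exact ⟨χ, hχ, h2, h1⟩

/-- A character of a normal subgroup extending to a subgroup of `p'`-index. -/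
theorem Hyp.not_dvd_index (hp : p.Prime) (h : Hyp p q G) {N S : Subgroup G} [N.Normal]
    (hNS : N ≤ S) (hS : ¬ p ∣ S.index) {ψ : S → ℂ} (hψ : IsIrrCharacter S ψ)
    (hd : ¬ p ∣ charDegree ψ) {θ : N → ℂ} (hθ : IsIrrCharacter N θ)
    (e : ∀ n : N, ψ ⟨n, hNS n.2⟩ = θ n) : ¬ q ∣ (H32.inertia θ).index := by
  have := Fintype.ofFinite S
  have := Fintype.ofFinite N
  obtain ⟨χ, hχ, h2, h1⟩ := exists_over_not_dvd hp hS hψ hd
  have h3 : IsCharacter N ((fun n : N => χ n) - θ) := by
    have := H40.isCharacter_res hNS ((hχ.isCharacter.restrict S).sub_irr hψ h1)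
    convert this using 1
    funext n
    simp [e]
  have h4 := classInner_re_le_of_sub h3 hθ.isCharacter
  rw [hθ.classInner_self] at h4
  have h5 : H38.Over N.subtype χ θ := fun h0 => by
    change classInner (fun n : N => χ n) θ = 0 at h0
    rw [h0] at h4
    norm_num at h4
  exact fun hq => h χ hχ h2
    ((hq.mul_right _).trans (H38.charDegree_dvd_of_over hχ hθ h5))

/-- If `P ≤ S` act coprimely on `N` and fix the same irreducible characters then they have the
same fixed points. -/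
theorem cen_le_of_inv {N P S : Subgroup G} (hPS : P ≤ S) (hSN : S ≤ normalizer (N : Set G))
    (hcop : (Nat.card N).Coprime (Nat.card S)) (hS : Group.IsSolvable S)
    (h : ∀ θ : IrrCharacter N, H40.InvAll N P θ → H40.InvAll N S θ) :
    N ⊓ centralizer (P : Set G) ≤ centralizer (S : Set G) := by
  set C := N ⊓ centralizer (P : Set G) with hC
  set D := N ⊓ centralizer (S : Set G) with hD
  have hDC : D ≤ C := inf_le_inf_left _ (centralizer_anti hPS)
  have h1 := H40.card_inv_irr (hPS.trans hSN)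
    (hcop.coprime_dvd_right (card_dvd_of_le hPS)) (H1.isSolvable_of_le hPS hS)
  have h2 := H40.card_inv_irr hSN hcop hS
  have h3 : Nat.card (ConjClasses C) = Nat.card (ConjClasses D) := by
    rw [← card_irr_eq_card_conjClasses, ← card_irr_eq_card_conjClasses, ← h1, ← h2]
    exact Nat.card_congr (Equiv.subtypeEquivRight fun θ => ⟨h θ, fun h' => h'.mono hPS⟩)
  have h4 : Function.Injective (ConjClasses.map (inclusion hDC)) := by
    intro a b
    obtain ⟨a, rfl⟩ := ConjClasses.mk_surjective a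
    obtain ⟨b, rfl⟩ := ConjClasses.mk_surjective b
    intro hab
    have h5 : IsConj (inclusion hDC a) (inclusion hDC b) := ConjClasses.mk_eq_mk_iff_isConj.1 hab
    exact ConjClasses.mk_eq_mk_iff_isConj.2 (H40.isConj_fixed_of_isConj hSN hcop (Or.inl hS) hD
      inf_le_left ((inclusion (inf_le_left : C ≤ N)).map_isConj h5))
  have h5 := (h4.bijective_of_nat_card_le h3.le).2
  have h6 : D.subgroupOf C = ⊤ := H38.eq_top_of_forall_conj_mem fun g => by
    obtain ⟨a, ha⟩ := h5 (ConjClasses.mk g)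
    obtain ⟨a, rfl⟩ := ConjClasses.mk_surjective a
    obtain ⟨x, hx⟩ := isConj_iff.1
      (ConjClasses.mk_eq_mk_iff_isConj.1 (show ConjClasses.mk (inclusion hDC a) = _ from ha)).symm
    exact ⟨x, by rw [hx]; exact a.2⟩
  exact (subgroupOf_eq_top.1 h6).trans inf_le_right

theorem le_of_not_dvd_index [hq : Fact q.Prime] {Q N : Subgroup G} [N.Normal] (hQ : IsPGroup q Q)
    (h : ¬ q ∣ N.index) : Q ≤ N := by
  obtain ⟨k, hk⟩ := hQ.exists_card_eq
  have h1 : N.relIndex Q ∣ q ^ k := hk ▸ relIndex_dvd_card N Q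
  exact relIndex_eq_one.1 (Nat.eq_one_of_dvd_coprimes
    (((Nat.Prime.coprime_iff_not_dvd hq.out).2 h).pow_left k) h1
    (relIndex_dvd_index_of_normal N Q))

/-- `P` normalises at most one Sylow `q`-subgroup. -/
def Uniq (q : ℕ) (P : Subgroup G) : Prop :=
  ∀ Q R : Subgroup G, IsSyl q Q ⊤ → IsSyl q R ⊤ → P ≤ normalizer (Q : Set G) →
    P ≤ normalizer (R : Set G) → Q = R

theorem exists_inv_le [hp : Fact p.Prime] [hq : Fact q.Prime] {P T : Subgroup G}
    (hP : IsPGroup p P) (hL : ¬ q ∣ (pPrimeCore p G).index) (hT : P ≤ T) (hi : ¬ q ∣ T.index) :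
    ∃ R : Subgroup G, IsSyl q R ⊤ ∧ P ≤ normalizer (R : Set G) ∧ R ≤ T := by
  set Y := T ⊓ pPrimeCore p G
  have h1 : ¬ q ∣ Y.index := by
    rw [← relIndex_mul_index (inf_le_left : Y ≤ T), inf_relIndex_left, hq.out.dvd_mul]
    exact fun h => h.elim (fun h => hL (h.trans (relIndex_dvd_index_of_normal _ _))) hi
  have h2 : P ≤ normalizer (Y : Set G) :=
    H98.le_normalizer_inf (le_normalizer_of_le hT) le_normalizer_of_normal
  obtain ⟨R, -, h3, h4, h5, h6⟩ := H1.exists_invariant_pgroup_relIndex P Y h2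
    (H1.coprime_card_of_isPGroup hP ((H2.coprime_card_pPrimeCore p G).coprime_dvd_left
      (card_dvd_of_le inf_le_right))).symm (Or.inl (H1.isSolvable_of_isPGroup hP)) q ⊥ bot_le
    IsPGroup.of_bot (le_normalizer_bot _)
  refine ⟨R, isSyl_of_not_dvd_relIndex le_top h4 ?_, h6, h3.trans inf_le_left⟩
  rw [relIndex_top_right, ← relIndex_mul_index h3, hq.out.dvd_mul]
  tauto

/-- Passing to a quotient in which `P` normalises a unique Sylow `q`-subgroup. -/
theorem le_of_uniq_quot [hp : Fact p.Prime] [hq : Fact q.Prime] {P T Q N : Subgroup G} [N.Normal]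
    (hP : IsPGroup p P) (hL : ¬ q ∣ (pPrimeCore p (G ⧸ N)).index)
    (hU : Uniq q (P.map (QuotientGroup.mk' N))) (hT : P ≤ T) (hN : N ≤ T) (hi : ¬ q ∣ T.index)
    (hQ : IsSyl q Q ⊤)
    (hn : P.map (QuotientGroup.mk' N) ≤ normalizer (Q.map (QuotientGroup.mk' N) : Set (G ⧸ N))) :
    Q ≤ T := by
  have hf := QuotientGroup.mk'_surjective N
  obtain ⟨R, h1, h2, h3⟩ := exists_inv_le (hP.map (QuotientGroup.mk' N)) hL
    (map_mono (f := QuotientGroup.mk' N) hT) (fun h => hi (h.trans (index_map_dvd T hf)))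
  have h4 := hQ.map (QuotientGroup.mk' N)
  rw [map_top_of_surjective _ hf] at h4
  rw [← hU _ _ h4 h1 hn h2, map_le_iff_le_comap, comap_map_eq, QuotientGroup.ker_mk',
    sup_eq_left.2 hN] at h3
  exact h3

end H29.NW
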