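import Cfsg.Agent.H29.NW1
import Cfsg.Agent.H18.PSolv
import Cfsg.Agent.H3.FrattiniP
import Cfsg.Agent.H4.HallBasic

/-! Groups whose irreducible characters of `p'`-degree have `q'`-degree: structure. -/

set_option autoImplicit false

namespace H29.NW
open _root_.Cfsg H28 H98 Subgroup

universe u
variable {p q : ℕ}

section
variable {G : Type*} [Group G] [Finite G]

theorem isSyl_map_mk [Fact p.Prime] {P : Subgroup G} (h : IsSyl p P ⊤) (N : Subgroup G)
    [N.Normal] : IsSyl p (P.map (QuotientGroup.mk' N)) ⊤ := by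
  have h4 := h.map (QuotientGroup.mk' N)
  rwa [map_top_of_surjective _ (QuotientGroup.mk'_surjective N)] at h4

theorem not_dvd_index_of_isSyl [Fact p.Prime] {P S : Subgroup G} (h : IsSyl p P ⊤) (hS : P ≤ S) :
    ¬ p ∣ S.index := fun hd => h.not_dvd_relIndex (by
  rw [relIndex_top_right]; exact hd.trans (index_dvd_of_le hS))

theorem cen_le_cen [hp : Fact p.Prime] [hq : Fact q.Prime] (h : Hyp p q G) {P Q M : Subgroup G}
    [M.Normal] (hMp : (Nat.card M).Coprime p) (hMq : (Nat.card M).Coprime q) (hP : IsSyl p P ⊤)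
    (hQ : IsSyl q Q ⊤) (hn : P ≤ normalizer (Q : Set G))
    (hL : ¬ q ∣ (pPrimeCore p (G ⧸ M)).index) (hU : Uniq q (P.map (QuotientGroup.mk' M))) :
    M ⊓ centralizer (P : Set G) ≤ centralizer (Q : Set G) := by
  have := H1.isSolvable_of_isPGroup hP.isPGroup
  have := H1.isSolvable_of_isPGroup hQ.isPGroup
  have hcP := H1.coprime_card_of_isPGroup hP.isPGroup hMp
  refine (cen_le_of_inv (S := Q ⊔ P) le_sup_right le_normalizer_of_normal ?_
    (H5.isSolvable_sup_of_le_normalizer hn) fun θ hθ => ?_).trans (centralizer_anti le_sup_left)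
  · refine (hcP.mul_right (H1.coprime_card_of_isPGroup hQ.isPGroup hMq)).coprime_dvd_right ?_
    rw [← H4.card_sup_mul_card_inf_of_le_normalizer hn, sup_comm]
    exact dvd_mul_right _ _
  have h1 : P ≤ H32.inertia θ.1 := fun x hx => H32.mem_inertia_iff.2 fun m => hθ x hx _ _ rfl
  have h2 : M ≤ H32.inertia θ.1 := H32.le_inertia θ.2.isClassFunction
  obtain ⟨ψ, hψ, h3, -⟩ := H40.exists_canonical_ext_of_coprime (M.subgroupOf (M ⊔ P))
    ((hcP.coprime_dvd_left (H2.card_subgroupOf_dvd _ _)).coprime_dvd_right (by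
      change M.relIndex (M ⊔ P) ∣ _
      rw [relIndex_sup_left]
      exact relIndex_dvd_card _ _)) (H40.isIrr_subgroupOf le_sup_left θ.2)
    (fun g n => H32.mem_inertia_iff.1 (sup_le h2 h1 g.2) ⟨(n : ↥(M ⊔ P)), n.2⟩)
  have h4 := h.not_dvd_index hp.out (le_sup_left : M ≤ M ⊔ P)
    (not_dvd_index_of_isSyl hP le_sup_right) hψ (fun h5 => by
      rw [charDegree_congr (η := ψ) (χ := θ.1) (h3 1)] at h5
      exact (Nat.Prime.coprime_iff_not_dvd hp.out).1 hMp.symm (h5.trans θ.2.charDegree_dvd_card))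
    θ.2 (fun n => h3 ⟨⟨n, (le_sup_left : M ≤ M ⊔ P) n.2⟩, n.2⟩)
  have h5 := le_of_uniq_quot hP.isPGroup hL hU h1 h2 h4 hQ (map_le_normalizer_map _ hn)
  intro x hx g g' e
  rw [← H32.mem_inertia_iff.1 (sup_le h5 h1 hx) g]
  exact congrArg _ (Subtype.ext e)

theorem eq_of_cen_le [hp : Fact p.Prime] [hq : Fact q.Prime] {P Q R M : Subgroup G} [M.Normal]
    (hMp : (Nat.card M).Coprime p) (hP : IsPGroup p P) (hQ : IsSyl q Q ⊤) (hR : IsSyl q R ⊤)
    (hn : P ≤ normalizer (Q : Set G)) (hn' : P ≤ normalizer (R : Set G)) (e : Q ⊔ M = R ⊔ M)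
    (h : M ⊓ centralizer (P : Set G) ≤ centralizer (Q : Set G)) : Q = R := by
  obtain ⟨g, hg, h1⟩ := (hQ.of_le (le_sup_left : Q ≤ Q ⊔ M) le_top).exists_cj_eq
    (hR.of_le (e ▸ le_sup_left) le_top)
  rw [sup_comm] at hg
  obtain ⟨n, hn1, y, hy, rfl⟩ := (mem_sup_right_norm le_normalizer_of_normal).1 hg
  rw [← cj_cj, cj_eq_self_of_mem hy] at h1
  obtain ⟨m, hm, h2⟩ := H1.exists_centralizer_mem_coset (A := P) (N := M ⊓ normalizer (Q : Set G))
    (H98.le_normalizer_inf le_normalizer_of_normal (H98.le_normalizer_normalizer hn))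
    (H1.coprime_card_of_isPGroup hP (hMp.coprime_dvd_left (card_dvd_of_le inf_le_left))).symm
    (Or.inl (H1.isSolvable_of_isPGroup hP)) n (fun a ha => ⟨M.mul_mem (M.inv_mem hn1)
      (Normal.conj_mem inferInstance n hn1 a), cj_eq_self_iff.1 (by
        rw [← cj_cj, ← cj_cj, ← cj_cj, cj_eq_self ((normalizer _).inv_mem (hn ha)), h1,
          cj_eq_self (hn' ha), ← h1, cj_inv_cj])⟩)
  have h3 : n * m ∈ normalizer (Q : Set G) :=
    centralizer_le_normalizer _ (h ⟨M.mul_mem hn1 hm.1, h2⟩)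
  rw [← h1, cj_eq_self ((Subgroup.mul_mem_cancel_right _ hm.2).1 h3)]

end

theorem uniq_aux [hp : Fact p.Prime] [hq : Fact q.Prime] (n : ℕ) :
    ∀ (G : Type u) [Group G] [Finite G], Nat.card G = n → IsPSolvable q G → Hyp p q G →
      ¬ q ∣ (pPrimeCore p G).index → ∀ P : Subgroup G, IsSyl p P ⊤ → Uniq q P := by
  induction n using Nat.strong_induction_on with
  | _ n ih =>
  intro G _ _ hn hs h hL P hP Q R hQ hR h1 h2
  by_cases h0 : pPrimeCore p G = ⊥
  · have h3 := le_of_not_dvd_index hQ.isPGroup hL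
    have h4 := le_of_not_dvd_index hR.isPGroup hL
    rw [h0, le_bot_iff] at h3 h4
    rw [h3, h4]
  obtain ⟨M, hM, h3, h4, h5⟩ := H18.isPSolvable_exists_normal_le hs _ h0
  have hMp : (Nat.card M).Coprime p :=
    (H2.coprime_card_pPrimeCore p G).coprime_dvd_left (card_dvd_of_le h4)
  have hL' : ¬ q ∣ (pPrimeCore p (G ⧸ M)).index := fun hd => hL (by
    rw [← H2.map_pPrimeCore_quotient M hMp] at hd
    exact hd.trans (index_map_dvd _ (QuotientGroup.mk'_surjective M)))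
  have hU := ih _ (hn ▸ H4.card_quotient_lt M h3) (G ⧸ M) rfl (H18.isPSolvable_quotient hs M)
    (h.quot M) hL' _ (isSyl_map_mk hP M)
  have e := congrArg (comap (QuotientGroup.mk' M)) (hU _ _ (isSyl_map_mk hQ M) (isSyl_map_mk hR M)
    (map_le_normalizer_map _ h1) (map_le_normalizer_map _ h2))
  rw [comap_map_eq, comap_map_eq, QuotientGroup.ker_mk'] at e
  rcases h5 with h5 | h5
  · rwa [sup_eq_left.2 (hQ.le_of_le_normalizer h5 le_top le_normalizer_of_normal),
      sup_eq_left.2 (hR.le_of_le_normalizer h5 le_top le_normalizer_of_normal)] at e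
  · exact eq_of_cen_le hMp hP.isPGroup hQ hR h1 h2 e (cen_le_cen h hMp h5 hP hQ h1 hL' hU)

theorem exists_linear [Fact p.Prime] {P : Type*} [Group P] [Finite P] (hP : IsPGroup p P)
    {H : Subgroup P} (hH : H ≠ ⊤) :
    ∃ μ : P → ℂ, IsIrrCharacter P μ ∧ μ 1 = 1 ∧ H ≤ charKer μ ∧ charKer μ ≠ ⊤ := by
  obtain ⟨M, hM, h1⟩ := (eq_top_or_exists_le_coatom H).resolve_left hH
  have := hP.isNilpotent
  have := H3.normal_of_isCoatom_of_nilpotent hM
  obtain ⟨g, hg⟩ : ∃ g, g ∉ M := by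
    by_contra hc
    push Not at hc
    exact hM.1 ((eq_top_iff' M).2 hc)
  obtain ⟨μ, h2, h3, h4⟩ := exists_irr_le_charKer_not_mem M hg
  exact ⟨μ, h2, h2.degree_one_iff.2 ((H3.commutator_le_of_index_prime
    (H3.index_prime_of_isCoatom_normal hM)).trans h3), h1.trans h3, fun e => h4 (e ▸ mem_top g)⟩

theorem le_normalizer_of_uniq [hp : Fact p.Prime] [hq : Fact q.Prime] (hpq : p ≠ q) {G : Type*}
    [Group G] [Finite G] (h : Hyp p q G) {P Q V : Subgroup G} [V.Normal] (hV : IsPGroup p V)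
    (hP : IsSyl p P ⊤) (hQ : IsSyl q Q ⊤) (hL : ¬ q ∣ (pPrimeCore p (G ⧸ V)).index)
    (hU : Uniq q (P.map (QuotientGroup.mk' V)))
    (hn : P.map (QuotientGroup.mk' V) ≤ normalizer (Q.map (QuotientGroup.mk' V) : Set (G ⧸ V))) :
    P ≤ normalizer (Q : Set G) := by
  have hVP : V ≤ P := hP.le_of_le_normalizer hV le_top le_normalizer_of_normal
  have h1 : P ≤ normalizer ((Q ⊔ V : Subgroup G) : Set G) := by
    have := comap_le_normalizer_comap (QuotientGroup.mk' V) hn
    rw [comap_map_eq, comap_map_eq, QuotientGroup.ker_mk'] at this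
    exact le_sup_left.trans this
  by_contra hc
  obtain ⟨μ, hμ, h2, h3, h4⟩ := exists_linear hP.isPGroup
    (H := (normalizer (Q : Set G)).subgroupOf P) (fun e => hc (subgroupOf_eq_top.1 e))
  have hθ : IsIrrCharacter V (H40.res hVP μ) :=
    (H40.isCharacter_res hVP hμ.isCharacter).irr_of_degree_one h2
  have h5 := h.not_dvd_index hp.out hVP (not_dvd_index_of_isSyl hP le_rfl) hμ (by
    rw [hμ.isCharacter.charDegree_eq_one_iff.2 h2]; exact hp.out.not_dvd_one) hθ fun _ => rfl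
  have h6 := le_of_uniq_quot hP.isPGroup hL hU (fun x hx => H32.mem_inertia_iff.2 fun v =>
    hμ.isClassFunction.apply_conj ⟨x, hx⟩ ⟨v, hVP v.2⟩) (H32.le_inertia hθ.isClassFunction) h5 hQ hn
  have h7 : V ≤ (charKer μ).map P.subtype := by
    rw [← commutator_sup_centralizer_eq hQ.isPGroup
      (not_dvd_card_of_isPGroup_ne hq.out hpq.symm hV) le_normalizer_of_normal]
    refine sup_le (commutator_le.2 fun v hv y hy => ?_) fun v hv =>
      ⟨⟨v, hVP hv.1⟩, h3 (centralizer_le_normalizer _ hv.2), rfl⟩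
    have h8 : y * v⁻¹ * y⁻¹ ∈ V := Normal.conj_mem inferInstance _ (V.inv_mem hv) y
    refine ⟨⟨v, hVP hv⟩ * ⟨_, hVP h8⟩, hμ.mem_charKer.2 ?_, by simp [commutatorElement_def, mul_assoc]⟩
    have h9 : μ ⟨_, hVP h8⟩ = μ (⟨v, hVP hv⟩ : P)⁻¹ :=
      H32.mem_inertia_iff.1 (h6 hy) ⟨v⁻¹, V.inv_mem hv⟩
    rw [hμ.isCharacter.map_mul_of_degree_one h2, h9, ← hμ.isCharacter.map_mul_of_degree_one h2,
      mul_inv_cancel]
  refine h4 ((eq_top_iff' _).2 fun x => ?_)
  obtain ⟨a, ha, n, hn1, e⟩ :=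
    (hQ.of_le (le_sup_left : Q ≤ Q ⊔ V) le_top).frattini_mem (h1 x.2)
  obtain ⟨y, hy, v, hv, rfl⟩ := (mem_sup_left_norm le_normalizer_of_normal).1 hn1
  obtain ⟨w, hw, rfl⟩ := h7 hv
  have h8 : x * w⁻¹ ∈ charKer μ := h3 (by
    rw [mem_subgroupOf, coe_mul, coe_inv, e, ← mul_assoc]
    simpa using (normalizer (Q : Set G)).mul_mem ha (le_normalizer hy))
  simpa using (charKer μ).mul_mem h8 hw

theorem low_aux [hp : Fact p.Prime] [hq : Fact q.Prime] (hpq : p ≠ q) (n : ℕ) :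
    ∀ (G : Type u) [Group G] [Finite G], Nat.card G = n → IsPSolvable p G → IsPSolvable q G →
      Hyp p q G → ¬ q ∣ (pPrimeCore p G).index := by
  induction n using Nat.strong_induction_on with
  | _ n ih =>
  intro G _ _ hn hs hs' h
  have key : ∀ (N : Subgroup G) [N.Normal], N ≠ ⊥ → ¬ q ∣ (pPrimeCore p (G ⧸ N)).index :=
    fun N _ hN => ih _ (hn ▸ H4.card_quotient_lt N hN) (G ⧸ N) rfl (H18.isPSolvable_quotient hs N)
      (H18.isPSolvable_quotient hs' N) (h.quot N)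
  by_cases h0 : pPrimeCore p G = ⊥
  swap
  · have := key _ h0
    rwa [H2.pPrimeCore_quotient_pPrimeCore, index_bot] at this
  have hC := H18.centralizer_pCore_le hs h0
  set V := pCore p G
  have hV : IsPGroup p V := H2.pCore_isPGroup p G
  obtain ⟨P, hP⟩ := exists_isSyl p (⊤ : Subgroup G)
  suffices ∃ Q : Subgroup G, IsSyl q Q ⊤ ∧ P ≤ normalizer (Q : Set G) by
    obtain ⟨Q, hQ, h1⟩ := this
    have hd := IsPGroup.disjoint_of_ne p q hpq _ _ hV hQ.isPGroup
    have h4 : ⁅Q, V⁆ ≤ Q := H1.commutator_le_of_le_normalizer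
      ((hP.le_of_le_normalizer hV le_top le_normalizer_of_normal).trans h1)
    have h2 : ⁅V, Q⁆ = ⊥ := le_bot_iff.1 (hd (commutator_le_left V Q)
      ((Subgroup.commutator_comm V Q).le.trans h4))
    have h3 : Q = ⊥ :=
      le_bot_iff.1 (hd ((H1.commutator_eq_bot_iff_le_centralizer'.1 h2).trans hC) le_rfl)
    rw [h0, ← h3]
    exact not_dvd_index_of_isSyl hQ le_rfl
  by_cases h1 : V = ⊥
  · obtain ⟨Q, hQ⟩ := exists_isSyl q (⊤ : Subgroup G)
    rw [h1, centralizer_bot'] at hC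
    exact ⟨Q, hQ, (le_top.trans hC).trans bot_le⟩
  have hL := key V h1
  have hP' := isSyl_map_mk hP V
  obtain ⟨R, hR, h2, -⟩ := exists_inv_le hP'.isPGroup hL le_top (by
    rw [index_top]; exact hq.out.not_dvd_one)
  have hf := QuotientGroup.mk'_surjective V
  obtain ⟨Q, hQ⟩ := exists_isSyl q (R.comap (QuotientGroup.mk' V))
  have h3 := hQ.map (QuotientGroup.mk' V)
  rw [map_comap_eq_self_of_surjective hf] at h3
  have h4 : IsSyl q Q ⊤ := isSyl_of_not_dvd_relIndex le_top hQ.isPGroup (by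
    rw [relIndex_top_right, ← relIndex_mul_index hQ.le, hq.out.dvd_mul,
      index_comap_of_surjective _ hf]
    exact fun h => h.elim hQ.not_dvd_relIndex (not_dvd_index_of_isSyl hR le_rfl))
  exact ⟨Q, h4, le_normalizer_of_uniq hpq h hV hP h4 hL
    (uniq_aux _ _ rfl (H18.isPSolvable_quotient hs' V) (h.quot V) hL _ hP')
    (by rw [h3.eq_of_isPGroup hR.isPGroup]; exact h2)⟩

theorem low_of_block [hp : Fact p.Prime] [hq : Fact q.Prime] (hpq : p ≠ q) {G : Type*} [Group G]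
    [Finite G] {M : Ideal AlgInt} (hM : IsPModular p M) (hs : IsPSolvable p G)
    (hs' : IsPSolvable q G) (h : ∀ χ : IrrCharacter G, χ ∈ principalBlock M G →
      ¬ p ∣ charDegree (χ : G → ℂ) → ¬ q ∣ charDegree (χ : G → ℂ)) :
    ¬ q ∣ (pPrimeCore p G).index := by
  have := hM.2.1
  have := low_aux hpq _ (G ⧸ pPrimeCore p G) rfl (H18.isPSolvable_quotient hs _)
    (H18.isPSolvable_quotient hs' _) fun η hη hd => by
      have e : charDegree (fun g : G => η g) = charDegree η := charDegree_congr rfl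
      exact e ▸ h ⟨_, hη.inflate⟩ ((H38.mem_principalBlock_iff_of_isPConstrained hM
        (H38.isPConstrained_of_isPSolvable hs)).2 (le_charKer_inflate _ η)) (e ▸ hd)
  rwa [H2.pPrimeCore_quotient_pPrimeCore, index_bot] at this

end H29.NW
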