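/- ORE4-S: sums of models and hyperbolic doubles. -/
import Cfsg.Agent.H68.OuSpec

set_option autoImplicit false
set_option linter.unusedSectionVars false

namespace H29.Ou

open Polynomial Module H53 H60.Ore H68.Ou
open H59 (perp mem_perp form_smul_left form_smul_right)

universe u

section
variable {F : Type u} [Field F] {σ : F →+* F}
variable {V W : Type u} [AddCommGroup V] [Module F V] [AddCommGroup W] [Module F W]
variable {B : V →ₛₗ[σ] V →ₗ[F] F} {B' : W →ₛₗ[σ] W →ₗ[F] F} {g : End F V} {g' : End F W}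
  {L : Submodule F V} {L' : Submodule F W} {κ : F}

theorem mem_sup_span {ν x : V} : x ∈ L ⊔ Submodule.span F {ν} ↔ ∃ t : F, x - t • ν ∈ L := by
  constructor
  · intro h
    obtain ⟨u, hu, _, hw, rfl⟩ := Submodule.mem_sup.1 h
    obtain ⟨t, rfl⟩ := Submodule.mem_span_singleton.1 hw
    exact ⟨t, by simpa using hu⟩
  · rintro ⟨t, ht⟩
    exact Submodule.mem_sup.2 ⟨_, ht, t • ν, Submodule.mem_span_singleton.2 ⟨t, rfl⟩, by simp⟩

theorem perp_prod (A : Submodule F V) (A' : Submodule F W) :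
    perp (sumForm B B') (A.prod A') = (perp B A).prod (perp B' A') := by
  ext ⟨x, y⟩
  simp only [mem_perp, Submodule.mem_prod, sumForm_apply]
  constructor
  · intro h
    exact ⟨fun u hu => by simpa using h (u, 0) ⟨hu, A'.zero_mem⟩,
      fun u hu => by simpa using h (0, u) ⟨A.zero_mem, hu⟩⟩
  · rintro ⟨h1, h2⟩ ⟨u, w⟩ ⟨hu, hw⟩
    rw [h1 u hu, h2 w hw, add_zero]

theorem iso_prod (h : ∀ u ∈ L, ∀ w ∈ L, B u w = 0) (h' : ∀ u ∈ L', ∀ w ∈ L', B' u w = 0) :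
    ∀ u ∈ L.prod L', ∀ w ∈ L.prod L', sumForm B B' u w = 0 := fun u hu w hw => by
  rw [sumForm_apply, h _ hu.1 _ hw.1, h' _ hu.2 _ hw.2, add_zero]

theorem fr_prod_right (h : ∀ u ∈ L, ∀ w ∈ L, B u w = 0) (hp : perp B L = L) (h' : Fr B' g' L' κ) :
    Fr (sumForm B B') (g.prodMap g') (L.prod L') κ := by
  obtain ⟨ν, h1, h2⟩ := h'.mid
  refine ⟨iso_prod h h'.iso, (0, ν), ?_, by simpa using h2⟩
  rw [perp_prod, hp, h1]
  ext ⟨x, y⟩
  simp only [Submodule.mem_prod, mem_sup_span]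
  simp

theorem fr_prod_left (h : Fr B g L κ) (h' : ∀ u ∈ L', ∀ w ∈ L', B' u w = 0)
    (hp : perp B' L' = L') : Fr (sumForm B B') (g.prodMap g') (L.prod L') κ := by
  obtain ⟨ν, h1, h2⟩ := h.mid
  refine ⟨iso_prod h.iso h', (ν, 0), ?_, by simpa using h2⟩
  rw [perp_prod, hp, h1]
  ext ⟨x, y⟩
  simp only [Submodule.mem_prod, mem_sup_span]
  simp

theorem ex0_prod (h : Ex0 g L) (h' : Ex0 g' L') : Ex0 (g.prodMap g') (L.prod L') :=
  fun _ hu => ⟨h _ hu.1, h' _ hu.2⟩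

theorem ex1_prod (h : Ex0 g L) (h' : Ex1 g' L') : Ex1 (g.prodMap g') (L.prod L') := by
  obtain ⟨e, h1, h2, h3⟩ := h'
  refine ⟨(0, e), ⟨L.zero_mem, h1⟩, fun h4 => h2 h4.2, fun u hu => ?_⟩
  obtain ⟨t, ht⟩ := h3 _ hu.2
  exact ⟨t, by simpa using h _ hu.1, by simpa using ht⟩

theorem perp_eq_of_even [FiniteDimensional F V] {κ : F} (h : Fr B g L κ) (hB : IsSF 1 B)
    (he : Even (dg (ed g))) : finrank F V = 2 * finrank F L ∧ perp B L = L := by
  rw [dg_ed] at he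
  refine (h.dim hB).resolve_right fun h1 => ?_
  rw [h1, Nat.even_iff] at he
  omega

theorem m0_hyp (hσ : ∀ a, σ (σ a) = a) {s : Multiset F[X]} (hs : ∀ P ∈ s, IsPP P)
    (h0 : ∀ P ∈ s, P.coeff 0 ≠ 0) (κ : F) : M0 σ (s + s.map (pstar σ)) κ := by
  obtain ⟨g, hg⟩ := exists_gl_med_eq (n := Fin (s.map natDegree).sum) hs h0 (by simp)
  have h1 := ed_hyp hσ g.isUnit
  rw [hg] at h1
  have hB := isSF_hypForm (n := Fin (s.map natDegree).sum) hσ (ε := 1) (by simp)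
  refine ⟨_, _, _, inferInstance, _, _, LinearMap.range (LinearMap.inl F _ _), hB,
    inv_hypForm hσ g.isUnit, h1, Fr.of_even hB ?_ ?_, ?_⟩
  · rintro _ ⟨u, rfl⟩ _ ⟨w, rfl⟩
    simp [hypForm_apply]
  · rw [LinearMap.finrank_range_of_inj LinearMap.inl_injective, Module.finrank_prod, two_mul]
  · rintro _ ⟨u, rfl⟩
    exact ⟨Matrix.toLin' (g : Matrix _ _ F) u, by simp⟩

end

theorem jobS : JobS.{u} := by
  intro F _ σ s t κ κ' hσ
  refine ⟨?_, ?_, ?_, fun hs h0 => m0_hyp hσ.inv hs h0 κ⟩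
  · rintro ⟨V, _, _, _, B, g, L, h1, h2, rfl, h4, h5⟩
      ⟨V', _, _, _, B', g', L', h1', h2', rfl, h4', h5'⟩ he
    exact ⟨V × V', _, _, inferInstance, _, _, _, h1.sumForm h1', h2.prodMap h2', ed_prodMap _ _,
      fr_prod_right h4.iso (perp_eq_of_even h4 h1 he).2 h4', ex0_prod h5 h5'⟩
  · rintro ⟨V, _, _, _, B, g, L, h1, h2, rfl, h4, h5⟩
      ⟨V', _, _, _, B', g', L', h1', h2', rfl, h4', h5'⟩ he
    exact ⟨V × V', _, _, inferInstance, _, _, _, h1.sumForm h1', h2.prodMap h2', ed_prodMap _ _,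
      fr_prod_right h4.iso (perp_eq_of_even h4 h1 he).2 h4', ex1_prod h5 h5'⟩
  · rintro ⟨V, _, _, _, B, g, L, h1, h2, rfl, h4, h5⟩
      ⟨V', _, _, _, B', g', L', h1', h2', rfl, h4', h5'⟩ he
    exact ⟨V × V', _, _, inferInstance, _, _, _, h1.sumForm h1', h2.prodMap h2', ed_prodMap _ _,
      fr_prod_left h4 h4'.iso (perp_eq_of_even h4' h1' he).2, ex1_prod h5 h5'⟩

end H29.Ou
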