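/- ORE4-H: invariant maximal isotropic subspaces of primary blocks. -/
import Cfsg.Agent.H29.OuS

set_option autoImplicit false
set_option linter.unusedSectionVars false

namespace H29.Ou

open Polynomial Module H53 H60.Ore H68.Ou
open H59 (perp mem_perp form_smul_left form_smul_right)

universe u

section
variable {F : Type u} [Field F] {σ : F →+* F}
variable {V : Type u} [AddCommGroup V] [Module F V] [FiniteDimensional F V]
variable {B : V →ₛₗ[σ] V →ₗ[F] F} {g : End F V} {φ : F[X]}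

theorem perp_range (hB : IsSF 1 B) (hg : Inv B g) {P : F[X]} (hP : SD σ P) :
    perp B (LinearMap.range (aeval g P)) = LinearMap.ker (aeval g P) := by
  obtain ⟨g', h1, h2, h3⟩ := hg.exists_inv hB
  rw [← (h3.aeval P).ker_eq hB]
  have h4 := aeval_pstar (σ := σ) h1 hP.c0
  rw [hP.sd] at h4
  have h5 : Function.Injective (g ^ P.natDegree : End F V) := (hg.pow _).injective hB
  ext v
  rw [LinearMap.mem_ker, LinearMap.mem_ker, h4, LinearMap.smul_apply, End.mul_apply,
    smul_eq_zero, or_iff_right (inv_ne_zero ((map_ne_zero σ).2 hP.c0)),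
    map_eq_zero_iff _ h5]

theorem isPP_pow (hφ : SD σ φ) (hi : Irreducible φ) {k : ℕ} (hk : 0 < k) : IsPP (φ ^ k) :=
  ⟨φ, k, hφ.mon, hi, hk, rfl⟩

/-- the block, with `A = range φ(g) ^ a` -/
theorem exists_block (hσ : Cj σ) (hφ : SD σ φ) (hi : Irreducible φ) (a b : ℕ) (ha : 0 < a)
    (hb : b ≤ a) :
    ∃ (V : Type u) (_ : AddCommGroup V) (_ : Module F V) (_ : FiniteDimensional F V)
      (B : V →ₛₗ[σ] V →ₗ[F] F) (g : End F V) (A : Submodule F V),
      IsSF 1 B ∧ Inv B g ∧ ed g = {φ ^ (a + b)} ∧ Ex0 g A ∧ (∀ u ∈ A, ∀ w ∈ A, B u w = 0) ∧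
      finrank F V = (a + b) * φ.natDegree ∧ finrank F A = b * φ.natDegree ∧
      (a = b + 1 → ∀ u ∈ perp B A, aeval g φ u ∈ A) := by
  obtain ⟨d, B, g, hB, -, hg, he⟩ := real_singleton (σ := σ) (ε := 1) (alt := False) hσ.inv
    (by simp) False.elim (isPP_pow hφ hi (k := a + b) (by omega)) (hφ.pow _).c0 (hφ.pow _).sd
    (.inl hσ.ne)
  have hV : finrank F (Fin d → F) = (a + b) * φ.natDegree := by
    rw [← dg_ed g, he, dg_singleton, natDegree_pow]
  have hk : ∀ k, k ≤ a + b →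
      finrank F (LinearMap.ker (aeval g (φ ^ k))) = k * φ.natDegree := fun k hk => by
    have := kd_eq_kds g (φ ^ k)
    rwa [he, kds_singleton, kd_cyc_pow_pow hi.ne_zero, min_eq_right hk] at this
  have hr : ∀ k l, k + l = a + b →
      finrank F (LinearMap.range (aeval g (φ ^ k))) = l * φ.natDegree := fun k l hkl => by
    have := LinearMap.finrank_range_add_finrank_ker (aeval g (φ ^ k))
    rw [hk k (by omega), hV, ← hkl, add_mul] at this
    omega
  have h0 : ∀ k, a + b ≤ k → aeval g (φ ^ k) = 0 := fun k hk =>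
    (aeval_eq_zero_iff_ed g _).2 fun P hP => by
      rw [he, Multiset.mem_singleton] at hP
      rw [hP]
      exact pow_dvd_pow _ hk
  have hle : ∀ k l, a + b ≤ k + l →
      LinearMap.range (aeval g (φ ^ l)) ≤ LinearMap.ker (aeval g (φ ^ k)) := by
    rintro k l hkl _ ⟨v, rfl⟩
    rw [LinearMap.mem_ker, ← End.mul_apply, ← map_mul, ← pow_add, h0 _ hkl, LinearMap.zero_apply]
  have hp := perp_range hB hg (hφ.pow a)
  refine ⟨_, _, _, inferInstance, B, g, LinearMap.range (aeval g (φ ^ a)), hB, hg, he,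
    range_aeval_mapsTo g _, fun u hu w hw => ?_, hV, hr a b rfl, fun hab u hu => ?_⟩
  · have : w ∈ perp B (LinearMap.range (aeval g (φ ^ a))) := hp ▸ hle a a (by omega) hw
    exact this u hu
  · have h1 : LinearMap.range (aeval g (φ ^ b)) = LinearMap.ker (aeval g (φ ^ a)) :=
      Submodule.eq_of_le_of_finrank_eq (hle a b le_rfl)
        (by rw [hr b a (add_comm _ _), hk a (by omega)])
    rw [hp, ← h1] at hu
    obtain ⟨v, rfl⟩ := hu
    exact ⟨v, by rw [← End.mul_apply, ← map_mul, ← pow_succ', hab]⟩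

theorem m0_even (hσ : Cj σ) (hφ : SD σ φ) (hi : Irreducible φ) (j : ℕ) (κ : F) :
    M0 σ {φ ^ (2 * j + 2)} κ := by
  obtain ⟨V, _, _, _, B, g, A, h1, h2, h3, h4, h5, h6, h7, -⟩ :=
    exists_block hσ hφ hi (j + 1) (j + 1) (by omega) le_rfl
  refine ⟨V, _, _, inferInstance, B, g, A, h1, h2, ?_, Fr.of_even h1 h5 (by rw [h6, h7]; ring), h4⟩
  rw [h3]; congr 2; ring

theorem m0_lin (hσ : Cj σ) {κ : F} (hκ : Mu σ κ) (j : ℕ) : M0 σ {(X - C κ) ^ (2 * j + 1)} κ := by
  obtain ⟨V, _, _, _, B, g, A, h1, h2, h3, h4, h5, h6, h7, h8⟩ :=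
    exists_block hσ (sd_lin hκ) (irreducible_X_sub_C κ) (j + 1) j (by omega) (by omega)
  rw [natDegree_X_sub_C, mul_one] at h6 h7
  have hd := h1.finrank_add_finrank_perp A
  have hle : A ≤ perp B A := fun w hw u hu => h5 u hu w hw
  obtain ⟨ν, hν, hν'⟩ : ∃ ν ∈ perp B A, ν ∉ A := by
    by_contra h
    push Not at h
    have := Submodule.finrank_mono (show perp B A ≤ A from h)
    omega
  refine ⟨V, _, _, inferInstance, B, g, A, h1, h2, ?_, ⟨h5, ν, ?_, ?_⟩, h4⟩
  · rw [h3]; congr 2; ring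
  · refine (Submodule.eq_of_le_of_finrank_eq
      (sup_le hle ((Submodule.span_singleton_le_iff_mem _ _).2 hν)) ?_).symm
    rw [Submodule.finrank_sup_span_singleton hν']
    omega
  · simpa [Algebra.algebraMap_eq_smul_one] using h8 rfl ν hν

theorem ed_eq_pair {W : Type u} [AddCommGroup W] [Module F W] [FiniteDimensional F W]
    {f : End F W} (hm : φ.Monic) (hi : Irreducible φ) (h0 : aeval f φ = 0)
    (hd : finrank F W = 2 * φ.natDegree) : ed f = {φ} + {φ} := by
  have h1 : ∀ P ∈ ed f, P = φ := fun P hP => by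
    have hP' := ed_isPP f P hP
    exact eq_of_monic_of_associated hP'.monic hm
      ((hi.dvd_iff.1 ((aeval_eq_zero_iff_ed f φ).1 h0 P hP)).resolve_left hP'.not_isUnit).symm
  have h2 := Multiset.eq_replicate_card.2 h1
  have h3 := sum_natDegree_ed f
  rw [h2, Multiset.map_replicate, Multiset.sum_replicate, hd, smul_eq_mul] at h3
  rw [h2, Nat.eq_of_mul_eq_mul_right hi.natDegree_pos h3]
  rfl

/-- reduction to `perp A / A` -/
theorem exists_reduce (hB : IsSF 1 B) (hg : Inv B g) {A : Submodule F V} (hA : Ex0 g A)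
    (hi : ∀ u ∈ A, ∀ w ∈ A, B u w = 0) (hN : ∀ u ∈ perp B A, aeval g φ u ∈ A) :
    ∃ (W : Submodule F V) (f : End F W), W ≤ perp B A ∧ Disjoint A W ∧
      finrank F V = 2 * finrank F A + finrank F W ∧ IsSF 1 (B.domRestrict₁₂ W W) ∧
      Inv (B.domRestrict₁₂ W W) f ∧ aeval f φ = 0 ∧ ∀ w : W, g w - f w ∈ A := by
  obtain ⟨C, hC⟩ := A.exists_isCompl
  have hle : A ≤ perp B A := fun w hw u hu => hi u hu w hw
  obtain ⟨p, hp1, hp2⟩ : ∃ p : End F V, (∀ v, p v ∈ C) ∧ ∀ v, v - p v ∈ A :=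
    ⟨C.projection A hC.symm, Submodule.projection_apply_mem _, Submodule.sub_projection_mem _⟩
  have hz : ∀ v, v ∈ A → v ∈ C → v = 0 := Submodule.disjoint_def.1 hC.disjoint
  have hp0 : ∀ v ∈ A, p v = 0 := fun v hv =>
    hz _ (by simpa using A.sub_mem hv (hp2 v)) (hp1 v)
  have hpU : ∀ v ∈ perp B A, p v ∈ C ⊓ perp B A := fun v hv =>
    ⟨hp1 v, by simpa using (perp B A).sub_mem hv (hle (hp2 v))⟩
  have hU := hg.perp_mapsTo hB hA
  have hBp : ∀ x ∈ perp B A, ∀ y ∈ perp B A, B (p x) (p y) = B x y := fun x hx y hy => by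
    have e1 : B (x - p x) y = 0 := hy _ (hp2 x)
    have e2 : B (p x) (y - p y) = 0 := hB.eq_zero_comm.1 ((hpU x hx).2 _ (hp2 y))
    simp only [map_sub, LinearMap.sub_apply] at e1 e2
    linear_combination -e1 - e2
  have hpW : ∀ w ∈ C ⊓ perp B A, p w = w := fun w hw =>
    (sub_eq_zero.1 (hz _ (hp2 w) (C.sub_mem hw.1 (hp1 w)))).symm
  have hf : ∀ w ∈ C ⊓ perp B A, (p * g) w ∈ C ⊓ perp B A := fun w hw => hpU _ (hU w hw.2)
  have hdj : Disjoint A (C ⊓ perp B A) := hC.disjoint.mono_right inf_le_left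
  have hsup : A ⊔ C ⊓ perp B A = perp B A :=
    le_antisymm (sup_le hle inf_le_right) fun v hv =>
      Submodule.mem_sup.2 ⟨_, hp2 v, _, hpU v hv, by simp⟩
  refine ⟨C ⊓ perp B A, (p * g).restrict hf, inf_le_right, hdj, ?_, hB.restrict ?_,
    fun x y => ?_, ?_, fun w => hp2 _⟩
  · have h1 := Submodule.finrank_sup_add_finrank_inf_eq A (C ⊓ perp B A)
    rw [hsup, hdj.eq_bot, finrank_bot] at h1
    have h2 := hB.finrank_add_finrank_perp A
    omega
  · refine hB.disjoint_of_restrict fun x hx h => hz x ?_ hx.1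
    rw [← hB.perp_perp A, hB.mem_perp']
    intro y hy
    rw [← hBp x hx.2 y hy, hpW x hx]
    exact h _ (hpU y hy)
  · exact (hBp _ (hU _ x.2.2) _ (hU _ y.2.2)).trans (hg x y)
  · let e : perp B A →ₗ[F] (C ⊓ perp B A : Submodule F V) := p.restrict hpU
    have he : ∀ v, e (g.restrict hU v) = (p * g).restrict hf (e v) := fun v => by
      apply Subtype.ext
      have := hp0 _ (hA _ (hp2 v))
      rw [map_sub, map_sub, sub_eq_zero] at this
      exact this
    ext1 w
    have h1 := intertwine_aeval e he φ ⟨w, w.2.2⟩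
    have h2 : e ⟨w, w.2.2⟩ = w := Subtype.ext (hpW w w.2)
    rw [h2] at h1
    rw [← h1]
    apply Subtype.ext
    change p (aeval (g.restrict hU : End F _) φ ⟨w, w.2.2⟩ : perp B A) = 0
    rw [coe_aeval_restrict]
    exact hp0 _ (hN _ w.2.2)

theorem m0_odd [Finite F] (hσ : Cj σ) (hφ : SD σ φ) (hi : Irreducible φ) (i j : ℕ) (κ : F) :
    M0 σ {φ ^ (2 * i + 1), φ ^ (2 * j + 1)} κ := by
  obtain ⟨V1, _, _, _, B1, g1, A1, h1, h2, h3, h4, h5, h6, h7, h8⟩ :=
    exists_block hσ hφ hi (i + 1) i (by omega) (by omega)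
  obtain ⟨V2, _, _, _, B2, g2, A2, h1', h2', h3', h4', h5', h6', h7', h8'⟩ :=
    exists_block hσ hφ hi (j + 1) j (by omega) (by omega)
  have hB := h1.sumForm h1'
  have hg := h2.prodMap h2'
  have hA := ex0_prod h4 h4'
  have hI := iso_prod h5 h5'
  obtain ⟨W, f, k1, k2, k3, k4, k5, k6, k7⟩ := exists_reduce (φ := φ) hB hg hA hI fun u hu => by
    rw [perp_prod] at hu
    rw [aeval_prodMap]
    exact ⟨h8 rfl _ hu.1, h8' rfl _ hu.2⟩
  have hdA : finrank F (A1.prod A2) = (i + j) * φ.natDegree := by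
    rw [add_mul, ← h7, ← h7', ← Module.finrank_prod, ← LinearMap.finrank_range_of_inj
      (f := A1.subtype.prodMap A2.subtype) (A1.injective_subtype.prodMap A2.injective_subtype),
      LinearMap.range_prodMap, Submodule.range_subtype, Submodule.range_subtype]
  have hdW : finrank F W = 2 * φ.natDegree := by
    rw [Module.finrank_prod, h6, h6', hdA] at k3
    linarith
  obtain ⟨V0, _, _, _, B0, g0, L0, m1, m2, m3, m4, m5⟩ := m0_hyp hσ.inv (s := {φ})
    (by simpa using isPP_of_irreducible hφ.mon hi) (by simpa using hφ.c0) κ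
  rw [Multiset.map_singleton, hφ.sd] at m3
  have hdL : finrank F L0 = φ.natDegree := by
    have e1 : dg (ed g0) = 2 * φ.natDegree := by rw [m3, dg_add, dg_singleton, two_mul]
    have e2 := (perp_eq_of_even m4 m1 (e1 ▸ even_two_mul _)).1
    rw [dg_ed] at e1
    omega
  obtain ⟨e, he1, he2⟩ := iso_of_sim m1 k4 m2 k5 (.inl hσ.ne)
    (sim_of_ed_eq (m3.trans (ed_eq_pair hφ.mon hi k6 hdW).symm))
  let E : V0 →ₗ[F] V1 × V2 := W.subtype ∘ₗ e.toLinearMap
  have hE : Function.Injective E := Subtype.val_injective.comp e.injective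
  have hEW : L0.map E ≤ W := by
    rintro _ ⟨l, -, rfl⟩
    exact (e l).2
  refine ⟨V1 × V2, _, _, inferInstance, _, _, A1.prod A2 ⊔ L0.map E, hB, hg, ?_,
    Fr.of_even hB ?_ ?_, ?_⟩
  · rw [ed_prodMap, h3, h3', Multiset.singleton_add, Multiset.insert_eq_cons,
      show i + 1 + i = 2 * i + 1 by ring, show j + 1 + j = 2 * j + 1 by ring]
  · intro u hu w hw
    obtain ⟨a, ha, _, ⟨l, hl, rfl⟩, rfl⟩ := Submodule.mem_sup.1 hu
    obtain ⟨a', ha', _, ⟨l', hl', rfl⟩, rfl⟩ := Submodule.mem_sup.1 hw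
    have e1 : sumForm B1 B2 a (E l') = 0 := k1 (e l').2 a ha
    have e2 : sumForm B1 B2 (E l) a' = 0 := hB.eq_zero_comm.1 (k1 (e l).2 a' ha')
    have e3 : sumForm B1 B2 (E l) (E l') = 0 := (he2 l l').trans (m4.iso l hl l' hl')
    simp only [map_add, LinearMap.add_apply, hI a ha a' ha', e1, e2, e3, add_zero]
  · have e1 := Submodule.finrank_sup_add_finrank_inf_eq (A1.prod A2) (L0.map E)
    rw [(k2.mono_right hEW).eq_bot, finrank_bot, ← (L0.equivMapOfInjective E hE).finrank_eq,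
      hdL] at e1
    omega
  · intro u hu
    obtain ⟨a, ha, _, ⟨l, hl, rfl⟩, rfl⟩ := Submodule.mem_sup.1 hu
    rw [map_add]
    refine add_mem (Submodule.mem_sup_left (hA a ha))
      (Submodule.mem_sup.2 ⟨_, k7 (e l), E (g0 l), ⟨_, m5 l hl, rfl⟩, ?_⟩)
    rw [← he1]
    exact sub_add_cancel _ _

end

theorem jobH : JobH.{u} := fun _ _ _ _ i j κ hσ =>
  ⟨fun _ hφ hi => ⟨m0_even hσ hφ hi j κ, m0_odd hσ hφ hi i j κ⟩, fun hκ => m0_lin hσ hκ j⟩

end H29.Ou
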