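/- R3 (S4881), slot Lat4. -/
import Cfsg.Agent.H70.R3Spec

set_option autoImplicit false

open Cfsg H90 H70.R3 Module Subgroup MulAction

namespace H29.R3L

universe u
variable {G V : Type u} [Group G] [AddCommGroup V] [DistribMulAction G V] [Finite G] [Finite V]
  [FaithfulSMul G V] [Nontrivial V] {p : ℕ}

theorem k_one {k d : ℕ} (h : k * d = 4) (h3 : 3 ≤ d) : k = 1 ∧ d = 4 := by
  have : d ≤ 4 := Nat.le_of_dvd (by norm_num) (Dvd.intro_left k h)
  interval_cases d <;> omega

omit [Finite G] [Finite V] in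
theorem cent_top {A : Subgroup G} {E : Type} [Field E] [Finite E] [Module E V] {k : ℕ} (hp : p.Prime)
    (F : Frame V p 4 A E k) (h3 : 3 ≤ finrank E V) : centralizer (A : Set G) = ⊤ := by
  obtain ⟨D⟩ := F.fd
  obtain ⟨rfl, -⟩ := k_one F.mul h3
  exact index_eq_one.1 (Nat.dvd_one.1 (D.index_centralizer_dvd hp F.card))

omit [Finite G] [Finite V] in
theorem le_center (hp : p.Prime) (h : Framed G V p 4 3) (B : Subgroup G) (h1 : B.Normal)
    (h2 : IsMulCommutative B) : B ≤ center G := by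
  obtain ⟨A, E, _, _, _, k, le, F, h3⟩ := h B h1 h2
  intro b hb
  exact mem_center_iff.2 fun g => ((cent_top hp F h3).ge (mem_top g) b (le hb)).symm

omit [Finite G] in
theorem card_dvd (hp : p.Prime) (h : Framed G V p 4 3) :
    Nat.card G ∣ (p ^ 4 - 1) * (p ^ 4 - p) * (p ^ 4 - p ^ 2) * (p ^ 4 - p ^ 3) := by
  obtain ⟨A, E, _, _, _, k, -, F, h3⟩ := h ⊥ inferInstance inferInstance
  obtain ⟨D⟩ := F.fd
  have hc := cent_top hp F h3
  obtain ⟨rfl, h4⟩ := k_one F.mul h3
  have : SMulCommClass G E V := ⟨fun g c v => D.smul_comm (hc.ge (mem_top g)) c v⟩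
  have : Module.Finite E V := Module.Finite.of_finite
  let b := finBasisOfFinrankEq E V h4
  let f : G →* GL (Fin 4) E := (((LinearMap.toMatrixAlgEquiv b).toMulEquiv.toMonoidHom).comp
    (DistribMulAction.toModuleEnd E V)).toHomUnits
  have hf : Function.Injective f := fun g g' e => eq_of_smul_eq_smul (α := V) fun v =>
    LinearMap.congr_fun ((LinearMap.toMatrixAlgEquiv b).injective (congrArg Units.val e)) v
  have := card_dvd_of_injective f hf
  rw [Matrix.card_GL_field, ← Nat.card_eq_fintype_card, F.card, Fin.prod_univ_four] at this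
  simpa using this

theorem jobLat4 : JobLat4.{u} := by
  intro hX hN h19 G V _ _ _ _ _ _ p v₁ v₂ B F hχ hS ⟨u, hu⟩ ⟨w, hw⟩ hC
  have := B.toTwo.nontrivial
  have hp := B.prime
  have h13 := B.ge13 le_rfl
  obtain ⟨k, d, h3, -, hk, e, he⟩ := F.dvd (center G)
  obtain ⟨rfl, -⟩ := k_one hk h3
  have hz : Nat.card (center G) * e + 1 = p := by rw [← he, pow_one]; omega
  have hG : (center G).index * Nat.card (center G) = Nat.card G := index_mul_card _
  have hsq : p ^ 2 - 1 = Nat.card (center G) * e * (p + 1) := by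
    rw [← he, pow_one, mul_comm, ← Nat.sq_sub_sq, one_pow]
  have pos : 0 < p ^ 2 - 1 := Nat.sub_pos_of_lt (Nat.one_lt_pow two_ne_zero hp.one_lt)
  have huw : u + w = p ^ 2 + 1 := by
    have h := B.toTwo.add
    rw [hu, hw] at h
    refine Nat.eq_of_mul_eq_mul_left pos ?_
    rw [mul_comm _ (p ^ 2 + 1), ← Nat.sq_sub_sq, one_pow, ← pow_mul, ← h, mul_add]
    rfl
  have dv : ∀ {t} {v : V}, (stabilizer G v).index = (p ^ 2 - 1) * t → e * (p + 1) * t ∣ (center G).index :=
    fun {t v} h => Nat.dvd_of_mul_dvd_mul_right (k := Nat.card (center G)) Nat.card_pos (by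
      rw [hG]
      refine (dvd_of_eq ?_).trans (index_dvd_card (stabilizer G v))
      rw [h, hsq]; ring)
  obtain ⟨rfl, h160⟩ := hN p _ e u w _ _ hp h13 hz huw (Nat.pos_of_ne_zero index_ne_zero_of_finite)
    (dv hu) (dv hw) (hX G hχ (le_center hp F)) (hG ▸ card_dvd hp F) hC B.lt
  have := h19 G V v₁ B.card B.toTwo.exp B.ne₁ hS hχ (hG ▸ h160)
  have := B.lt
  omega

end H29.R3L
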