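import Cfsg.Agent.H52.SimXSSpec

/-! # S3694 (tower SIM), chapter XS, job `TH`: the semilinear (anti-)automorphisms -/

set_option autoImplicit false

open Subgroup Cfsg H98 Matrix H0.Sim H52.XS

namespace H29.STH

variable {n : ℕ} {F : Type} [Field F] (j : Jm n F)

theorem th_add (a b : Mt n F) : th j (a + b) = th j a + th j b := by
  unfold th
  split <;> simp [Matrix.map_add, Matrix.mul_add, Matrix.add_mul]

theorem mid (x y : Mt n F) :
    (j.c : Mt n F) * (x * y) * ((j.c⁻¹ : GL (Fin n) F) : Mt n F) =
      (j.c : Mt n F) * x * ((j.c⁻¹ : GL (Fin n) F) : Mt n F) *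
        ((j.c : Mt n F) * y * ((j.c⁻¹ : GL (Fin n) F) : Mt n F)) := by
  simp only [Matrix.mul_assoc, Units.inv_mul_cancel_left]

theorem map_mul' (a b : Mt n F) : (a * b).map j.σ = a.map j.σ * b.map j.σ :=
  Matrix.map_mul (f := j.σ.toRingHom)

theorem th_mul (a b : Mt n F) :
    th j (a * b) = if j.a then th j b * th j a else th j a * th j b := by
  unfold th
  split
  · rw [map_mul', transpose_mul, mid]
  · rw [map_mul', mid]

theorem th_one : th j 1 = 1 := by
  unfold th
  split <;> simp [Matrix.map_one]

theorem th_smul (c : F) (a : Mt n F) : th j (c • a) = j.σ c • th j a := by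
  have e : (c • a).map j.σ = j.σ c • a.map j.σ := by
    ext i k
    simp
  unfold th
  split <;> simp [e]

theorem th_inj : Function.Injective (th j) := fun a b e => by
  unfold th at e
  have e1 := (Units.mul_right_inj j.c).1 ((Units.mul_left_inj j.c⁻¹).1 e)
  have k : a.map j.σ = b.map j.σ := by
    split at e1
    · exact transpose_injective e1
    · exact e1
  exact Matrix.map_injective j.σ.injective k

theorem th_inv (x : GL (Fin n) F) :
    th j (x : Mt n F) * th j ((x⁻¹ : GL (Fin n) F) : Mt n F) = 1 := by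
  have a := th_mul j (x : Mt n F) ((x⁻¹ : GL (Fin n) F) : Mt n F)
  have b := th_mul j ((x⁻¹ : GL (Fin n) F) : Mt n F) (x : Mt n F)
  rw [Units.mul_inv, th_one] at a
  rw [Units.inv_mul, th_one] at b
  split at a
  · rename_i h; rw [if_pos h] at b; exact b.symm
  · exact a.symm

/-- The unit with value `th j x`. -/
noncomputable def un (x : GL (Fin n) F) : GL (Fin n) F :=
  ⟨th j x, th j ((x⁻¹ : GL (Fin n) F) : Mt n F), th_inv j x, by simpa using th_inv j x⁻¹⟩

theorem un_inv (x : GL (Fin n) F) : un j x⁻¹ = (un j x)⁻¹ := Units.ext rfl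

/-- The automorphism. -/
noncomputable def al : GL (Fin n) F →* GL (Fin n) F :=
  MonoidHom.mk' (fun x => if j.a then un j x⁻¹ else un j x) fun x y => by
    split
    · rename_i h
      refine Units.ext ?_
      show th j (((x * y)⁻¹ : GL (Fin n) F) : Mt n F) = th j _ * th j _
      rw [_root_.mul_inv_rev, Units.val_mul, th_mul, if_pos h]
    · rename_i h
      refine Units.ext ?_
      show th j ((x * y : GL (Fin n) F) : Mt n F) = th j _ * th j _
      rw [Units.val_mul, th_mul, if_neg h]

theorem un_inj : Function.Injective (un j) := fun _ _ e =>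
  Units.ext (th_inj j (congrArg Units.val e))

theorem al_mem (Y : Subgroup (GL (Fin n) F)) (x : GL (Fin n) F) : al j x ∈ Y ↔ un j x ∈ Y := by
  show (if j.a then un j x⁻¹ else un j x) ∈ Y ↔ _
  split
  · rw [un_inv, inv_mem_iff]
  · rfl

theorem al_inj : Function.Injective (al j) := fun x y e => by
  change (if j.a then un j x⁻¹ else un j x) = if j.a then un j y⁻¹ else un j y at e
  split at e
  · exact inv_injective (un_inj j e)
  · exact un_inj j e

theorem job : TH := by
  intro n F _ _ j
  refine ⟨th_add j, th_mul j, th_one j, th_smul j, Finite.injective_iff_bijective.1 (th_inj j),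
    MulEquiv.ofBijective (al j) (Finite.injective_iff_bijective.1 (al_inj j)), fun Y => ?_⟩
  show _ ↔ Y.map (al j) = Y
  constructor
  · intro h
    refine eq_of_le_of_card_ge ?_ (card_map_of_injective (al_inj j)).ge
    rintro _ ⟨x, hx, rfl⟩
    obtain ⟨e, he, e1⟩ := h _ ⟨x, hx, rfl⟩
    rw [al_mem, show un j x = e from Units.ext e1.symm]
    exact he
  · rintro h _ ⟨x, hx, rfl⟩
    exact ⟨un j x, (al_mem j Y x).1 (h.le (mem_map_of_mem _ hx)), rfl⟩

end H29.STH
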