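/- Tower SPIN, slot SUM: `Vq` and `GSum` -/
import Cfsg.Agent.H2.SpSpec

set_option autoImplicit false

namespace H29.Sp
open Finset hiding val
open H2.Sp Equiv MvPolynomial

theorem val_sum {ι : Type} (s : Finset ι) (f : ι → Γ) (ρ : Multiset ℕ) :
    val (∑ i ∈ s, f i) ρ = ∑ i ∈ s, val (f i) ρ := by
  simp only [val, coeff_sum, mul_sum]

theorem d_prod {ι : Type} [DecidableEq ι] (k : ℕ) (s : Finset ι) (f : ι → Γ) :
    pderiv k (∏ i ∈ s, f i) = ∑ i ∈ s, (∏ j ∈ s.erase i, f j) • pderiv k (f i) := by
  induction s using Finset.induction_on with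
  | empty => simp
  | insert a s ha ih =>
    rw [prod_insert ha, sum_insert ha, Derivation.leibniz, ih, erase_insert ha, add_comm, smul_sum]
    refine congrArg _ (sum_congr rfl fun i hi => ?_)
    rw [erase_insert_of_ne (ne_of_mem_of_not_mem hi ha).symm, prod_insert fun h => ha (mem_of_mem_erase h),
      mul_smul]

theorem jobVq : Kit → Vq := fun K m α ρ hρ => by
  have hq : ∀ n : ℕ, q n = qz n := fun n => by simp [qz]
  induction ρ using Multiset.induction_on generalizing α with
  | empty =>
    rw [K.val_zero, H40.Sn.pm_zero, ← H40.Sn.mo_zero, H40.Sn.cf_mo, map_prod]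
    simp only [hq, K.cc_qz, Nat.cast_eq_zero, prod_ite_zero, prod_const_one, mem_univ, true_imp_iff]
    exact if_congr ⟨fun h => _root_.funext fun j => (h j).symm, fun h j => (congrFun h j).symm⟩ rfl rfl
  | cons r ρ ih =>
    obtain ⟨k, rfl⟩ := hρ r (Multiset.mem_cons_self _ _)
    rw [K.val_cons, H40.Sn.pm_cons, H40.Sn.cf_mul_psum, d_prod, val_sum,
      show (2 * k + 1) / 2 = k by omega]
    refine sum_congr rfl fun j _ => ?_
    rw [hq (α j), K.d_qz]
    split_ifs with h
    · rw [← ih _ fun r hr => hρ r (Multiset.mem_cons_of_mem hr), ← prod_erase_mul _ _ (mem_univ j),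
        smul_eq_mul]
      congr 2
      · exact prod_congr rfl fun i hi => by simp [Pi.single_eq_of_ne (ne_of_mem_erase hi)]
      · simp [hq, Nat.cast_sub h]
    · rw [qz, if_neg (by omega), smul_zero, val, coeff_zero, mul_zero]

/-- the odd partition of a monomial -/
noncomputable def od (m : ℕ →₀ ℕ) : Multiset ℕ := (Finsupp.toMultiset m).map (2 * · + 1)

theorem mon_od (m : ℕ →₀ ℕ) : mon (od m) = m := by
  rw [mon, od, Multiset.map_map, Multiset.map_congr rfl (g := id) fun x _ => by simp; omega]
  simp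

theorem odd_od (m : ℕ →₀ ℕ) : OddM (od m) := fun r hr => by
  obtain ⟨k, -, rfl⟩ := Multiset.mem_map.1 hr
  exact odd_two_mul_add_one k

theorem od_mon {ρ : Multiset ℕ} (h : OddM ρ) : od (mon ρ) = ρ := by
  rw [od, mon, Multiset.toFinsupp_toMultiset, Multiset.map_map]
  exact (Multiset.map_congr rfl (g := id) fun x hx => Nat.two_mul_div_two_add_one_of_odd (h x hx)).trans
    (Multiset.map_id _)

theorem card_parts {Ω : Type} [Fintype Ω] [DecidableEq Ω] {ρ : Multiset ℕ} (h : ∀ k ∈ ρ, 0 < k)
    (hs : ρ.sum = Fintype.card Ω) : (univ.filter fun σ : Perm Ω => σ.partition.parts = ρ).card *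
      (ρ.prod * (Multiset.toFinsupp ρ).prod fun _ e => e.factorial) = (Fintype.card Ω).factorial := by
  obtain ⟨g, rfl⟩ := H40.Sn.exists_parts_eq h hs
  rw [← g.card_isConj_mul_eq]
  congr 1
  · rw [Nat.card_eq_fintype_card, Fintype.card_subtype]
    exact congrArg _ (filter_congr fun σ _ => eq_comm.trans H40.Sn.parts_eq_iff)
  · rw [Perm.parts_partition, Multiset.prod_add, Multiset.prod_replicate, one_pow, mul_one, map_add,
      Finsupp.prod_add_index_of_disjoint, ← Multiset.nsmul_singleton, map_nsmul, Multiset.toFinsupp_singleton,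
      Finsupp.smul_single, Finsupp.prod_single_index rfl, g.sum_cycleType, smul_eq_mul, mul_one]
    · simp only [Finsupp.prod, Multiset.toFinsupp_support, Multiset.toFinsupp_apply]
      ring
    · simp only [Multiset.toFinsupp_support, disjoint_left, Multiset.mem_toFinset]
      exact fun a ha h => (Perm.one_lt_of_mem_cycleType ha).ne' (Multiset.eq_of_mem_replicate h)

theorem jobGSum : GSum := fun Ω _ _ f g h => by
  classical
  rw [ip, mul_sum, ← sum_filter_of_ne (p := fun σ : Perm Ω => mon σ.partition.parts ∈ f.support)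
    fun σ _ e => mem_support_iff.2 fun e' => e (by rw [val, e']; simp), ← sum_fiberwise_eq_sum_filter]
  refine sum_congr rfl fun m hm => ?_
  have hi : Function.Injective fun x : ℕ => 2 * x + 1 := fun a b e => by simpa using e
  have e1 : (univ.filter fun σ : Perm Ω => OddM σ.partition.parts).filter (fun σ => mon σ.partition.parts = m) =
      univ.filter fun σ : Perm Ω => σ.partition.parts = od m := by
    rw [filter_filter]
    exact filter_congr fun σ _ => ⟨fun e => by rw [← e.2, od_mon e.1], fun e => e ▸ ⟨odd_od m, mon_od m⟩⟩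
  have e2 := card_parts (Ω := Ω) (fun k hk => (odd_od m k hk).pos) (h _ (odd_od m) (by
    rw [val, mon_od]
    exact mul_ne_zero (Finsupp.prod_ne_zero_iff.2 fun _ _ => by positivity) (mem_support_iff.1 hm)))
  rw [e1, sum_congr rfl fun σ hσ => by rw [(mem_filter.1 hσ).2], sum_const, nsmul_eq_mul, ← e2, val, val, mon_od,
    od, Multiset.card_map, Finsupp.toMultiset_map, Finsupp.prod_toMultiset, Finsupp.toMultiset_toFinsupp,
    Finsupp.prod_mapDomain_index_inj hi, Finsupp.prod_mapDomain_index_inj hi, Finsupp.card_toMultiset, wt]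
  have e3 : (∏ k ∈ m.support, (2 * (k : ℚ) + 1) ^ m k) * ∏ k ∈ m.support, (2 / (2 * (k : ℚ) + 1)) ^ m k =
      2 ^ ∑ k ∈ m.support, m k := by
    rw [← prod_mul_distrib, ← prod_pow_eq_pow_sum]
    exact prod_congr rfl fun k _ => by rw [← mul_pow, mul_div_cancel₀ _ (by positivity)]
  simp only [Finsupp.prod, Finsupp.sum, id, prod_mul_distrib]
  push_cast
  rw [← e3]
  ring

end H29.Sp
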