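import Cfsg.Agent.H28.CharKer

/-! Extending an irreducible representation to a group of automorphisms by explicit intertwiners. -/

set_option autoImplicit false
set_option linter.unusedSectionVars false

namespace H29.WUZ

open _root_.Cfsg H28 Module
open scoped ComplexConjugate

variable {H Γ N : Type*} [Group H] [Fintype H] [Group Γ] [AddCommGroup N] [Module ℂ N]
  [FiniteDimensional ℂ N] (ρ : Representation ℂ H N) (γ : Γ →* MulAut H)

/-- The intertwiner. -/
noncomputable def T (g : Γ) : End ℂ N := ∑ h, ρ (γ g h * h⁻¹)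

theorem T_mul (g : Γ) (k : H) : T ρ γ g * ρ k = ρ (γ g k) * T ρ γ g := by
  simp only [T, Finset.sum_mul, Finset.mul_sum, ← map_mul]
  rw [← Equiv.sum_comp (Equiv.mulLeft k)]
  exact Finset.sum_congr rfl fun h _ => by simp [mul_assoc]

theorem T_one : T ρ γ 1 = (Fintype.card H : ℂ) • 1 := by
  simp [T, Nat.cast_smul_eq_nsmul]

theorem T_inv (g : Γ) : T ρ γ g⁻¹ = ∑ h, ρ (γ g h * h⁻¹)⁻¹ := by
  rw [T, ← Equiv.sum_comp (γ g).toEquiv]
  exact Finset.sum_congr rfl fun h _ => by simp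

theorem tr_inv (a b : Γ) : LinearMap.trace ℂ N (T ρ γ b⁻¹ * T ρ γ a⁻¹) =
    conj (LinearMap.trace ℂ N (T ρ γ a * T ρ γ b)) := by
  rw [T_inv, T_inv, T, T, Finset.sum_mul_sum, Finset.sum_mul_sum, Finset.sum_comm]
  simp only [map_sum, ← map_mul, ← mul_inv_rev]
  exact Finset.sum_congr rfl fun h _ => Finset.sum_congr rfl fun k _ =>
    (isCharacter_rep ρ).apply_inv _

variable [ρ.IsIrreducible]

theorem avg (h0 : ρ.character 1 ≠ 0) (X : End ℂ N) : ∑ h, ρ h * X * ρ h⁻¹ =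
    (Fintype.card H * LinearMap.trace ℂ N X / ρ.character 1) • 1 := by
  obtain ⟨c, hc⟩ := exists_eq_smul_id_of_comm ρ (∑ h, ρ h * X * ρ h⁻¹) fun g => by
    change _ * ρ g = ρ g * _
    rw [Finset.sum_mul, Finset.mul_sum, ← Equiv.sum_comp (Equiv.mulLeft g)]
    exact Finset.sum_congr rfl fun h _ => by
      simp only [Equiv.coe_mulLeft, mul_assoc, ← map_mul, mul_inv_rev, inv_mul_cancel, mul_one]
      rw [map_mul, mul_assoc]
  have h1 := congrArg (LinearMap.trace ℂ N) hc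
  rw [map_sum, Finset.sum_congr rfl (g := fun _ => LinearMap.trace ℂ N X) fun h _ => by
    rw [LinearMap.trace_mul_comm, ← mul_assoc, ← map_mul, inv_mul_cancel, map_one, one_mul],
    Finset.sum_const, Finset.card_univ, nsmul_eq_mul, map_smul, smul_eq_mul] at h1
  have h2 : ρ.character 1 = LinearMap.trace ℂ N LinearMap.id := by
    rw [Representation.character, map_one]; rfl
  rw [hc, h1, ← h2, mul_div_cancel_right₀ _ h0]; rfl

theorem T_T_inv (h0 : ρ.character 1 ≠ 0) (g : Γ) : T ρ γ g * T ρ γ g⁻¹ =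
    (Fintype.card H * LinearMap.trace ℂ N (T ρ γ g) / ρ.character 1) • 1 := by
  rw [← avg ρ h0, T.eq_1 ρ γ g⁻¹, Finset.mul_sum]
  exact Finset.sum_congr rfl fun h _ => by rw [map_mul, ← mul_assoc, T_mul]; simp

theorem T_two (h0 : ρ.character 1 ≠ 0) (a b : Γ) :
    ((Fintype.card H * LinearMap.trace ℂ N (T ρ γ a) / ρ.character 1) *
      (Fintype.card H * LinearMap.trace ℂ N (T ρ γ b) / ρ.character 1)) • T ρ γ (a * b) =
    (Fintype.card H * conj (LinearMap.trace ℂ N (T ρ γ a * T ρ γ b)) / ρ.character 1) •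
      (T ρ γ a * T ρ γ b) := by
  have h1 := avg ρ h0 (T ρ γ b⁻¹ * T ρ γ a⁻¹)
  rw [tr_inv] at h1
  have h3 : ∀ (c : ℂ) (X : End ℂ N), c • X = X * c • 1 := fun c X => by simp
  rw [h3 _ (T ρ γ a * T ρ γ b), ← h1, Finset.mul_sum, T.eq_1 ρ γ (a * b), Finset.smul_sum]
  refine Finset.sum_congr rfl fun h _ => ?_
  have h2 : T ρ γ a * T ρ γ b * ρ h = ρ (γ (a * b) h) * (T ρ γ a * T ρ γ b) := by
    rw [mul_assoc, T_mul, ← mul_assoc, T_mul, mul_assoc, map_mul γ, MulAut.mul_apply]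
  rw [← mul_assoc, ← mul_assoc, h2, mul_assoc (ρ _), mul_assoc (T ρ γ a), ← mul_assoc (T ρ γ b),
    T_T_inv ρ γ h0, smul_mul_assoc, one_mul, mul_smul_comm, T_T_inv ρ γ h0, smul_smul, mul_smul_comm,
    mul_one, smul_mul_assoc, map_mul, mul_comm]

theorem isCharacter {q n κ : ℕ} (hq : 2 ≤ q) (hκ : κ ≠ 0) {d : Γ → ℕ} (d1 : d 1 = n)
    (hH : Fintype.card H = κ * q ^ (2 * n)) (hD : ρ.character 1 = (q : ℂ) ^ n)
    (h1 : ∀ g, LinearMap.trace ℂ N (T ρ γ g) = κ * q ^ n * q ^ (2 * d g))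
    (h2 : ∀ a b, ∃ m : ℕ, LinearMap.trace ℂ N (T ρ γ a * T ρ γ b) = κ ^ 2 * q ^ n * (-q) ^ m) :
    IsCharacter Γ fun g => (-1) ^ n * (-(q : ℂ)) ^ d g := by
  have q0 : (q : ℂ) ≠ 0 := Nat.cast_ne_zero.2 (by omega)
  have k0 : (κ : ℂ) ≠ 0 := Nat.cast_ne_zero.2 hκ
  have ev : ∀ k, (q : ℂ) ^ (2 * k) = (-q) ^ (2 * k) := fun k => (Even.neg_pow (by simp) _).symm
  have h0 : ρ.character 1 ≠ 0 := hD ▸ pow_ne_zero _ q0
  let om : Γ →* End ℂ N :=
    { toFun := fun g => ((κ : ℂ) * (-q) ^ (n + d g))⁻¹ • T ρ γ g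
      map_one' := by
        rw [T_one, smul_smul, d1, hH, ← two_mul, ← ev]
        push_cast
        rw [inv_mul_cancel₀ (mul_ne_zero k0 (pow_ne_zero _ q0)), one_smul]
      map_mul' := fun a b => by
        obtain ⟨m, hm⟩ := h2 a b
        have h3 := T_two ρ γ h0 a b
        rw [h1, h1, hm, hD, hH] at h3
        simp only [map_mul, map_pow, map_neg, map_natCast] at h3
        push_cast at h3
        have h4 := congrArg (LinearMap.trace ℂ N) h3
        rw [map_smul, map_smul, h1, hm, smul_eq_mul, smul_eq_mul] at h4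
        have h5 : (q : ℂ) ^ (2 * (n + d a + d b + d (a * b))) = q ^ (2 * m) := by
          rw [ev m]
          field_simp at h4
          linear_combination h4
        have h6 : m = n + d a + d b + d (a * b) := by
          have := Nat.pow_right_injective hq (by exact_mod_cast h5 :
            q ^ (2 * (n + d a + d b + d (a * b))) = q ^ (2 * m))
          omega
        have x0 : ∀ k, (-(q : ℂ)) ^ k ≠ 0 := fun k => pow_ne_zero _ (neg_ne_zero.2 q0)
        have h7 : (κ * q ^ (2 * n) * (κ ^ 2 * q ^ n * (-q) ^ m) / q ^ n : ℂ) ≠ 0 := by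
          have := x0 m
          positivity
        rw [smul_mul_smul_comm, (inv_smul_eq_iff₀ h7).2 h3 |>.symm, smul_smul, smul_smul, h6, ev, ev, ev]
        congr 1
        have := x0 n
        have := x0 (d a)
        have := x0 (d b)
        have := x0 (d (a * b))
        simp only [pow_add, two_mul]
        field_simp }
  convert isCharacter_rep (V := N) om using 2 with g
  change _ = LinearMap.trace ℂ N ((_ : ℂ) • T ρ γ g)
  rw [map_smul, h1, ev, smul_eq_mul, pow_add, neg_pow (q : ℂ) n, two_mul, pow_add]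
  have := pow_ne_zero (d g) (neg_ne_zero.2 q0)
  have h3 : ((-1 : ℂ) ^ n) ^ 2 = 1 := by rw [← pow_mul, mul_comm, pow_mul]; simp
  field_simp
  rw [h3]

end H29.WUZ
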